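import Mathlib
import Cfsg.Agent.Lib.MGroup.Wreath

/-!
# Every finite solvable group embeds in `H / Z(H)` for `H` of central type

A regular affine action of `G₁` on an abelian group `A` of squarefree exponent gives a
monomial group `H` on `ℂ^A` (functions `A → μ_m` of affine type, extended by `G₁`) whose
natural character vanishes off the centre `μ_m`.  Regular affine actions are closed under
wreathing with cyclic groups of prime order, and a solvable group embeds in iterated wreaths.
-/

set_option autoImplicit false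
set_option linter.unusedSectionVars false
set_option linter.unusedSimpArgs false
set_option linter.unusedVariables false
set_option linter.style.haveILetI false
set_option linter.unnecessarySimpa false

open scoped ComplexConjugate

namespace Cfsg.Agent.Lib.CharExtra.CentralType

open Cfsg (classInner IsCharacter IsIrrCharacter IrrCharacter IsClassFunction charDegree indFun
  extendByZero)
open Cfsg.Agent.Lib.Char
open Cfsg.Agent.Lib.MGroup (Wr wr_mul_left_apply exists_wr_embedding)

universe u

/-- A regular action by affine maps. -/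
structure RegAff (G₁ A : Type u) [Group G₁] [AddCommGroup A] [MulAction G₁ A] : Prop where
  aff : ∀ g : G₁, ∃ (L : A →+ A) (b : A), ∀ a, g • a = L a + b
  bij : Function.Bijective (fun g : G₁ => g • (0 : A))

section Construction

variable {G₁ A : Type u} [Group G₁] [AddCommGroup A] [MulAction G₁ A] (m : ℕ) [NeZero m]

variable (A) in
/-- Functions of the form `ζ · ξ`, with values in `μ_m`. -/
def affSub : Subgroup (A → rootsOfUnity m ℂ) where
  carrier := {f | ∀ a b, f (a + b) * f 0 = f a * f b}
  mul_mem' := by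
    intro f f' hf hf' a b
    simp only [Pi.mul_apply]
    calc f (a + b) * f' (a + b) * (f 0 * f' 0) = (f (a + b) * f 0) * (f' (a + b) * f' 0) := by
          exact mul_mul_mul_comm _ _ _ _
      _ = (f a * f b) * (f' a * f' b) := by rw [hf a b, hf' a b]
      _ = f a * f' a * (f b * f' b) := mul_mul_mul_comm _ _ _ _
  one_mem' := by intro a b; simp
  inv_mem' := by
    intro f hf a b
    simp only [Pi.inv_apply]
    rw [← mul_inv, ← mul_inv, hf]

theorem mem_affSub {f : A → rootsOfUnity m ℂ} :
    f ∈ affSub A m ↔ ∀ a b, f (a + b) * f 0 = f a * f b := Iff.rfl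

theorem comp_mem (h : RegAff G₁ A) (g : G₁) {f : A → rootsOfUnity m ℂ} (hf : f ∈ affSub A m) :
    (fun a => f (g • a)) ∈ affSub A m := by
  obtain ⟨L, b, hL⟩ := h.aff g
  intro a a'
  simp only [hL, map_add, map_zero, zero_add]
  apply mul_right_cancel (b := f 0)
  have h1 := hf (L a) (L a' + b)
  have h2 := hf (L a) b
  rw [add_assoc]
  calc f (L a + (L a' + b)) * f b * f 0 = (f (L a + (L a' + b)) * f 0) * f b := by
        exact mul_right_comm _ _ _
    _ = f (L a) * f (L a' + b) * f b := by rw [h1]
    _ = (f (L a) * f b) * f (L a' + b) := by exact mul_right_comm _ _ _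
    _ = (f (L a + b) * f 0) * f (L a' + b) := by rw [h2]
    _ = f (L a + b) * f (L a' + b) * f 0 := by exact mul_right_comm _ _ _

/-- The action on affine-type functions. -/
def affAct (h : RegAff G₁ A) : G₁ →* MulAut (affSub A m) where
  toFun g :=
    { toFun := fun f => ⟨fun a => f.1 (g⁻¹ • a), comp_mem m h g⁻¹ f.2⟩
      invFun := fun f => ⟨fun a => f.1 (g • a), comp_mem m h g f.2⟩
      left_inv := fun f => by
        apply Subtype.ext
        funext a
        simp
      right_inv := fun f => by
        apply Subtype.ext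
        funext a
        simp
      map_mul' := fun f f' => rfl }
  map_one' := by
    ext f a
    simp
  map_mul' g g' := by
    ext f a
    simp [MulAut.mul_apply, mul_smul]

theorem affAct_apply (h : RegAff G₁ A) (g : G₁) (f : affSub A m) (a : A) :
    (affAct m h g f).1 a = f.1 (g⁻¹ • a) := rfl

/-- The group of central type. -/
abbrev TH (h : RegAff G₁ A) := (affSub A m) ⋊[affAct m h] G₁

variable [Fintype A] [Fintype G₁] (h : RegAff G₁ A)

instance thFinite : Finite (TH m h) :=
  Finite.of_equiv _ (SemidirectProduct.equivProd (φ := affAct m h)).symm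

noncomputable instance thFintype : Fintype (TH m h) := Fintype.ofFinite _

noncomputable instance affFintype : Fintype (affSub A m) := Fintype.ofFinite _

noncomputable instance rootsFintype : Fintype (rootsOfUnity m ℂ) := Fintype.ofFinite _

theorem card_th : Nat.card (TH m h) = Nat.card (affSub A m) * Nat.card G₁ := by
  rw [← Nat.card_prod]
  exact Nat.card_congr SemidirectProduct.equivProd

theorem card_g₁ (h : RegAff G₁ A) : Nat.card G₁ = Nat.card A :=
  Nat.card_congr (Equiv.ofBijective _ h.bij)

variable {m} in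
/-- Functions from scalar and character. -/
noncomputable def mkFun (hm : ∀ a : A, m • a = 0) (ζ : rootsOfUnity m ℂ) (ψ : AddChar A ℂ) :
    A → rootsOfUnity m ℂ := fun a => ζ * rootsOfUnity.mkOfPowEq (ψ a) (by
      rw [← AddChar.map_nsmul_eq_pow, hm, AddChar.map_zero_eq_one])

variable {m} in
theorem mkFun_apply (hm : ∀ a : A, m • a = 0) (ζ : rootsOfUnity m ℂ) (ψ : AddChar A ℂ) (a : A) :
    ((mkFun hm ζ ψ a : ℂˣ) : ℂ) = ((ζ : ℂˣ) : ℂ) * ψ a := by
  simp [mkFun]

theorem coe_inj_roots {u v : rootsOfUnity m ℂ} (huv : ((u : ℂˣ) : ℂ) = ((v : ℂˣ) : ℂ)) : u = v :=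
  Subtype.ext (Units.ext huv)

variable {m} in
theorem mkFun_mem (hm : ∀ a : A, m • a = 0) (ζ : rootsOfUnity m ℂ) (ψ : AddChar A ℂ) :
    mkFun hm ζ ψ ∈ affSub A m := by
  intro a b
  apply coe_inj_roots
  simp only [Subgroup.coe_mul, Units.val_mul, mkFun_apply, AddChar.map_add_eq_mul,
    AddChar.map_zero_eq_one]
  ring

/-- The character part of an affine-type function. -/
noncomputable def charOf (f : affSub A m) : AddChar A ℂ where
  toFun a := ((f.1 a : ℂˣ) : ℂ) * (((f.1 0 : ℂˣ) : ℂ))⁻¹
  map_zero_eq_one' := by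
    simp
  map_add_eq_mul' a b := by
    have h1 := congrArg (fun u : rootsOfUnity m ℂ => ((u : ℂˣ) : ℂ)) (f.2 a b)
    simp only [Subgroup.coe_mul, Units.val_mul] at h1
    have h0 : ((f.1 0 : ℂˣ) : ℂ) ≠ 0 := Units.ne_zero _
    field_simp
    linear_combination h1

theorem charOf_apply (f : affSub A m) (a : A) :
    charOf m f a = ((f.1 a : ℂˣ) : ℂ) * (((f.1 0 : ℂˣ) : ℂ))⁻¹ := rfl

variable {m} in
/-- The parametrisation. -/
noncomputable def affEquiv (hm : ∀ a : A, m • a = 0) :
    (rootsOfUnity m ℂ × AddChar A ℂ) ≃ affSub A m where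
  toFun p := ⟨mkFun hm p.1 p.2, mkFun_mem hm p.1 p.2⟩
  invFun f := (f.1 0, charOf m f)
  left_inv p := by
    obtain ⟨ζ, ψ⟩ := p
    have h0 : ((ζ : ℂˣ) : ℂ) ≠ 0 := Units.ne_zero _
    refine Prod.ext ?_ ?_
    · apply coe_inj_roots
      simp [mkFun_apply]
    · apply DFunLike.ext
      intro a
      show charOf m ⟨mkFun hm ζ ψ, mkFun_mem hm ζ ψ⟩ a = ψ a
      rw [charOf_apply]
      show ((mkFun hm ζ ψ a : ℂˣ) : ℂ) * (((mkFun hm ζ ψ 0 : ℂˣ) : ℂ))⁻¹ = ψ a
      rw [mkFun_apply, mkFun_apply, AddChar.map_zero_eq_one]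
      field_simp
  right_inv f := by
    apply Subtype.ext
    funext a
    apply coe_inj_roots
    show ((mkFun hm (f.1 0) (charOf m f) a : ℂˣ) : ℂ) = _
    rw [mkFun_apply, charOf_apply]
    have h0 : ((f.1 0 : ℂˣ) : ℂ) ≠ 0 := Units.ne_zero _
    field_simp

variable {m} in
theorem affEquiv_apply (hm : ∀ a : A, m • a = 0) (p : rootsOfUnity m ℂ × AddChar A ℂ) (a : A) :
    (((affEquiv hm p).1 a : ℂˣ) : ℂ) = ((p.1 : ℂˣ) : ℂ) * p.2 a := mkFun_apply hm p.1 p.2 a

variable {m} in
theorem card_aff (hm : ∀ a : A, m • a = 0) : Nat.card (affSub A m) = m * Nat.card A := by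
  classical
  rw [← Nat.card_congr (affEquiv hm), Nat.card_prod, Complex.card_rootsOfUnity,
    Nat.card_eq_fintype_card (α := AddChar A ℂ), AddChar.card_eq, Nat.card_eq_fintype_card]

/-- The scalar function. -/
def constF (ζ : rootsOfUnity m ℂ) : affSub A m := ⟨fun _ => ζ, by intro a b; rfl⟩

variable {m} in
theorem exists_separate (hm : ∀ a : A, m • a = 0) {a b : A} (hab : a ≠ b) :
    ∃ f : affSub A m, f.1 a ≠ f.1 b := by
  classical
  obtain ⟨ψ, hψ⟩ := AddChar.exists_apply_ne_zero.2 (sub_ne_zero.2 hab)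
  refine ⟨affEquiv hm (1, ψ), fun heq => hψ ?_⟩
  have h1 := congrArg (fun u : rootsOfUnity m ℂ => ((u : ℂˣ) : ℂ)) heq
  simp only [affEquiv_apply] at h1
  simp only [OneMemClass.coe_one, Units.val_one, one_mul] at h1
  have h2 : ψ (a - b) * ψ b = ψ a := by
    rw [← AddChar.map_add_eq_mul]
    simp
  have h3 : ψ b ≠ 0 := (AddChar.val_isUnit ψ b).ne_zero
  rw [h1] at h2
  exact mul_right_cancel₀ h3 (by rw [h2, one_mul])

/-- The kernel of the projection to `G₁`. -/
def baseS : Subgroup (TH m h) := (SemidirectProduct.rightHom (φ := affAct m h)).ker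

instance baseS_normal : (baseS m h).Normal := MonoidHom.normal_ker _

theorem mem_baseS {w : TH m h} : w ∈ baseS m h ↔ w.right = 1 := Iff.rfl

/-- The linear character of the base. -/
def lamS : baseS m h →* ℂˣ where
  toFun s := (s.1.left.1 0 : ℂˣ)
  map_one' := rfl
  map_mul' s s' := by
    have hs : s.1.right = 1 := s.2
    show (((s.1 * s'.1).left.1 0 : rootsOfUnity m ℂ) : ℂˣ) = _
    rw [SemidirectProduct.mul_left, hs, map_one]
    rfl

/-- The character. -/
noncomputable def chiFn (w : TH m h) : ℂ := by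
  classical
  exact if w.right = 1 then ∑ a : A, ((w.left.1 a : ℂˣ) : ℂ) else 0

theorem chiFn_of_one (w : TH m h) (hw : w.right = 1) :
    chiFn m h w = ∑ a : A, ((w.left.1 a : ℂˣ) : ℂ) := by
  unfold chiFn
  rw [if_pos hw]

theorem chiFn_of_ne (w : TH m h) (hw : w.right ≠ 1) : chiFn m h w = 0 := by
  unfold chiFn
  rw [if_neg hw]

theorem conj_left_apply (x w : TH m h) (hw : w.right = 1) (a : A) :
    (x⁻¹ * w * x).left.1 a = w.left.1 (x.right • a) := by
  rw [SemidirectProduct.mul_left, SemidirectProduct.mul_left, SemidirectProduct.inv_left]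
  simp only [SemidirectProduct.mul_right, SemidirectProduct.inv_right, hw, mul_one]
  show ((affAct m h x.right⁻¹ x.left⁻¹).1 a) * ((affAct m h x.right⁻¹ w.left).1 a) *
    ((affAct m h x.right⁻¹ x.left).1 a) = _
  simp only [affAct_apply, inv_inv]
  show (x.left.1 (x.right • a))⁻¹ * _ * _ = _
  rw [mul_right_comm, inv_mul_cancel, one_mul]

theorem conj_right (x w : TH m h) : (x⁻¹ * w * x).right = x.right⁻¹ * w.right * x.right := rfl

theorem sum_th (F : TH m h → ℂ) :
    ∑ x, F x = ∑ l : affSub A m, ∑ r : G₁, F ⟨l, r⟩ := by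
  classical
  rw [← Fintype.sum_prod_type']
  exact Fintype.sum_equiv SemidirectProduct.equivProd _ _ (fun x => by
    obtain ⟨l, r⟩ := x
    rfl)

theorem card_baseS : Nat.card (baseS m h) = Nat.card (affSub A m) := by
  have h1 : baseS m h = (SemidirectProduct.inl : affSub A m →* TH m h).range :=
    (SemidirectProduct.range_inl_eq_ker_rightHom).symm
  rw [h1]
  exact Nat.card_congr (MonoidHom.ofInjective SemidirectProduct.inl_injective).symm.toEquiv

theorem chiFn_eq_ind : chiFn m h = indFun (baseS m h) (fun s => ((lamS m h s : ℂˣ) : ℂ)) := by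
  classical
  funext w
  rw [indFun_apply, card_baseS]
  have hF : (Nat.card (affSub A m) : ℂ) ≠ 0 := by
    exact_mod_cast Nat.card_pos.ne'
  by_cases hw : w.right = 1
  · rw [chiFn_of_one m h w hw]
    have h1 : ∀ x : TH m h, extendByZero (baseS m h) (fun s => ((lamS m h s : ℂˣ) : ℂ))
        (x⁻¹ * w * x) = ((w.left.1 (x.right • (0 : A)) : ℂˣ) : ℂ) := by
      intro x
      have hmem : x⁻¹ * w * x ∈ baseS m h := by
        rw [mem_baseS, conj_right, hw, mul_one, inv_mul_cancel]
      rw [extendByZero_of_mem _ _ hmem]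
      show (((x⁻¹ * w * x).left.1 0 : rootsOfUnity m ℂ) : ℂˣ).val = _
      rw [conj_left_apply m h x w hw]
    simp_rw [h1]
    rw [sum_th]
    simp only
    rw [Finset.sum_const, Finset.card_univ, nsmul_eq_mul, ← Nat.card_eq_fintype_card]
    have h2 : ∑ r : G₁, ((w.left.1 (r • (0 : A)) : ℂˣ) : ℂ) = ∑ a : A, ((w.left.1 a : ℂˣ) : ℂ) :=
      (Equiv.ofBijective _ h.bij).sum_comp (fun a => ((w.left.1 a : ℂˣ) : ℂ))
    rw [h2]
    field_simp
  · rw [chiFn_of_ne m h w hw]
    symm
    rw [Finset.sum_eq_zero, mul_zero]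
    intro x _
    apply extendByZero_of_not_mem
    rw [mem_baseS, conj_right]
    intro h1
    apply hw
    have h2 : x.right⁻¹ * w.right = x.right⁻¹ := mul_right_cancel (b := x.right) (by
      rw [h1, inv_mul_cancel])
    exact mul_left_cancel (a := x.right⁻¹) (by rw [h2, mul_one])

theorem chiFn_isCharacter : IsCharacter (TH m h) (chiFn m h) := by
  rw [chiFn_eq_ind]
  exact indFun_isCharacter _ (IsIrrCharacter.isCharacter (isIrrCharacter_of_hom _))

variable {m} in
theorem sum_aff (hm : ∀ a : A, m • a = 0) (F : affSub A m → ℂ) :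
    ∑ f, F f = ∑ ζ : rootsOfUnity m ℂ, ∑ ψ : AddChar A ℂ, F (affEquiv hm (ζ, ψ)) := by
  classical
  rw [← Fintype.sum_prod_type']
  exact (Fintype.sum_equiv (affEquiv hm) _ _ (fun x => rfl)).symm

variable {m} in
theorem sum_affEquiv (hm : ∀ a : A, m • a = 0) (p : rootsOfUnity m ℂ × AddChar A ℂ) :
    ∑ a : A, (((affEquiv hm p).1 a : ℂˣ) : ℂ) = ((p.1 : ℂˣ) : ℂ) * ∑ a, p.2 a := by
  rw [Finset.mul_sum]
  exact Finset.sum_congr rfl fun a _ => affEquiv_apply hm p a

theorem conj_root_mul (ζ : rootsOfUnity m ℂ) : ((ζ : ℂˣ) : ℂ) * conj ((ζ : ℂˣ) : ℂ) = 1 := by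
  have h1 : ‖((ζ : ℂˣ) : ℂ)‖ = 1 := Complex.norm_eq_one_of_mem_rootsOfUnity ζ.2
  rw [Complex.mul_conj, Complex.normSq_eq_norm_sq, h1]
  simp

variable {m} in
theorem card_th' (hm : ∀ a : A, m • a = 0) :
    Nat.card (TH m h) = m * Nat.card A * Nat.card A := by
  rw [card_th, card_aff hm, card_g₁ h]

variable {m} in
theorem chi_norm (hm : ∀ a : A, m • a = 0) :
    classInner (chiFn m h) (chiFn m h) = 1 := by
  classical
  unfold classInner
  rw [sum_th, card_th' h hm]
  have hA : (Nat.card A : ℂ) ≠ 0 := by exact_mod_cast Nat.card_pos.ne'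
  have hm0 : (m : ℂ) ≠ 0 := by exact_mod_cast (NeZero.ne m)
  have h1 : ∀ l : affSub A m, ∑ r : G₁, chiFn m h ⟨l, r⟩ * conj (chiFn m h ⟨l, r⟩) =
      (∑ a : A, ((l.1 a : ℂˣ) : ℂ)) * conj (∑ a : A, ((l.1 a : ℂˣ) : ℂ)) := by
    intro l
    rw [Finset.sum_eq_single (1 : G₁)]
    · rw [chiFn_of_one m h ⟨l, 1⟩ rfl]
    · intro r _ hr
      rw [chiFn_of_ne m h ⟨l, r⟩ hr, zero_mul]
    · intro h2
      exact absurd (Finset.mem_univ _) h2
  simp_rw [h1]
  rw [sum_aff hm]
  have h2 : ∀ (ζ : rootsOfUnity m ℂ) (ψ : AddChar A ℂ),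
      (∑ a : A, (((affEquiv hm (ζ, ψ)).1 a : ℂˣ) : ℂ)) *
        conj (∑ a : A, (((affEquiv hm (ζ, ψ)).1 a : ℂˣ) : ℂ)) =
      if ψ = 0 then (Nat.card A : ℂ) ^ 2 else 0 := by
    intro ζ ψ
    rw [sum_affEquiv hm (ζ, ψ), AddChar.sum_eq_ite]
    show ((ζ : ℂˣ) : ℂ) * _ * conj (((ζ : ℂˣ) : ℂ) * _) = _
    split_ifs with hψ
    · rw [map_mul, mul_mul_mul_comm, conj_root_mul, one_mul, Nat.card_eq_fintype_card]
      simp [sq]
    · simp
  simp_rw [h2]
  rw [Finset.sum_const, Finset.card_univ, nsmul_eq_mul, Finset.sum_ite_eq']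
  simp only [Finset.mem_univ, if_true]
  rw [← Nat.card_eq_fintype_card, Complex.card_rootsOfUnity]
  push_cast
  field_simp

/-- Scalars as affine-type functions. -/
def constHom : rootsOfUnity m ℂ →* affSub A m where
  toFun := constF m
  map_one' := rfl
  map_mul' _ _ := rfl

/-- Scalars in the big group. -/
def zHom : rootsOfUnity m ℂ →* TH m h := SemidirectProduct.inl.comp (constHom m)

theorem zHom_injective : Function.Injective (zHom m h) := by
  intro ζ ζ' hz
  have h1 : (zHom m h ζ).left = (zHom m h ζ').left := by rw [hz]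
  have h2 : constF m ζ = (constF m ζ' : affSub A m) := h1
  exact congrFun (congrArg Subtype.val h2) (0 : A)

variable {m} in
theorem center_eq (hm : ∀ a : A, m • a = 0) :
    Subgroup.center (TH m h) = (zHom m h).range := by
  apply le_antisymm
  · intro w hw
    have hcomm : ∀ x : TH m h, x * w = w * x := (Subgroup.mem_center_iff).1 hw
    -- the right component is trivial
    have hr : w.right = 1 := by
      have h1 : ∀ f : affSub A m, (affAct m h w.right f) = f := by
        intro f
        have h2 := hcomm (SemidirectProduct.inl f)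
        have h3 := congrArg SemidirectProduct.left h2
        rw [SemidirectProduct.mul_left, SemidirectProduct.mul_left] at h3
        simp only [SemidirectProduct.left_inl, SemidirectProduct.right_inl, map_one,
          MulAut.one_apply] at h3
        rw [mul_comm] at h3
        exact (mul_left_cancel h3).symm
      have h2 : (w.right)⁻¹ • (0 : A) = (0 : A) := by
        by_contra hne
        obtain ⟨f, hf⟩ := exists_separate hm hne
        apply hf
        have h3 := congrFun (congrArg Subtype.val (h1 f)) 0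
        rw [affAct_apply] at h3
        exact h3.trans (rfl)
      have h3 : (w.right)⁻¹ = 1 := h.bij.1 (by simpa using h2)
      simpa using h3
    -- the left component is constant
    have hc : ∀ a : A, w.left.1 a = w.left.1 0 := by
      intro a
      obtain ⟨g, hg⟩ := h.bij.2 a
      have hg' : g • (0 : A) = a := hg
      have h2 := hcomm (SemidirectProduct.inr g⁻¹)
      have h3 := congrArg SemidirectProduct.left h2
      rw [SemidirectProduct.mul_left, SemidirectProduct.mul_left] at h3
      simp only [SemidirectProduct.left_inr, SemidirectProduct.right_inr, hr, map_one,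
        MulAut.one_apply, one_mul, map_one, mul_one] at h3
      have h4 := congrFun (congrArg Subtype.val h3) 0
      rw [affAct_apply] at h4
      rw [← hg']
      simpa using h4
    refine ⟨w.left.1 0, ?_⟩
    refine SemidirectProduct.ext ?_ hr.symm
    apply Subtype.ext
    funext a
    exact (hc a).symm
  · rintro w ⟨ζ, rfl⟩
    rw [Subgroup.mem_center_iff]
    intro x
    refine SemidirectProduct.ext ?_ ?_
    · rw [SemidirectProduct.mul_left, SemidirectProduct.mul_left]
      have h1 : affAct m h x.right (zHom m h ζ).left = (zHom m h ζ).left := rfl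
      rw [h1]
      have h2 : (zHom m h ζ).right = 1 := rfl
      rw [h2, map_one, MulAut.one_apply]
      exact mul_comm _ _
    · have h2 : (zHom m h ζ).right = 1 := rfl
      rw [SemidirectProduct.mul_right, SemidirectProduct.mul_right, h2, one_mul, mul_one]

variable {m} in
theorem card_center (hm : ∀ a : A, m • a = 0) :
    Nat.card (Subgroup.center (TH m h)) = m := by
  rw [center_eq h hm]
  rw [← Nat.card_congr (MonoidHom.ofInjective (zHom_injective m h)).toEquiv]
  exact Complex.card_rootsOfUnity m

theorem chi_one : chiFn m h 1 = (Nat.card A : ℂ) := by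
  rw [chiFn_of_one m h 1 rfl]
  have h1 : ∀ a : A, (((1 : TH m h).left.1 a : ℂˣ) : ℂ) = 1 := fun a => rfl
  simp_rw [h1]
  simp [Nat.card_eq_fintype_card]

variable {m} in
theorem chi_faithful (hm : ∀ a : A, m • a = 0) (w : TH m h)
    (hw : chiFn m h w = chiFn m h 1) : w = 1 := by
  classical
  rw [chi_one] at hw
  have hA : (Nat.card A : ℂ) ≠ 0 := by exact_mod_cast Nat.card_pos.ne'
  have hr : w.right = 1 := by
    by_contra hne
    rw [chiFn_of_ne m h w hne] at hw
    exact hA hw.symm
  rw [chiFn_of_one m h w hr] at hw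
  obtain ⟨⟨ζ, ψ⟩, hp⟩ := (affEquiv hm).surjective w.left
  rw [← hp, sum_affEquiv hm, AddChar.sum_eq_ite] at hw
  by_cases hψ : ψ = 0
  · simp only [hψ, if_true] at hw
    rw [← Nat.card_eq_fintype_card] at hw
    have h1 : ((ζ : ℂˣ) : ℂ) = 1 := mul_right_cancel₀ hA (by rw [hw, one_mul])
    refine SemidirectProduct.ext ?_ hr
    rw [← hp, hψ]
    apply Subtype.ext
    funext a
    apply coe_inj_roots
    rw [affEquiv_apply]
    simp [h1]
  · simp only [hψ, if_false, mul_zero] at hw
    exact absurd hw.symm hA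

end Construction

section Wreath

variable {G₁ A : Type u} [Group G₁] [AddCommGroup A] [MulAction G₁ A] (q : ℕ)

/-- The wreath action. -/
instance wrAction : MulAction (Wr G₁ q) ((ZMod q → A) × ZMod q) where
  smul w x := (fun i => w.left i • x.1 (i - w.right.toAdd), x.2 + w.right.toAdd)
  one_smul x := by
    refine Prod.ext (funext fun i => ?_) ?_
    · show ((1 : Wr G₁ q).left i) • x.1 (i - (1 : Wr G₁ q).right.toAdd) = x.1 i
      have h1 : (1 : Wr G₁ q).right.toAdd = 0 := rfl
      have h2 : (1 : Wr G₁ q).left i = 1 := rfl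
      rw [h1, h2, sub_zero, one_smul]
    · show x.2 + (1 : Wr G₁ q).right.toAdd = x.2
      have h1 : (1 : Wr G₁ q).right.toAdd = 0 := rfl
      rw [h1, add_zero]
  mul_smul a b x := by
    refine Prod.ext (funext fun i => ?_) ?_
    · show ((a * b).left i) • x.1 (i - (a * b).right.toAdd) =
        a.left i • (b.left (i - a.right.toAdd) • x.1 (i - a.right.toAdd - b.right.toAdd))
      rw [wr_mul_left_apply, mul_smul]
      have h1 : (a * b).right.toAdd = a.right.toAdd + b.right.toAdd := rfl
      rw [h1, sub_sub]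
    · show x.2 + (a * b).right.toAdd = x.2 + b.right.toAdd + a.right.toAdd
      have h1 : (a * b).right.toAdd = a.right.toAdd + b.right.toAdd := rfl
      rw [h1]
      abel

theorem wr_smul_fst (w : Wr G₁ q) (x : (ZMod q → A) × ZMod q) (i : ZMod q) :
    (w • x).1 i = w.left i • x.1 (i - w.right.toAdd) := rfl

theorem wr_smul_snd (w : Wr G₁ q) (x : (ZMod q → A) × ZMod q) :
    (w • x).2 = x.2 + w.right.toAdd := rfl

theorem regAff_wr (h : RegAff G₁ A) : RegAff (Wr G₁ q) ((ZMod q → A) × ZMod q) where
  aff := by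
    intro w
    choose L b hL using h.aff
    refine ⟨{ toFun := fun x => (fun i => L (w.left i) (x.1 (i - w.right.toAdd)), x.2)
              map_zero' := ?_
              map_add' := ?_ }, (fun i => b (w.left i), w.right.toAdd), ?_⟩
    · refine Prod.ext (funext fun i => ?_) rfl
      exact map_zero _
    · intro x y
      refine Prod.ext (funext fun i => ?_) rfl
      exact map_add _ _ _
    · intro x
      refine Prod.ext (funext fun i => ?_) rfl
      rw [wr_smul_fst, hL]
      rfl
  bij := by
    constructor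
    · intro w w' hww
      have h1 := congrArg Prod.snd hww
      simp only [wr_smul_snd] at h1
      have h2 : w.right = w'.right := by
        have : w.right.toAdd = w'.right.toAdd := by simpa using h1
        exact this
      refine SemidirectProduct.ext (funext fun i => ?_) h2
      have h3 := congrFun (congrArg Prod.fst hww) i
      simp only [wr_smul_fst] at h3
      exact h.bij.1 h3
    · rintro ⟨x, τ⟩
      choose g hg using fun i => h.bij.2 (x i)
      refine ⟨⟨g, Multiplicative.ofAdd τ⟩, ?_⟩
      refine Prod.ext (funext fun i => ?_) ?_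
      · exact hg i
      · show (0 : ZMod q) + τ = τ
        rw [zero_add]

end Wreath

/-- Product of the prime factors. -/
def rad (n : ℕ) : ℕ := ∏ p ∈ n.primeFactors, p

theorem rad_squarefree (n : ℕ) : Squarefree (rad n) := by
  unfold rad
  refine Finset.squarefree_prod_of_pairwise_isCoprime ?_ ?_
  · intro a ha b hb hab
    exact Nat.coprime_iff_isRelPrime.1 ((Nat.coprime_primes (Nat.prime_of_mem_primeFactors ha)
      (Nat.prime_of_mem_primeFactors hb)).2 hab)
  · intro a ha
    exact (Nat.prime_of_mem_primeFactors ha).prime.squarefree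

theorem rad_pos (n : ℕ) : 0 < rad n :=
  Finset.prod_pos fun p hp => (Nat.prime_of_mem_primeFactors hp).pos

theorem prime_dvd_rad {n p : ℕ} (hn : n ≠ 0) (hp : p.Prime) : p ∣ rad n ↔ p ∣ n := by
  constructor
  · intro h
    obtain ⟨a, ha, hpa⟩ := (Prime.dvd_finset_prod_iff hp.prime _).1 h
    exact (Nat.prime_dvd_prime_iff_eq hp (Nat.prime_of_mem_primeFactors ha)).1 hpa ▸
      Nat.dvd_of_mem_primeFactors ha
  · intro h
    exact Finset.dvd_prod_of_mem _ (Nat.mem_primeFactors.2 ⟨hp, h, hn⟩)

theorem rad_dvd_of_dvd {a b : ℕ} (hab : a ∣ b) (hb : b ≠ 0) : rad a ∣ rad b := by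
  unfold rad
  exact Finset.prod_dvd_prod_of_subset _ _ _ (Nat.primeFactors_mono hab hb)

/-- Every solvable group embeds in a group with a regular affine action of bounded exponent. -/
theorem exists_regAff : ∀ (n : ℕ) (G : Type u) [Group G] [Finite G], Nat.card G = n →
    Group.IsSolvable G →
    ∃ (G₁ A : Type u) (_ : Group G₁) (_ : AddCommGroup A) (_ : MulAction G₁ A) (_ : Finite G₁)
      (_ : Finite A), RegAff G₁ A ∧ (∀ a : A, rad n • a = 0) ∧
        ∃ f : G →* G₁, Function.Injective f := by
  intro n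
  induction n using Nat.strong_induction_on with
  | _ n ih =>
    intro G _ _ hn hsolv
    by_cases hG : Subsingleton G
    · refine ⟨PUnit, PUnit, inferInstance, inferInstance, inferInstance, inferInstance,
        inferInstance, ?_, fun a => Subsingleton.elim _ _, 1, fun a b _ => Subsingleton.elim _ _⟩
      exact { aff := fun g => ⟨0, 0, fun a => Subsingleton.elim _ _⟩
              bij := ⟨fun a b _ => Subsingleton.elim _ _, fun b => ⟨PUnit.unit, Subsingleton.elim _ _⟩⟩ }
    · haveI : Nontrivial G := not_subsingleton_iff_nontrivial.1 hG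
      obtain ⟨N, hNn, hNp⟩ := Cfsg.Agent.Lib.ClassSizes.SolvFrob.exists_normal_prime_index G
      have hcard := N.card_mul_index
      have hnpos : n ≠ 0 := by
        rw [← hn]
        exact Nat.card_pos.ne'
      have hlt : Nat.card N < n := by
        rw [← hn, ← hcard]
        have := hNp.one_lt
        have hpos : 0 < Nat.card N := Nat.card_pos
        nlinarith
      obtain ⟨G₀, A₀, _, _, _, _, _, hreg, hexp, f₀, hf₀⟩ := ih _ hlt N rfl inferInstance
      obtain ⟨f, hf⟩ := exists_wr_embedding N hNp rfl f₀ hf₀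
      haveI : NeZero N.index := ⟨hNp.ne_zero⟩
      refine ⟨Wr G₀ N.index, (ZMod N.index → A₀) × ZMod N.index, inferInstance, inferInstance,
        inferInstance, inferInstance, inferInstance, regAff_wr _ hreg, ?_, f, hf⟩
      intro a
      have h1 : rad (Nat.card N) ∣ rad n := rad_dvd_of_dvd (by rw [← hn, ← hcard]; exact Dvd.intro _ rfl) hnpos
      have h2 : N.index ∣ rad n := by
        rw [← hn] at hnpos ⊢
        refine (prime_dvd_rad hnpos hNp).2 ?_
        rw [← hcard]
        exact Dvd.intro_left _ rfl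
      refine Prod.ext (funext fun i => ?_) ?_
      · obtain ⟨c, hc⟩ := h1
        show rad n • a.1 i = 0
        rw [hc, mul_comm, mul_smul, hexp, smul_zero]
      · obtain ⟨c, hc⟩ := h2
        show rad n • a.2 = 0
        rw [hc, mul_comm, mul_smul]
        have : N.index • a.2 = 0 := by
          rw [nsmul_eq_mul, ZMod.natCast_self, zero_mul]
        rw [this, smul_zero]

end Cfsg.Agent.Lib.CharExtra.CentralType
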