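import Cfsg.Agent.Lib.CharExtra.OddExt
import Cfsg.Agent.Lib.CharExtra.ProjCoeff
import Cfsg.Agent.Lib.Coprime.GlauberCyclic
import Cfsg.Agent.Lib.Block.Jordan

/-!
# Principal block characters fixed by a `1 + p` power map, with cyclic `p`-quotient
-/

set_option autoImplicit false
set_option linter.unusedSectionVars false
set_option linter.unusedSimpArgs false
set_option linter.unusedVariables false

open scoped ComplexConjugate
open Cfsg MonoidAlgebra
open Cfsg.Agent.Lib.Block Cfsg.Agent.Lib.Char Cfsg.Agent.Lib.BPair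

namespace Cfsg.Agent.Lib.CharExtra

attribute [local instance] Cfsg.Agent.Lib.BPair.subFintype

section CycRes

variable {G : Type*} [Group G] [Fintype G] {p : ℕ} [hp : Fact p.Prime] {N : Subgroup G} [hN : N.Normal] {k : ℕ}

/-- The power map is coprime to the group order. -/
theorem coprime_of_hk (hk₁ : ∀ g : G, (∃ j : ℕ, orderOf g = p ^ j) → g ^ k = g ^ (1 + p))
    (hk₂ : ∀ g : G, Nat.Coprime (orderOf g) p → g ^ k = g) : k.Coprime (Nat.card G) := by
  refine Nat.coprime_of_dvd fun r hr hrk hrG => ?_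
  haveI : Fact r.Prime := ⟨hr⟩
  obtain ⟨g, hg⟩ := exists_prime_orderOf_dvd_card' (G := G) r hrG
  have h1 : g ^ k = 1 := orderOf_dvd_iff_pow_eq_one.mp (hg ▸ hrk)
  have hg1 : g ≠ 1 := by
    intro h
    rw [h, orderOf_one] at hg
    exact hr.one_lt.ne hg
  by_cases hrp : r = p
  · have h2 := hk₁ g ⟨1, by rw [hg, hrp, pow_one]⟩
    have h3 : g ^ p = 1 := by
      have := pow_orderOf_eq_one g
      rwa [hg, hrp] at this
    rw [h1, pow_add, pow_one, h3, mul_one] at h2
    exact hg1 h2.symm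
  · have h2 := hk₂ g (by
      rw [hg]
      exact (Nat.coprime_primes hr hp.out).mpr hrp)
    rw [h1] at h2
    exact hg1 h2.symm

/-- Linear characters trivial on `N` and the power map. -/
theorem hom_pow_k (hreg : ∀ g : G, Nat.Coprime (orderOf g) p → g ∈ N)
    (hk₁ : ∀ g : G, (∃ j : ℕ, orderOf g = p ^ j) → g ^ k = g ^ (1 + p))
    (hk₂ : ∀ g : G, Nat.Coprime (orderOf g) p → g ^ k = g) (lam : G →* ℂˣ) (hl : ∀ n ∈ N, lam n = 1) (g : G) :
    lam (g ^ k) = lam g ^ (1 + p) := by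
  obtain ⟨x, y, rfl, hc, hx, hy, -, -⟩ := exists_jordan (p := p) g
  have hy' : Nat.Coprime (orderOf y) p := ((Nat.Prime.coprime_iff_not_dvd hp.out).mpr hy).symm
  have hyN : lam y = 1 := hl y (hreg y hy')
  rw [hc.mul_pow, hk₁ x hx, hk₂ y hy', map_mul, map_mul, hyN, mul_one, mul_one, map_pow]

/-- The restriction of a `p'`-degree character to `N` is irreducible. -/
theorem exists_restrict_irr (hidx : ∃ a : ℕ, N.index = p ^ a) (hcyc : IsCyclic (G ⧸ N)) (χ : IrrCharacter G)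
    (hχ : ¬ p ∣ charDegree (χ : G → ℂ)) : ∃ θ : IrrCharacter N, ∀ n : N, (χ : G → ℂ) n = (θ : N → ℂ) n := by
  classical
  obtain ⟨θ, hθ⟩ := Block.exists_constituent N χ
  have hχc := IsIrrCharacter.isCharacter χ.2
  obtain ⟨e, he⟩ := classInner_isCharacter_nat (IsCharacter.restrict N hχc) (IsIrrCharacter.isCharacter θ.2)
  have he0 : e ≠ 0 := by
    rintro rfl
    exact hθ (by rw [he]; simp)
  have hdeg := clifford_degree hN χ.2 θ.2 he he0
  have hTle : N ≤ inertia hN (θ : N → ℂ) := le_inertia hN (IsCharacter.isClassFunction (IsIrrCharacter.isCharacter θ.2))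
  have hTi : (inertia hN (θ : N → ℂ)).index = 1 := by
    obtain ⟨a, ha⟩ := hidx
    have h1 : (inertia hN (θ : N → ℂ)).index ∣ p ^ a := ha ▸ Subgroup.index_dvd_of_le hTle
    obtain ⟨i, -, hi⟩ := (Nat.dvd_prime_pow hp.out).mp h1
    rcases i with _ | i
    · simpa using hi
    · exfalso
      apply hχ
      rw [hdeg, hi, pow_succ]
      exact Dvd.dvd.mul_right (Dvd.dvd.mul_left (Dvd.intro_left _ rfl) _) _
  have hinv : ∀ (g : G) (n : N), (θ : N → ℂ) ⟨g * n * g⁻¹, hN.conj_mem (n : G) n.2 g⟩ = (θ : N → ℂ) n := by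
    intro g n
    have hg : g ∈ inertia hN (θ : N → ℂ) := by
      rw [Subgroup.index_eq_one.mp hTi]
      exact Subgroup.mem_top g
    exact (mem_inertia_iff hN (θ : N → ℂ) g).mp hg n
  obtain ⟨χ₁, hχ₁, hext⟩ := Cfsg.Agent.S0886.result N hcyc θ θ.2 hinv
  obtain ⟨β, hβ, hβη⟩ := exists_mul_of_over N θ ⟨χ₁, hχ₁⟩ hext χ hθ
  obtain ⟨ψ, hψ⟩ := Degree.exists_inflate N (χ := β) hβ
  have hcomm : ∀ a b : G ⧸ N, a * b = b * a := fun a b => by
    obtain ⟨c, hc⟩ := IsCyclic.exists_generator (α := G ⧸ N)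
    obtain ⟨i, rfl⟩ := Subgroup.mem_zpowers_iff.mp (hc a)
    obtain ⟨j, rfl⟩ := Subgroup.mem_zpowers_iff.mp (hc b)
    rw [← zpow_add, ← zpow_add, add_comm]
  have h1 : (ψ : G ⧸ N → ℂ) 1 = 1 := charDegree_eq_one_of_comm hcomm ψ.2
  have hβ1 : (β : G → ℂ) 1 = 1 := by
    rw [← hψ]
    exact h1
  refine ⟨θ, fun n => ?_⟩
  rw [hβη, hβ _ n.2, hβ1, one_mul]
  exact hext n

/-- Over a `G`-stable set: the principal block. -/
theorem isStable_principal (M : Ideal AlgInt) [M.IsPrime] : IsStable N (principalBlock M N) := by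
  intro g θ hθ
  have h1 := sameBlock_conjIrr N (M := M) g (θ := oneIrr N) (θ' := θ) hθ
  exact h1

/-- The restriction of a principal block character to `N`, if irreducible, lies in the principal block. -/
theorem restrict_mem_principal {M : Ideal AlgInt} (hM : IsPModular p M) (χ : IrrCharacter G) (hχ : χ ∈ principalBlock M G)
    (θ : IrrCharacter N) (h : ∀ n : N, (χ : G → ℂ) n = (θ : N → ℂ) n) : θ ∈ principalBlock M N := by
  have hprime := isPModular_isPrime hM
  have hU : IsBlockUnion M (principalBlock M N) := isBlockUnion_of_isPBlock isPBlock_principalBlock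
  have hone : oneIrr G ∈ overSet N (principalBlock M N) := by
    refine ⟨oneIrr N, mem_blockOf_self (oneIrr N), ?_⟩
    rw [classInner_one_iff]
    intro n _
    rfl
  have hc : classInner (fun n : N => (χ : G → ℂ) n) (θ : N → ℂ) ≠ 0 := by
    have : (fun n : N => (χ : G → ℂ) n) = θ := funext h
    rw [this, classInner_irr_self θ.2]
    exact one_ne_zero
  exact constituent_mem_of_sameBlock N (isStable_principal M) hU (χ := oneIrr G) (χ' := χ) hχ hone hc

/-- Conversely, extensions of a principal character are principal. -/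
theorem ext_mem_principal {M : Ideal AlgInt} (hM : IsPModular p M) (hidx : ∃ a : ℕ, N.index = p ^ a) (χ : IrrCharacter G)
    (θ : IrrCharacter N) (hθ : θ ∈ principalBlock M N) (h : ∀ n : N, (χ : G → ℂ) n = (θ : N → ℂ) n) :
    χ ∈ principalBlock M G := by
  have hprime := isPModular_isPrime hM
  have hc : classInner (fun n : N => (χ : G → ℂ) n) (θ : N → ℂ) ≠ 0 := by
    have : (fun n : N => (χ : G → ℂ) n) = θ := funext h
    rw [this, classInner_irr_self θ.2]
    exact one_ne_zero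
  have hone : classInner (fun n : N => ((oneIrr G : IrrCharacter G) : G → ℂ) n) ((oneIrr N : IrrCharacter N) : N → ℂ) ≠ 0 := by
    rw [classInner_one_iff]
    intro n _
    rfl
  exact sameBlock_of_sameBlock_constituent N hM hidx hone hc hθ

/-- The degree of an extension. -/
theorem charDegree_eq_of_ext (χ : IrrCharacter G) (θ : IrrCharacter N) (h : ∀ n : N, (χ : G → ℂ) n = (θ : N → ℂ) n) :
    charDegree (χ : G → ℂ) = charDegree (θ : N → ℂ) := by
  have h1 := h 1
  unfold charDegree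
  simp only [OneMemClass.coe_one] at h1
  rw [h1]

/-- Existence of the canonical fixed extension. -/
theorem exists_fixed_ext_det (hres : N = pResidual p G)
    (hidx : ∃ a : ℕ, N.index = p ^ a) (hcyc : IsCyclic (G ⧸ N))
    (hk : k.Coprime (Nat.card G)) (θ : IrrCharacter N) (hdeg : ¬ p ∣ charDegree (θ : N → ℂ))
    (hinv : ∀ (g : G) (n : N), (θ : N → ℂ) ⟨g * n * g⁻¹, hN.conj_mem (n : G) n.2 g⟩ = (θ : N → ℂ) n)
    (hfix : ∀ n : N, (θ : N → ℂ) (n ^ k) = (θ : N → ℂ) n) :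
    ∃ χ₀ : IrrCharacter G, (∀ n : N, (χ₀ : G → ℂ) n = (θ : N → ℂ) n) ∧ ∀ g, (χ₀ : G → ℂ) (g ^ k) = (χ₀ : G → ℂ) g := by
  classical
  obtain ⟨χ₁, hχ₁, hext⟩ := Cfsg.Agent.S0886.result N hcyc θ θ.2 hinv
  obtain ⟨n₁, ρ₁, hρ₁, rfl⟩ := id hχ₁
  have hd₁ : ¬ p ∣ n₁ := by
    have h1 : charDegree ρ₁.character = n₁ := by
      apply charDegree_natCast
      rw [Representation.char_one]
      simp
    rw [← h1, charDegree_eq_of_ext ⟨ρ₁.character, hχ₁⟩ θ hext]
    exact hdeg
  -- the determinant and its exponent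
  let δ : G →* ℂˣ := detHom ρ₁
  obtain ⟨b, m, hm, hGbm⟩ := Nat.exists_eq_pow_mul_and_not_dvd (n := Nat.card G) Nat.card_pos.ne' p hp.out.ne_one
  have hδG : ∀ g, (δ g) ^ (p ^ b * m) = 1 := by
    intro g
    rw [← hGbm, ← map_pow, pow_card_eq_one', map_one]
  have hcop : Nat.Coprime (m * n₁) (p ^ b) :=
    Nat.Coprime.pow_right b (Nat.Coprime.mul_left ((Nat.Prime.coprime_iff_not_dvd hp.out).mpr hm).symm
      ((Nat.Prime.coprime_iff_not_dvd hp.out).mpr hd₁).symm)
  have hφ : 0 < Nat.totient (p ^ b) := Nat.totient_pos.mpr (pow_pos hp.out.pos b)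
  have hpb : 0 < p ^ b := pow_pos hp.out.pos b
  obtain ⟨e, he1, hme⟩ : ∃ e : ℕ, p ^ b ∣ e * n₁ + 1 ∧ m ∣ e := by
    refine ⟨m * (p ^ b - 1) * (m * n₁) ^ (Nat.totient (p ^ b) - 1), ?_, Dvd.dvd.mul_right (Dvd.intro _ rfl) _⟩
    have h1 : m * (p ^ b - 1) * (m * n₁) ^ (Nat.totient (p ^ b) - 1) * n₁ = (p ^ b - 1) * (m * n₁) ^ Nat.totient (p ^ b) := by
      have h2 : Nat.totient (p ^ b) = (Nat.totient (p ^ b) - 1) + 1 := (Nat.sub_add_cancel hφ).symm
      conv_rhs => rw [h2, pow_succ]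
      ring
    have h3 := Nat.ModEq.pow_totient hcop
    have h4 : (p ^ b - 1) * (m * n₁) ^ Nat.totient (p ^ b) + 1 ≡ (p ^ b - 1) * 1 + 1 [MOD p ^ b] :=
      Nat.ModEq.add_right 1 (Nat.ModEq.mul_left _ h3)
    have h5 : (p ^ b - 1) * 1 + 1 = p ^ b := by
      rw [mul_one]
      exact Nat.sub_add_cancel hpb
    rw [h5] at h4
    rw [h1]
    exact (Nat.modEq_zero_iff_dvd.mp (h4.trans (by simp [Nat.ModEq])))
  let lam : G →* ℂˣ := (powMonoidHom e).comp δ
  have hlam : ∀ g, lam g = (δ g) ^ e := fun g => rfl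
  -- `lam` is trivial on `N`
  have hlamN : ∀ n ∈ N, lam n = 1 := by
    have hle : N ≤ lam.ker := by
      rw [hres]
      refine (Subgroup.closure_le _).mpr fun y hy => ?_
      have hy' : Nat.Coprime (orderOf y) p := hy
      have h2 : (δ y) ^ m = 1 := by
        refine eq_one_of_pow_of_coprime (a := p ^ b) (b := orderOf y) ?_ ?_ ?_
        · rw [← pow_mul, mul_comm]
          exact hδG y
        · rw [← pow_mul, mul_comm, pow_mul, ← map_pow, pow_orderOf_eq_one, map_one, one_pow]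
        · exact Nat.Coprime.pow_left b hy'.symm
      obtain ⟨t, ht⟩ := hme
      show lam y = 1
      rw [hlam, ht, pow_mul, h2, one_pow]
    exact fun n hn => hle hn
  -- the twisted extension
  let ρ₀ : Representation ℂ G (Fin n₁ → ℂ) := scaleRep lam ρ₁
  have hρ₀eq : ρ₀.character = (twistI lam ⟨ρ₁.character, hχ₁⟩ : G → ℂ) := by
    funext g
    rw [scaleRep_character, twistI_apply]
    exact mul_comm _ _
  have hρ₀irr : IsIrrCharacter G ρ₀.character := by
    rw [hρ₀eq]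
    exact (twistI lam ⟨ρ₁.character, hχ₁⟩).2
  have hρ₀c : IsCharacter G ρ₀.character := IsIrrCharacter.isCharacter hρ₀irr
  have hρ₀N : ∀ n : N, ρ₀.character n = (θ : N → ℂ) n := by
    intro n
    rw [scaleRep_character, hlamN _ n.2, hext n]
    simp
  let χ₀ : IrrCharacter G := ⟨ρ₀.character, hρ₀irr⟩
  -- the determinant of `χ₀`
  have hD : ∀ g, (LinearMap.det (ρ₀ g)) ^ m = 1 := by
    intro g
    have h1 : LinearMap.det (ρ₀ g) = (((δ g) ^ (e * n₁ + 1) : ℂˣ) : ℂ) := by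
      have hd : LinearMap.det (ρ₁ g) = ((δ g : ℂˣ) : ℂ) := (detHom_apply ρ₁ g).symm
      rw [scaleRep_det, Module.finrank_fin_fun, hd, hlam]
      push_cast
      ring
    rw [h1]
    obtain ⟨t, ht⟩ := he1
    have h2 : ((δ g) ^ (e * n₁ + 1)) ^ m = 1 := by
      rw [ht, ← pow_mul]
      have h3 : p ^ b * t * m = (p ^ b * m) * t := by ring
      rw [h3, pow_mul, hδG, one_pow]
    have h4 := congrArg (fun f : ℂˣ => (f : ℂ)) h2
    simpa using h4
  -- the conjugate is the same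
  have hψ : ∀ n : N, (galI hk χ₀ : G → ℂ) n = (θ : N → ℂ) n := by
    intro n
    rw [galI_apply, ← hfix n, ← hρ₀N (n ^ k)]
    rfl
  obtain ⟨μ, hμ, hμg⟩ := exists_hom_of_two_ext N θ χ₀ (galI hk χ₀) hρ₀N hψ
  obtain ⟨a, ha⟩ := hidx
  have hμ1 : ∀ g, μ g = 1 := by
    intro g
    have h1 : (μ g) ^ N.index = 1 := pow_index_eq_one_of_trivial μ (fun n => hμ n n.2) g
    rw [ha] at h1
    have h2 : (μ g : ℂ) ^ (n₁ * m) = 1 := by
      have hY : ∀ x, (scaleRep μ ρ₀).character x = ρ₀.character (x ^ k) := by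
        intro x
        rw [scaleRep_character]
        exact (hμg x).symm
      have h3 := Cfsg.Agent.Lib.Coprime.detChar_twist hρ₀c ⟨_, scaleRep μ ρ₀, rfl⟩ k hY g
      rw [detChar_character, detChar_character, scaleRep_det, Module.finrank_fin_fun] at h3
      have h4 := congrArg (fun z : ℂ => z ^ m) h3
      simp only [mul_pow] at h4
      rw [hD g, mul_one, ← pow_mul] at h4
      rw [h4, ← pow_mul, mul_comm k m, pow_mul, hD g, one_pow]
    have h5 : (μ g) ^ (n₁ * m) = 1 := by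
      apply Units.ext
      simpa using h2
    exact eq_one_of_pow_of_coprime h1 h5 (by
      refine Nat.Coprime.pow_left a ?_
      refine Nat.Coprime.mul_right ?_ ?_
      · exact (Nat.Prime.coprime_iff_not_dvd hp.out).mpr hd₁
      · exact (Nat.Prime.coprime_iff_not_dvd hp.out).mpr hm)
  refine ⟨χ₀, hρ₀N, fun g => ?_⟩
  have h1 := hμg g
  rw [galI_apply, hμ1] at h1
  simpa using h1

/-- A linear character as an irreducible character. -/
noncomputable def isIrrCharacterOfHom (lam : G →* ℂˣ) : IrrCharacter G :=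
  ⟨fun g => ((lam g : ℂˣ) : ℂ), isIrrCharacter_of_hom lam⟩

/-- The group of linear characters of exponent `p` over a cyclic `p`-quotient. -/
theorem card_lin_tors (hidx : ∃ a : ℕ, N.index = p ^ a) (hcyc : IsCyclic (G ⧸ N)) (hnt : N ≠ ⊤) :
    Nat.card {lam : G →* ℂˣ // (∀ n ∈ N, lam n = 1) ∧ ∀ g, lam g ^ p = 1} = p := by
  classical
  obtain ⟨a, ha⟩ := hidx
  obtain ⟨c, hc⟩ := IsCyclic.exists_generator (α := G ⧸ N)
  obtain ⟨g₀, rfl⟩ := QuotientGroup.mk_surjective c
  haveI : NeZero p := ⟨hp.out.ne_zero⟩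
  have hord : orderOf (g₀ : G ⧸ N) = p ^ a := by
    rw [orderOf_eq_card_of_forall_mem_zpowers hc, ← ha]
    rfl
  have ha0 : a ≠ 0 := by
    rintro rfl
    apply hnt
    rw [pow_zero] at ha
    exact Subgroup.index_eq_one.mp ha
  let Φ : {lam : G →* ℂˣ // (∀ n ∈ N, lam n = 1) ∧ ∀ g, lam g ^ p = 1} → rootsOfUnity p ℂ :=
    fun lam => ⟨lam.1 g₀, (mem_rootsOfUnity p _).mpr (lam.2.2 g₀)⟩
  have hval : ∀ (lam : G →* ℂˣ), (∀ n ∈ N, lam n = 1) → ∀ g : G, ∃ i : ℤ, ∀ lam' : G →* ℂˣ, (∀ n ∈ N, lam' n = 1) → lam' g = lam' g₀ ^ i := by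
    intro lam _ g
    obtain ⟨i, hi⟩ := Subgroup.mem_zpowers_iff.mp (hc (g : G ⧸ N))
    refine ⟨i, fun lam' hl' => ?_⟩
    have h1 : (g₀ ^ i)⁻¹ * g ∈ N := by
      rw [← QuotientGroup.eq]
      rw [← hi]
      rfl
    have h2 := hl' _ h1
    rw [map_mul, map_inv, map_zpow, inv_mul_eq_iff_eq_mul, mul_one] at h2
    exact h2
  have hbij : Function.Bijective Φ := by
    constructor
    · intro l₁ l₂ h
      have h1 : l₁.1 g₀ = l₂.1 g₀ := congrArg Subtype.val h
      apply Subtype.ext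
      ext g
      obtain ⟨i, hi⟩ := hval l₁.1 l₁.2.1 g
      rw [hi l₁.1 l₁.2.1, hi l₂.1 l₂.2.1, h1]
    · intro ζ
      have hζ : (ζ : ℂˣ) ^ p = 1 := (mem_rootsOfUnity p _).mp ζ.2
      have hdvd : orderOf (ζ : ℂˣ) ∣ orderOf (g₀ : G ⧸ N) := by
        rw [hord]
        exact (orderOf_dvd_of_pow_eq_one hζ).trans (dvd_pow_self p ha0)
      let μ₀ : G ⧸ N →* ℂˣ := monoidHomOfForallMemZpowers hc hdvd
      have hμ₀ : μ₀ (g₀ : G ⧸ N) = (ζ : ℂˣ) := monoidHomOfForallMemZpowers_apply_gen hc hdvd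
      let lam : G →* ℂˣ := μ₀.comp (QuotientGroup.mk' N)
      have hl1 : ∀ n ∈ N, lam n = 1 := by
        intro n hn
        have : (QuotientGroup.mk' N) n = 1 := (QuotientGroup.eq_one_iff n).mpr hn
        show μ₀ _ = 1
        rw [this, map_one]
      have hl2 : ∀ g, lam g ^ p = 1 := by
        intro g
        obtain ⟨i, hi⟩ := hval lam hl1 g
        rw [hi lam hl1]
        have h3 : lam g₀ = (ζ : ℂˣ) := hμ₀
        rw [h3, ← zpow_natCast, ← zpow_mul, mul_comm, zpow_mul, zpow_natCast, hζ, one_zpow]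
      refine ⟨⟨lam, hl1, hl2⟩, ?_⟩
      apply Subtype.ext
      exact hμ₀
  rw [Nat.card_eq_of_bijective Φ hbij]
  exact Complex.card_rootsOfUnity p

/-- The count. -/
theorem card_fixed_principal_eq {M : Ideal AlgInt} (hM : IsPModular p M) (P : Sylow p G) (hres : N = pResidual p G)
    (hcyc : IsCyclic (G ⧸ N)) (hnt : N ≠ ⊤)
    (hk₁ : ∀ g : G, (∃ j : ℕ, orderOf g = p ^ j) → g ^ k = g ^ (1 + p))
    (hk₂ : ∀ g : G, Nat.Coprime (orderOf g) p → g ^ k = g) :
    Nat.card {χ : IrrCharacter G // χ ∈ principalBlock M G ∧ ¬ p ∣ charDegree (χ : G → ℂ) ∧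
        ∀ g : G, (χ : G → ℂ) (g ^ k) = (χ : G → ℂ) g} =
      p * Nat.card {θ : IrrCharacter N // θ ∈ principalBlock M N ∧ ¬ p ∣ charDegree (θ : N → ℂ) ∧
        (∀ x ∈ (P : Subgroup G), ∀ n : N, (θ : N → ℂ) ⟨x * n * x⁻¹, hN.conj_mem n n.2 x⟩ = (θ : N → ℂ) n) ∧
        ∀ n : N, (θ : N → ℂ) (n ^ k) = (θ : N → ℂ) n} := by
  classical
  have hprime := isPModular_isPrime hM
  have hk := coprime_of_hk hk₁ hk₂
  have hreg : ∀ g : G, Nat.Coprime (orderOf g) p → g ∈ N := by
    intro g hg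
    rw [hres]
    exact Subgroup.subset_closure hg
  -- the quotient is a `p`-group
  have hQp : IsPGroup p (G ⧸ N) := by
    intro q
    obtain ⟨g, rfl⟩ := QuotientGroup.mk_surjective q
    obtain ⟨x, y, rfl, hc, ⟨j, hj⟩, hy, -, -⟩ := exists_jordan (p := p) g
    refine ⟨j, ?_⟩
    have hyN : y ∈ N := hreg y ((Nat.Prime.coprime_iff_not_dvd hp.out).mpr hy).symm
    have h1 : ((y : G) : G ⧸ N) = 1 := (QuotientGroup.eq_one_iff y).mpr hyN
    rw [QuotientGroup.mk_mul, h1, mul_one, ← QuotientGroup.mk_pow, ← hj, pow_orderOf_eq_one]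
    rfl
  have hidx : ∃ a : ℕ, N.index = p ^ a := by
    obtain ⟨a, ha⟩ := IsPGroup.iff_card.mp hQp
    exact ⟨a, by rw [Subgroup.index_eq_card, ha]⟩
  have hsup : N ⊔ (P : Subgroup G) = ⊤ := by
    obtain ⟨a, ha⟩ := hidx
    have h1 : (N ⊔ (P : Subgroup G)).index ∣ p ^ a := ha ▸ Subgroup.index_dvd_of_le le_sup_left
    have h2 : (N ⊔ (P : Subgroup G)).index ∣ (P : Subgroup G).index := Subgroup.index_dvd_of_le le_sup_right
    obtain ⟨i, -, hi⟩ := (Nat.dvd_prime_pow hp.out).mp h1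
    rcases i with _ | i
    · apply Subgroup.index_eq_one.mp
      simpa using hi
    · exfalso
      apply P.not_dvd_index
      refine dvd_trans ?_ h2
      rw [hi, pow_succ]
      exact Dvd.intro_left _ rfl
  -- restriction
  let B := {χ : IrrCharacter G // χ ∈ principalBlock M G ∧ ¬ p ∣ charDegree (χ : G → ℂ) ∧
        ∀ g : G, (χ : G → ℂ) (g ^ k) = (χ : G → ℂ) g}
  let A := {θ : IrrCharacter N // θ ∈ principalBlock M N ∧ ¬ p ∣ charDegree (θ : N → ℂ) ∧
        (∀ x ∈ (P : Subgroup G), ∀ n : N, (θ : N → ℂ) ⟨x * n * x⁻¹, hN.conj_mem n n.2 x⟩ = (θ : N → ℂ) n) ∧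
        ∀ n : N, (θ : N → ℂ) (n ^ k) = (θ : N → ℂ) n}
  show Nat.card B = p * Nat.card A
  have hf : ∀ χ : B, ∃ θ : A, ∀ n : N, (χ.1 : G → ℂ) n = (θ.1 : N → ℂ) n := by
    intro χ
    obtain ⟨θ, hθ⟩ := exists_restrict_irr hidx hcyc χ.1 χ.2.2.1
    refine ⟨⟨θ, restrict_mem_principal hM χ.1 χ.2.1 θ hθ, ?_, ?_, ?_⟩, hθ⟩
    · rw [← charDegree_eq_of_ext χ.1 θ hθ]
      exact χ.2.2.1
    · intro x _ n
      rw [← hθ, ← hθ]
      exact IsCharacter.isClassFunction (IsIrrCharacter.isCharacter χ.1.2) (n : G) x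
    · intro n
      rw [← hθ, ← hθ]
      exact χ.2.2.2 n
  choose f hfn using hf
  have hfuniq : ∀ (χ : B) (a : A), (∀ n : N, (χ.1 : G → ℂ) n = (a.1 : N → ℂ) n) → f χ = a := by
    intro χ a h
    apply Subtype.ext
    apply Subtype.ext
    funext n
    rw [← hfn χ n, h n]
  have hfib : ∀ a : A, Nat.card {b : B // f b = a} = p := by
    intro a
    have hinv : ∀ (g : G) (n : N), (a.1 : N → ℂ) ⟨g * n * g⁻¹, hN.conj_mem (n : G) n.2 g⟩ = (a.1 : N → ℂ) n := by
      intro g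
      have hle : N ⊔ (P : Subgroup G) ≤ inertia hN (a.1 : N → ℂ) :=
        sup_le (le_inertia hN (IsCharacter.isClassFunction (IsIrrCharacter.isCharacter a.1.2)))
          (fun x hx => (mem_inertia_iff hN (a.1 : N → ℂ) x).mpr (a.2.2.2.1 x hx))
      rw [hsup] at hle
      exact (mem_inertia_iff hN (a.1 : N → ℂ) g).mp (hle (Subgroup.mem_top g))
    obtain ⟨χ₀, hχ₀, hχ₀f⟩ := exists_fixed_ext_det hres hidx hcyc hk a.1 a.2.2.1 hinv a.2.2.2.2
    -- elements of the fibre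
    have hmem : ∀ lam : {lam : G →* ℂˣ // (∀ n ∈ N, lam n = 1) ∧ ∀ g, lam g ^ p = 1},
        ∀ n : N, (twistI lam.1 χ₀ : G → ℂ) n = (a.1 : N → ℂ) n := by
      intro lam n
      rw [twistI_apply, lam.2.1 _ n.2, hχ₀ n]
      simp
    have hB : ∀ lam : {lam : G →* ℂˣ // (∀ n ∈ N, lam n = 1) ∧ ∀ g, lam g ^ p = 1},
        twistI lam.1 χ₀ ∈ principalBlock M G ∧ ¬ p ∣ charDegree (twistI lam.1 χ₀ : G → ℂ) ∧
        ∀ g : G, (twistI lam.1 χ₀ : G → ℂ) (g ^ k) = (twistI lam.1 χ₀ : G → ℂ) g := by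
      intro lam
      refine ⟨ext_mem_principal hM hidx _ a.1 a.2.1 (hmem lam), ?_, fun g => ?_⟩
      · rw [charDegree_eq_of_ext _ a.1 (hmem lam)]
        exact a.2.2.1
      · rw [twistI_apply, twistI_apply, hχ₀f, hom_pow_k hreg hk₁ hk₂ lam.1 lam.2.1 g, pow_add, pow_one, lam.2.2 g, mul_one]
    let Ψ : {lam : G →* ℂˣ // (∀ n ∈ N, lam n = 1) ∧ ∀ g, lam g ^ p = 1} → {b : B // f b = a} :=
      fun lam => ⟨⟨twistI lam.1 χ₀, hB lam⟩, hfuniq _ a (hmem lam)⟩
    have hone : ∀ lam : G →* ℂˣ, (∀ n ∈ N, lam n = 1) → ∀ n ∈ N, ((isIrrCharacterOfHom lam : IrrCharacter G) : G → ℂ) n = ((isIrrCharacterOfHom lam : IrrCharacter G) : G → ℂ) 1 := by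
      intro lam hl n hn
      show ((lam n : ℂˣ) : ℂ) = ((lam 1 : ℂˣ) : ℂ)
      rw [hl n hn, map_one]
    have hbij : Function.Bijective Ψ := by
      constructor
      · intro l₁ l₂ h
        have h1 : twistI l₁.1 χ₀ = twistI l₂.1 χ₀ := congrArg (fun b : {b : B // f b = a} => b.1.1) h
        have h2 := eq_of_mul_eq N a.1 χ₀ hχ₀ (isIrrCharacterOfHom l₁.1) (isIrrCharacterOfHom l₂.1)
          (hone _ l₁.2.1) (hone _ l₂.2.1) (fun g => by
            have h3 := congrFun (congrArg Subtype.val h1) g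
            rw [twistI_apply, twistI_apply] at h3
            show ((l₁.1 g : ℂˣ) : ℂ) * _ = ((l₂.1 g : ℂˣ) : ℂ) * _
            rw [mul_comm, h3, mul_comm])
        apply Subtype.ext
        ext g
        exact congrFun (congrArg Subtype.val h2) g
      · intro b
        have hb := hfn b.1
        rw [b.2] at hb
        obtain ⟨lam, hl, hlg⟩ := exists_hom_of_two_ext N a.1 χ₀ b.1.1 hχ₀ hb
        -- the fixed condition gives exponent `p`
        have hlp : ∀ g, lam g ^ p = 1 := by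
          have h2 := eq_of_mul_eq N a.1 χ₀ hχ₀ (isIrrCharacterOfHom ((powMonoidHom (1 + p)).comp lam)) (isIrrCharacterOfHom lam)
            (hone _ (fun n hn => by simp [hl n hn])) (hone _ hl) (fun g => by
              have h3 := b.1.2.2.2 g
              rw [hlg, hlg, hχ₀f, hom_pow_k hreg hk₁ hk₂ lam hl g] at h3
              exact h3)
          intro g
          have h3 := congrFun (congrArg Subtype.val h2) g
          have h4 : (lam g) ^ (1 + p) = lam g := Units.ext h3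
          rw [pow_add, pow_one] at h4
          exact mul_left_cancel (a := lam g) (by rw [h4, mul_one])
        refine ⟨⟨lam, hl, hlp⟩, ?_⟩
        apply Subtype.ext
        apply Subtype.ext
        apply Subtype.ext
        funext g
        show (twistI lam χ₀ : G → ℂ) g = _
        rw [twistI_apply, hlg]
        exact mul_comm _ _
    rw [← Nat.card_eq_of_bijective Ψ hbij]
    exact card_lin_tors hidx hcyc hnt
  haveI : Fintype A := Fintype.ofFinite A
  rw [Nat.card_congr (Equiv.sigmaFiberEquiv f).symm, Nat.card_sigma]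
  simp only [hfib, Finset.sum_const, Finset.card_univ, smul_eq_mul, Nat.card_eq_fintype_card]
  exact mul_comm _ _

end CycRes

end Cfsg.Agent.Lib.CharExtra
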