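import Cfsg.Agent.Lib.Char.BrauerPerm
import Cfsg.Agent.Lib.Char.PermChar
import Cfsg.Agent.Lib.CharExtra.Ito
import Cfsg.Agent.Lib.Block.SubAlg

/-!
# Groups all of whose irreducible degrees are `< p` have a normal abelian Sylow `p`-subgroup.
-/

set_option autoImplicit false
set_option linter.unusedSectionVars false
set_option linter.unusedSimpArgs false
set_option linter.unusedVariables false

open scoped ComplexConjugate
open Cfsg
open Cfsg.Agent.Lib.Block Cfsg.Agent.Lib.Char

namespace Cfsg.Agent.Lib.CharExtra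

section

variable {G : Type*} [Group G] [Fintype G] {p : ℕ} [hp : Fact p.Prime]

/-- A `p`-subgroup conjugating a Sylow subgroup into its normalizer stabilises it. -/
theorem mem_normalizer_of_conj_le (P : Sylow p G) (g : G)
    (h : ∀ u ∈ (P : Subgroup G), g⁻¹ * u * g ∈ Subgroup.normalizer ((P : Subgroup G) : Set G)) :
    g ∈ Subgroup.normalizer ((P : Subgroup G) : Set G) := by
  classical
  let Q : Sylow p G := (MulAut.conj g⁻¹) • P
  have hQ : ((Q : Sylow p G) : Subgroup G) = (P : Subgroup G).map (MulAut.conj g⁻¹).toMonoidHom := rfl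
  have hle : (Q : Subgroup G) ≤ Subgroup.normalizer ((P : Subgroup G) : Set G) := by
    rw [hQ]
    rintro _ ⟨u, hu, rfl⟩
    have := h u hu
    simpa [MulAut.conj_apply] using this
  have hpg : IsPGroup p ((P : Subgroup G) ⊔ (Q : Subgroup G) : Subgroup G) :=
    IsPGroup.to_sup_of_normal_left' P.isPGroup' Q.isPGroup' hle
  have h1 : (P : Subgroup G) ⊔ (Q : Subgroup G) = (P : Subgroup G) :=
    Sylow.is_maximal' P hpg le_sup_left
  have h2 : (Q : Subgroup G) ≤ (P : Subgroup G) := by
    rw [← h1]; exact le_sup_right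
  have h3 : (Q : Subgroup G) = (P : Subgroup G) := (Sylow.is_maximal' Q P.isPGroup' h2).symm
  rw [Subgroup.mem_normalizer_iff]
  have h4 : ∀ u : G, u ∈ (P : Subgroup G) → g⁻¹ * u * g ∈ (P : Subgroup G) := by
    intro u hu
    rw [← h3, hQ]
    exact ⟨u, hu, by simp [MulAut.conj_apply]⟩
  have h5 : ∀ u : G, u ∈ (P : Subgroup G) → g * u * g⁻¹ ∈ (P : Subgroup G) := by
    intro u hu
    have : u ∈ (Q : Subgroup G) := by rw [h3]; exact hu
    rw [hQ] at this
    obtain ⟨v, hv, rfl⟩ := this
    have e : g * ((MulAut.conj g⁻¹).toMonoidHom v) * g⁻¹ = v := by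
      simp [MulAut.conj_apply, mul_assoc]
    rw [e]; exact hv
  intro u
  constructor
  · exact h5 u
  · intro hu
    have := h4 _ hu
    simpa [mul_assoc] using this

/-- Orbit count of a Sylow subgroup on the cosets of its normalizer. -/
theorem orbit_count_normalizer (P : Sylow p G) :
    p * Nat.card (MulAction.orbitRel.Quotient (P : Subgroup G)
        (G ⧸ Subgroup.normalizer ((P : Subgroup G) : Set G))) + 1 ≤
      p + Nat.card (G ⧸ Subgroup.normalizer ((P : Subgroup G) : Set G)) := by
  classical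
  set L := Subgroup.normalizer ((P : Subgroup G) : Set G) with hL
  let Ω := G ⧸ L
  haveI : Fintype Ω := Fintype.ofFinite _
  haveI : Fintype (P : Subgroup G) := Fintype.ofFinite _
  let Q := MulAction.orbitRel.Quotient (P : Subgroup G) Ω
  haveI : Fintype Q := Fintype.ofFinite _
  let ω₀ : Q := Quotient.mk'' (QuotientGroup.mk 1 : Ω)
  have hcard : Nat.card Ω = ∑ ω : Q, Nat.card ω.orbit := by
    rw [Nat.card_congr (MulAction.selfEquivSigmaOrbits' (P : Subgroup G) Ω), Nat.card_sigma]
  have hge : ∀ ω : Q, ω ≠ ω₀ → p ≤ Nat.card ω.orbit := by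
    intro ω hω
    induction ω using Quotient.inductionOn' with
    | h x =>
    induction x using QuotientGroup.induction_on with
    | H g =>
    rw [MulAction.orbitRel.Quotient.orbit_mk]
    obtain ⟨n, hn⟩ := IsPGroup.card_orbit P.isPGroup' (QuotientGroup.mk g : Ω)
    rw [hn]
    rcases Nat.eq_zero_or_pos n with rfl | hnpos
    · exfalso
      apply hω
      have hone : Nat.card (MulAction.orbit (P : Subgroup G) (QuotientGroup.mk g : Ω)) = 1 := by
        simpa using hn
      have hfix : ∀ u : (P : Subgroup G), u • (QuotientGroup.mk g : Ω) = QuotientGroup.mk g := by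
        intro u
        have h1 := (Nat.card_eq_one_iff_unique.1 hone).1
        have h2 : (⟨u • (QuotientGroup.mk g : Ω), MulAction.mem_orbit _ u⟩ :
            MulAction.orbit (P : Subgroup G) (QuotientGroup.mk g : Ω)) =
            ⟨(QuotientGroup.mk g : Ω), MulAction.mem_orbit_self _⟩ := h1.elim _ _
        exact congrArg Subtype.val h2
      have hmem : g ∈ L := by
        apply mem_normalizer_of_conj_le P g
        intro u hu
        have := hfix ⟨u, hu⟩
        have h3 : (QuotientGroup.mk (u * g) : Ω) = QuotientGroup.mk g := this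
        rw [QuotientGroup.eq] at h3
        have h4 : (u * g)⁻¹ * g ∈ L := h3
        have h5 : g⁻¹ * u * g ∈ L := by
          have := L.inv_mem h4
          simpa [mul_assoc] using this
        exact h5
      have hq : (QuotientGroup.mk g : Ω) = QuotientGroup.mk 1 := by
        rw [QuotientGroup.eq]
        simpa using L.inv_mem hmem
      change Quotient.mk'' (QuotientGroup.mk g : Ω) = ω₀
      rw [hq]
    · exact Nat.le_self_pow (by omega) p
  have hone : 1 ≤ Nat.card ω₀.orbit := by
    rw [Nat.one_le_iff_ne_zero, Nat.card_ne_zero]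
    refine ⟨⟨(QuotientGroup.mk 1 : Ω), ?_⟩, inferInstance⟩
    exact MulAction.orbitRel.Quotient.mem_orbit.2 rfl
  have hsum : ∑ ω ∈ Finset.univ.erase ω₀, p ≤ ∑ ω ∈ Finset.univ.erase ω₀, Nat.card ω.orbit :=
    Finset.sum_le_sum fun ω hω => hge ω (Finset.ne_of_mem_erase hω)
  have hsplit := Finset.add_sum_erase Finset.univ (fun ω : Q => Nat.card ω.orbit)
    (Finset.mem_univ ω₀)
  simp only [Finset.sum_const, smul_eq_mul, Finset.card_erase_of_mem (Finset.mem_univ ω₀),
    Finset.card_univ] at hsum
  have hpos : 1 ≤ Fintype.card Q := Fintype.card_pos_iff.2 ⟨ω₀⟩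
  rw [Nat.card_eq_fintype_card (α := Q)]
  have e1 : p * Fintype.card Q = (Fintype.card Q - 1) * p + p := by
    obtain ⟨k, hk⟩ : ∃ k, Fintype.card Q = k + 1 := ⟨Fintype.card Q - 1, by omega⟩
    rw [hk]; simp; ring
  have e2 : Nat.card (G ⧸ L) = Nat.card Ω := rfl
  omega

/-- All irreducible degrees `< p` force a Sylow `p`-subgroup to be normal. -/
theorem normalizer_sylow_eq_top_of_small (P : Sylow p G)
    (hb : ∀ χ : IrrCharacter G, charDegree (χ : G → ℂ) < p) :
    Subgroup.normalizer ((P : Subgroup G) : Set G) = ⊤ := by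
  classical
  set L := Subgroup.normalizer ((P : Subgroup G) : Set G) with hL
  haveI : Fintype L := Fintype.ofFinite _
  haveI : Fintype (P : Subgroup G) := Fintype.ofFinite _
  have hPL : (P : Subgroup G) ≤ L := Subgroup.le_normalizer
  let π : G → ℂ := indFun L (fun _ => 1)
  have hπ : IsCharacter G π := indFun_isCharacter L IsCharacter.one
  choose b hbc using fun χ : IrrCharacter G =>
    classInner_isCharacter_nat hπ (IsIrrCharacter.isCharacter χ.2)
  have hexp : π = ∑ χ : IrrCharacter G, (b χ : ℂ) • (χ : G → ℂ) := by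
    conv_lhs => rw [classFunction_eq_sum π (IsCharacter.isClassFunction hπ)]
    exact Finset.sum_congr rfl fun χ _ => by rw [hbc χ]
  have hexp' : ∀ g, π g = ∑ χ : IrrCharacter G, (b χ : ℂ) * (χ : G → ℂ) g := by
    intro g
    conv_lhs => rw [hexp]
    simp [Finset.sum_apply]
  choose a ha using fun χ : IrrCharacter G =>
    classInner_isCharacter_nat (IsCharacter.restrict (P : Subgroup G)
      (IsIrrCharacter.isCharacter χ.2)) (IsCharacter.one (G := (P : Subgroup G)))
  -- orbit count
  have hcardP : (Nat.card (P : Subgroup G) : ℂ) ≠ 0 := card_subgroup_ne_zero _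
  have horb : (Nat.card (MulAction.orbitRel.Quotient (P : Subgroup G) (G ⧸ L)) : ℂ) =
      ∑ χ : IrrCharacter G, (b χ : ℂ) * (a χ : ℂ) := by
    have h1 := sum_fixedBy_eq_card_orbits (G := (P : Subgroup G)) (G ⧸ L)
    have h2 : ∀ u : (P : Subgroup G), (Nat.card (MulAction.fixedBy (G ⧸ L) u) : ℂ) =
        ∑ χ : IrrCharacter G, (b χ : ℂ) * (χ : G → ℂ) u := by
      intro u
      rw [← hexp']
      exact (indFun_one_eq_fix L (u : G)).symm
    have h3 : ∀ χ : IrrCharacter G, ∑ u : (P : Subgroup G), (χ : G → ℂ) u =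
        (Nat.card (P : Subgroup G) : ℂ) * (a χ : ℂ) := by
      intro χ
      rw [← ha χ, classInner_def]
      simp only [map_one, mul_one]
      field_simp
    have h5 : ∑ u : (P : Subgroup G), (Nat.card (MulAction.fixedBy (G ⧸ L) u) : ℂ) =
        (∑ χ : IrrCharacter G, (b χ : ℂ) * (a χ : ℂ)) * (Nat.card (P : Subgroup G) : ℂ) := by
      simp only [h2]
      rw [Finset.sum_comm, Finset.sum_mul]
      refine Finset.sum_congr rfl fun χ _ => ?_
      rw [← Finset.mul_sum, h3]
      ring
    rw [h5] at h1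
    exact (mul_right_cancel₀ hcardP h1).symm
  -- degree count
  have hW : (Nat.card (G ⧸ L) : ℂ) = ∑ χ : IrrCharacter G, (b χ : ℂ) * (charDegree (χ : G → ℂ) : ℂ) := by
    have h1 : π 1 = (Nat.card (G ⧸ L) : ℂ) := by
      have := indFun_one L (fun _ => (1 : ℂ))
      change indFun L (fun _ => (1 : ℂ)) 1 = _
      rw [this, mul_one]
      rfl
    rw [← h1, hexp']
    refine Finset.sum_congr rfl fun χ _ => ?_
    rw [map_one_eq_charDegree (IsIrrCharacter.isCharacter χ.2)]
  -- multiplicities over `L`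
  have hab : ∀ χ : IrrCharacter G, b χ ≠ 0 → 1 ≤ a χ := by
    intro χ hχ
    have h1 : classInner (fun _ : L => (1 : ℂ)) (fun h : L => (χ : G → ℂ) h) ≠ 0 := by
      rw [← frobenius_reciprocity L _ _ (IsCharacter.isClassFunction (IsIrrCharacter.isCharacter χ.2))]
      change classInner π (χ : G → ℂ) ≠ 0
      rw [hbc χ]
      exact_mod_cast hχ
    have h2 : classInner (fun h : L => (χ : G → ℂ) h) (fun _ : L => (1 : ℂ)) ≠ 0 := by
      rw [← conj_classInner]
      simpa using h1
    have h3 := isCharacter_sub_of_constituent (IsCharacter.restrict L (IsIrrCharacter.isCharacter χ.2))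
      (oneIrr L).2 h2
    have h4 := IsCharacter.comp (Subgroup.inclusion hPL) h3
    obtain ⟨k, hk⟩ := classInner_isCharacter_nat h4 (IsCharacter.one (G := (P : Subgroup G)))
    have h5 : (fun u : (P : Subgroup G) => (χ : G → ℂ) u) =
        (fun u => ((fun h : L => (χ : G → ℂ) h) - ((oneIrr L : IrrCharacter L) : L → ℂ)) (Subgroup.inclusion hPL u))
          + (fun _ => (1 : ℂ)) := by
      funext u
      simp [oneIrr_coe]
    have h6 : (a χ : ℂ) = (k : ℂ) + 1 := by
      have h8 := classInner_irr_self (oneIrr (P : Subgroup G)).2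
      rw [← ha χ, h5, classInner_add_left]
      exact congrArg₂ (· + ·) hk h8
    have h7 : a χ = k + 1 := by exact_mod_cast h6
    omega
  have hb1 : b (oneIrr G) = 1 := by
    have h1 : classInner π ((oneIrr G : IrrCharacter G) : G → ℂ) = 1 := by
      change classInner (indFun L (fun _ => (1 : ℂ))) _ = 1
      rw [frobenius_reciprocity L _ _ (IsCharacter.isClassFunction (IsIrrCharacter.isCharacter (oneIrr G).2))]
      exact classInner_irr_self (oneIrr L).2
    rw [hbc] at h1
    exact_mod_cast h1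
  have hd1 : charDegree ((oneIrr G : IrrCharacter G) : G → ℂ) = 1 := by
    apply charDegree_natCast
    simp [oneIrr_coe]
  -- arithmetic
  have hcount := orbit_count_normalizer P
  rw [← hL] at hcount
  have hN : Nat.card (MulAction.orbitRel.Quotient (P : Subgroup G) (G ⧸ L)) =
      ∑ χ : IrrCharacter G, b χ * a χ := by exact_mod_cast horb
  have hW' : Nat.card (G ⧸ L) = ∑ χ : IrrCharacter G, b χ * charDegree (χ : G → ℂ) := by
    exact_mod_cast hW
  let T : Finset (IrrCharacter G) := Finset.univ.erase (oneIrr G)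
  have hs1 : b (oneIrr G) + ∑ χ ∈ T, b χ = ∑ χ, b χ :=
    Finset.add_sum_erase Finset.univ (fun χ : IrrCharacter G => b χ) (Finset.mem_univ (oneIrr G))
  have hs2 : b (oneIrr G) * charDegree ((oneIrr G : IrrCharacter G) : G → ℂ) +
      ∑ χ ∈ T, b χ * charDegree (χ : G → ℂ) = ∑ χ, b χ * charDegree (χ : G → ℂ) :=
    Finset.add_sum_erase Finset.univ (fun χ : IrrCharacter G => b χ * charDegree (χ : G → ℂ))
    (Finset.mem_univ (oneIrr G))
  simp only [hb1, hd1, mul_one] at hs1 hs2
  have hle : ∑ χ : IrrCharacter G, b χ ≤ ∑ χ : IrrCharacter G, b χ * a χ := by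
    refine Finset.sum_le_sum fun χ _ => ?_
    by_cases h : b χ = 0
    · simp [h]
    · exact Nat.le_mul_of_pos_right _ (hab χ h)
  have hall : ∀ χ ∈ T, b χ = 0 := by
    by_contra hcon
    push Not at hcon
    obtain ⟨χ, hχ, hne⟩ := hcon
    have hlt : ∑ χ ∈ T, b χ * charDegree (χ : G → ℂ) < ∑ χ ∈ T, p * b χ := by
      apply Finset.sum_lt_sum
      · intro ψ _
        rw [mul_comm]
        exact Nat.mul_le_mul_right _ (hb ψ).le
      · exact ⟨χ, hχ, by rw [mul_comm]; exact Nat.mul_lt_mul_of_pos_right (hb χ) (Nat.pos_of_ne_zero hne)⟩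
    rw [← Finset.mul_sum] at hlt
    have h1 : p * ∑ χ : IrrCharacter G, b χ + 1 ≤ p + ∑ χ : IrrCharacter G, b χ * charDegree (χ : G → ℂ) := by
      rw [hN, hW'] at hcount
      have := Nat.mul_le_mul_left p hle
      omega
    rw [← hs1, ← hs2, mul_add, mul_one] at h1
    omega
  have hW1 : Nat.card (G ⧸ L) = 1 := by
    have h0 : ∑ χ ∈ T, b χ * charDegree (χ : G → ℂ) = 0 :=
      Finset.sum_eq_zero (fun χ hχ => by rw [hall χ hχ, zero_mul])
    rw [hW', ← hs2, h0]
  have : L.index = 1 := hW1
  exact Subgroup.index_eq_one.1 this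

/-- All irreducible degrees `< p`: a Sylow `p`-subgroup is abelian. -/
theorem sylow_comm_of_small (P : Sylow p G)
    (hb : ∀ χ : IrrCharacter G, charDegree (χ : G → ℂ) < p) :
    ∀ x y : (P : Subgroup G), x * y = y * x := by
  classical
  haveI : Fintype (P : Subgroup G) := Fintype.ofFinite _
  rw [comm_iff_forall_irr_degree_one]
  intro θ
  obtain ⟨χ, hχ, hne⟩ := exists_irr_over (P : Subgroup G) θ.2
  have h1 := charDegree_le_of_constituent (IsCharacter.restrict (P : Subgroup G) (IsIrrCharacter.isCharacter hχ)) θ.2 hne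
  have h2 : charDegree (fun n : (P : Subgroup G) => χ n) = charDegree χ := by
    unfold charDegree
    simp
  have h3 := hb ⟨χ, hχ⟩
  have h4 : charDegree θ.1 ∣ Nat.card (P : Subgroup G) := charDegree_dvd_card θ.2
  obtain ⟨k, hk⟩ := IsPGroup.iff_card.1 P.isPGroup'
  rw [hk] at h4
  obtain ⟨j, -, hj⟩ := (Nat.dvd_prime_pow Fact.out).1 h4
  have h5 : j = 0 := by
    by_contra hj0
    have h6 : p ≤ p ^ j := Nat.le_self_pow hj0 p
    simp only [] at h3
    omega
  rw [map_one_eq_charDegree (IsIrrCharacter.isCharacter θ.2), hj, h5]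
  simp

end

end Cfsg.Agent.Lib.CharExtra
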