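import Cfsg.Agent.Lib.CharExtra.PrimeDegB
import Cfsg.Agent.Lib.CharExtra.SmallDeg
import Cfsg.Agent.Lib.Core.Basic

/-!
# Prime character degrees: the Sylow subgroup for the largest prime has prime order.
-/

set_option autoImplicit false
set_option linter.unusedSectionVars false
set_option linter.style.haveILetI false
set_option linter.unusedSimpArgs false
set_option linter.unnecessarySimpa false
set_option linter.unusedVariables false

open scoped ComplexConjugate
open Subgroup

namespace Cfsg.Agent.Lib.CharExtra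

open Cfsg (classInner IsCharacter IsIrrCharacter IrrCharacter IsClassFunction indFun
  extendByZero IsGeneralizedCharacter charDegree)
open Cfsg.Agent.Lib.Char
open Cfsg.Agent.Lib.Block (oneIrr oneIrr_coe)

universe u

variable {G : Type u} [Group G] {p : ℕ} {x : G}

/-- Burnside's vanishing theorem for a faithful irreducible character in a group with
no central elements. -/
theorem irr_vanish_of_coprime [Fintype G] (χ : IrrCharacter G)
    (hfaith : ∀ g, (χ : G → ℂ) g = (χ : G → ℂ) 1 → g = 1) {z : G} (hz : z ∉ center G)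
    (hcop : Nat.Coprime (charDegree (χ : G → ℂ)) (centralizer ({z} : Set G)).index) :
    (χ : G → ℂ) z = 0 := by
  classical
  obtain ⟨χ, n, ρ, hρ, rfl⟩ := χ
  simp only at hfaith hcop ⊢
  have hone : ρ.character 1 = (Module.finrank ℂ (Fin n → ℂ) : ℂ) := Representation.char_one ρ
  have hdeg : charDegree ρ.character = Module.finrank ℂ (Fin n → ℂ) := charDegree_natCast hone
  rw [hdeg] at hcop
  rcases character_eq_zero_or_norm_of_coprime ρ hρ z hcop with h0 | h0
  · exact h0
  · exfalso
    obtain ⟨ω, hω⟩ := (norm_character_eq_iff ρ z (isOfFinOrder_of_finite z)).mp h0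
    apply hz
    rw [Subgroup.mem_center_iff]
    intro g
    have h1 : ρ (g * z * g⁻¹ * z⁻¹) = 1 := by
      have hgu : ρ z * ρ z⁻¹ = 1 := by rw [← map_mul, mul_inv_cancel, map_one]
      simp only [map_mul]
      have h2 : ρ g * ρ z = ρ z * ρ g := by
        rw [hω]
        ext v
        simp
      rw [h2, mul_assoc (ρ z), ← map_mul, mul_inv_cancel, map_one, mul_one, hgu]
    have h2 := hfaith (g * z * g⁻¹ * z⁻¹) (by
      show LinearMap.trace ℂ _ (ρ (g * z * g⁻¹ * z⁻¹)) = LinearMap.trace ℂ _ (ρ 1)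
      rw [h1, show ρ 1 = 1 from map_one ρ])
    have h3 : g * z * g⁻¹ = z := by
      rwa [mul_inv_eq_one] at h2
    calc g * z = g * z * g⁻¹ * g := by group
      _ = z * g := by rw [h3]

/-- The structure of the permutation character on the cosets of the normalizer. -/
theorem prime_deg_step_a [Fintype G] [IsSimpleGroup G] [hp : Fact p.Prime]
    (hnc : ¬ IsMulCommutative G) (P : Sylow p G) (hP1 : (P : Subgroup G) ≠ ⊥)
    (hfaith : ∀ ψ : IrrCharacter G, ψ ≠ oneIrr G → ∀ g,
      (ψ : G → ℂ) g = (ψ : G → ℂ) 1 → g = 1)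
    (hdg : ∀ (ψ : IrrCharacter G), ψ ≠ oneIrr G → charDegree (ψ : G → ℂ) ≤ p) :
    Nat.card (P : Subgroup G) = p := by
  classical
  have hcen : center G = ⊥ := by
    rcases IsSimpleGroup.eq_bot_or_eq_top_of_normal (center G) inferInstance with h0 | h0
    · exact h0
    · exfalso
      apply hnc
      refine ⟨⟨fun a b => ?_⟩⟩
      exact (Subgroup.mem_center_iff.1 (h0 ▸ Subgroup.mem_top b)) a
  set L := Subgroup.normalizer ((P : Subgroup G) : Set G) with hL
  haveI : Fintype L := Fintype.ofFinite _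
  haveI : Fintype (P : Subgroup G) := Fintype.ofFinite _
  have hPL : (P : Subgroup G) ≤ L := Subgroup.le_normalizer
  have hLne : L ≠ ⊤ := by
    intro htop
    have hn : (P : Subgroup G).Normal := Subgroup.normalizer_eq_top_iff.1 htop
    have hPt : (P : Subgroup G) = ⊤ :=
      (IsSimpleGroup.eq_bot_or_eq_top_of_normal _ hn).resolve_left hP1
    have hG : IsPGroup p G := by
      intro g
      obtain ⟨k, hk⟩ := P.isPGroup' ⟨g, hPt ▸ Subgroup.mem_top g⟩
      exact ⟨k, by simpa using congrArg Subtype.val hk⟩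
    have hnt := hG.center_nontrivial
    obtain ⟨⟨z, hz⟩, hz1⟩ := exists_ne (1 : center G)
    rw [hcen, Subgroup.mem_bot] at hz
    exact hz1 (Subtype.ext hz)
  let π : G → ℂ := indFun L (fun _ => 1)
  have hπ : IsCharacter G π := indFun_isCharacter L IsCharacter.one
  choose b hbc using fun χ : IrrCharacter G =>
    classInner_isCharacter_nat hπ (IsIrrCharacter.isCharacter χ.2)
  have hexp : π = ∑ χ : IrrCharacter G, (b χ : ℂ) • (χ : G → ℂ) := by
    conv_lhs => rw [classFunction_eq_sum π (IsCharacter.isClassFunction hπ)]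
    exact Finset.sum_congr rfl fun χ _ => by rw [hbc χ]
  have hexp' : ∀ g, π g = ∑ χ : IrrCharacter G, (b χ : ℂ) * (χ : G → ℂ) g := by
    intro g
    conv_lhs => rw [hexp]
    simp [Finset.sum_apply]
  choose a ha using fun χ : IrrCharacter G =>
    classInner_isCharacter_nat (IsCharacter.restrict (P : Subgroup G)
      (IsIrrCharacter.isCharacter χ.2)) (IsCharacter.one (G := (P : Subgroup G)))
  -- orbit count
  have hcardP : (Nat.card (P : Subgroup G) : ℂ) ≠ 0 := card_subgroup_ne_zero _
  have horb : (Nat.card (MulAction.orbitRel.Quotient (P : Subgroup G) (G ⧸ L)) : ℂ) =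
      ∑ χ : IrrCharacter G, (b χ : ℂ) * (a χ : ℂ) := by
    have h1 := sum_fixedBy_eq_card_orbits (G := (P : Subgroup G)) (G ⧸ L)
    have h2 : ∀ u : (P : Subgroup G), (Nat.card (MulAction.fixedBy (G ⧸ L) u) : ℂ) =
        ∑ χ : IrrCharacter G, (b χ : ℂ) * (χ : G → ℂ) u := by
      intro u
      rw [← hexp']
      exact (indFun_one_eq_fix L (u : G)).symm
    have h3 : ∀ χ : IrrCharacter G, ∑ u : (P : Subgroup G), (χ : G → ℂ) u =
        (Nat.card (P : Subgroup G) : ℂ) * (a χ : ℂ) := by
      intro χ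
      rw [← ha χ, classInner_def]
      simp only [map_one, mul_one]
      field_simp
    have h5 : ∑ u : (P : Subgroup G), (Nat.card (MulAction.fixedBy (G ⧸ L) u) : ℂ) =
        (∑ χ : IrrCharacter G, (b χ : ℂ) * (a χ : ℂ)) * (Nat.card (P : Subgroup G) : ℂ) := by
      simp only [h2]
      rw [Finset.sum_comm, Finset.sum_mul]
      refine Finset.sum_congr rfl fun χ _ => ?_
      rw [← Finset.mul_sum, h3]
      ring
    rw [h5] at h1
    exact (mul_right_cancel₀ hcardP h1).symm
  -- degree count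
  have hW : (Nat.card (G ⧸ L) : ℂ) = ∑ χ : IrrCharacter G, (b χ : ℂ) * (charDegree (χ : G → ℂ) : ℂ) := by
    have h1 : π 1 = (Nat.card (G ⧸ L) : ℂ) := by
      have := indFun_one L (fun _ => (1 : ℂ))
      change indFun L (fun _ => (1 : ℂ)) 1 = _
      rw [this, mul_one]
      rfl
    rw [← h1, hexp']
    refine Finset.sum_congr rfl fun χ _ => ?_
    rw [map_one_eq_charDegree (IsIrrCharacter.isCharacter χ.2)]
  -- multiplicities over `L`
  have hab : ∀ χ : IrrCharacter G, b χ ≠ 0 → 1 ≤ a χ := by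
    intro χ hχ
    have h1 : classInner (fun _ : L => (1 : ℂ)) (fun h : L => (χ : G → ℂ) h) ≠ 0 := by
      rw [← frobenius_reciprocity L _ _ (IsCharacter.isClassFunction (IsIrrCharacter.isCharacter χ.2))]
      change classInner π (χ : G → ℂ) ≠ 0
      rw [hbc χ]
      exact_mod_cast hχ
    have h2 : classInner (fun h : L => (χ : G → ℂ) h) (fun _ : L => (1 : ℂ)) ≠ 0 := by
      rw [← conj_classInner]
      simpa using h1
    have h3 := isCharacter_sub_of_constituent (IsCharacter.restrict L (IsIrrCharacter.isCharacter χ.2))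
      (oneIrr L).2 h2
    have h4 := IsCharacter.comp (Subgroup.inclusion hPL) h3
    obtain ⟨k, hk⟩ := classInner_isCharacter_nat h4 (IsCharacter.one (G := (P : Subgroup G)))
    have h5 : (fun u : (P : Subgroup G) => (χ : G → ℂ) u) =
        (fun u => ((fun h : L => (χ : G → ℂ) h) - ((oneIrr L : IrrCharacter L) : L → ℂ)) (Subgroup.inclusion hPL u))
          + (fun _ => (1 : ℂ)) := by
      funext u
      simp [oneIrr_coe]
    have h6 : (a χ : ℂ) = (k : ℂ) + 1 := by
      have h8 := classInner_irr_self (oneIrr (P : Subgroup G)).2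
      rw [← ha χ, h5, classInner_add_left]
      exact congrArg₂ (· + ·) hk h8
    have h7 : a χ = k + 1 := by exact_mod_cast h6
    omega
  have hb1 : b (oneIrr G) = 1 := by
    have h1 : classInner π ((oneIrr G : IrrCharacter G) : G → ℂ) = 1 := by
      change classInner (indFun L (fun _ => (1 : ℂ))) _ = 1
      rw [frobenius_reciprocity L _ _ (IsCharacter.isClassFunction (IsIrrCharacter.isCharacter (oneIrr G).2))]
      exact classInner_irr_self (oneIrr L).2
    rw [hbc] at h1
    exact_mod_cast h1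
  have hd1 : charDegree ((oneIrr G : IrrCharacter G) : G → ℂ) = 1 := by
    apply charDegree_natCast
    simp [oneIrr_coe]
  -- arithmetic
  let Ω := G ⧸ L
  haveI : Fintype Ω := Fintype.ofFinite _
  let Q := MulAction.orbitRel.Quotient (P : Subgroup G) Ω
  haveI : Fintype Q := Fintype.ofFinite _
  let ω₀ : Q := Quotient.mk'' (QuotientGroup.mk 1 : Ω)
  have hcard : Nat.card Ω = ∑ ω : Q, Nat.card ω.orbit := by
    rw [Nat.card_congr (MulAction.selfEquivSigmaOrbits' (P : Subgroup G) Ω), Nat.card_sigma]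
  -- a point not fixed
  have hnf : ∀ g : G, g ∉ L → ∃ u : (P : Subgroup G), u • (QuotientGroup.mk g : Ω) ≠ QuotientGroup.mk g := by
    intro g hg
    by_contra hcon
    push Not at hcon
    apply hg
    apply mem_normalizer_of_conj_le P g
    intro u hu
    have := hcon ⟨u, hu⟩
    have h3 : (QuotientGroup.mk (u * g) : Ω) = QuotientGroup.mk g := this
    rw [QuotientGroup.eq] at h3
    have h4 : (u * g)⁻¹ * g ∈ L := h3
    have h5 : g⁻¹ * u * g ∈ L := by
      have := L.inv_mem h4
      simpa [mul_assoc] using this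
    exact h5
  have hfix1 : ∀ u : (P : Subgroup G), u • (QuotientGroup.mk 1 : Ω) = QuotientGroup.mk 1 := by
    intro u
    show (QuotientGroup.mk ((u : G) * 1) : Ω) = QuotientGroup.mk 1
    rw [QuotientGroup.eq]
    simpa using L.inv_mem (hPL u.2)
  have hone : Nat.card ω₀.orbit = 1 := by
    have hω : ω₀.orbit = {(QuotientGroup.mk 1 : Ω)} := by
      change MulAction.orbitRel.Quotient.orbit (Quotient.mk'' _) = _
      rw [MulAction.orbitRel.Quotient.orbit_mk]
      ext w
      simp only [MulAction.mem_orbit_iff, Set.mem_singleton_iff]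
      constructor
      · rintro ⟨u, rfl⟩
        exact hfix1 u
      · rintro rfl
        exact ⟨1, one_smul _ _⟩
    rw [hω]
    simp
  have hge : ∀ ω : Q, ω ≠ ω₀ → p ≤ Nat.card ω.orbit := by
    intro ω hω
    induction ω using Quotient.inductionOn' with
    | h w =>
    induction w using QuotientGroup.induction_on with
    | H g =>
    rw [MulAction.orbitRel.Quotient.orbit_mk]
    obtain ⟨n, hn⟩ := IsPGroup.card_orbit P.isPGroup' (QuotientGroup.mk g : Ω)
    rw [hn]
    rcases Nat.eq_zero_or_pos n with rfl | hnpos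
    · exfalso
      apply hω
      have hone : Nat.card (MulAction.orbit (P : Subgroup G) (QuotientGroup.mk g : Ω)) = 1 := by
        simpa using hn
      have hfix : ∀ u : (P : Subgroup G), u • (QuotientGroup.mk g : Ω) = QuotientGroup.mk g := by
        intro u
        have h1 := (Nat.card_eq_one_iff_unique.1 hone).1
        have h2 : (⟨u • (QuotientGroup.mk g : Ω), MulAction.mem_orbit _ u⟩ :
            MulAction.orbit (P : Subgroup G) (QuotientGroup.mk g : Ω)) =
            ⟨(QuotientGroup.mk g : Ω), MulAction.mem_orbit_self _⟩ := h1.elim _ _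
        exact congrArg Subtype.val h2
      have hmem : g ∈ L := by
        by_contra hg
        obtain ⟨u, hu⟩ := hnf g hg
        exact hu (hfix u)
      have hq : (QuotientGroup.mk g : Ω) = QuotientGroup.mk 1 := by
        rw [QuotientGroup.eq]
        simpa using L.inv_mem hmem
      change Quotient.mk'' (QuotientGroup.mk g : Ω) = ω₀
      rw [hq]
    · exact Nat.le_self_pow (by omega) p
  let R : Finset Q := Finset.univ.erase ω₀
  let T : Finset (IrrCharacter G) := Finset.univ.erase (oneIrr G)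
  have hN : Nat.card Q = ∑ χ : IrrCharacter G, b χ * a χ := by exact_mod_cast horb
  have hW' : Nat.card Ω = ∑ χ : IrrCharacter G, b χ * charDegree (χ : G → ℂ) := by
    exact_mod_cast hW
  have hs1 : b (oneIrr G) + ∑ χ ∈ T, b χ = ∑ χ, b χ :=
    Finset.add_sum_erase Finset.univ (fun χ : IrrCharacter G => b χ) (Finset.mem_univ (oneIrr G))
  have hs2 : b (oneIrr G) * charDegree ((oneIrr G : IrrCharacter G) : G → ℂ) +
      ∑ χ ∈ T, b χ * charDegree (χ : G → ℂ) = ∑ χ, b χ * charDegree (χ : G → ℂ) :=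
    Finset.add_sum_erase Finset.univ (fun χ : IrrCharacter G => b χ * charDegree (χ : G → ℂ))
    (Finset.mem_univ (oneIrr G))
  simp only [hb1, hd1, mul_one] at hs1 hs2
  have hs3 : Nat.card ω₀.orbit + ∑ ω ∈ R, Nat.card ω.orbit = ∑ ω : Q, Nat.card ω.orbit :=
    Finset.add_sum_erase Finset.univ (fun ω : Q => Nat.card ω.orbit) (Finset.mem_univ ω₀)
  have hRcard : R.card + 1 = Nat.card Q := by
    rw [Finset.card_erase_of_mem (Finset.mem_univ ω₀), Finset.card_univ, Nat.card_eq_fintype_card]
    have : 0 < Fintype.card Q := Fintype.card_pos_iff.2 ⟨ω₀⟩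
    omega
  have hle : ∑ χ : IrrCharacter G, b χ ≤ ∑ χ : IrrCharacter G, b χ * a χ := by
    refine Finset.sum_le_sum fun χ _ => ?_
    by_cases h : b χ = 0
    · simp [h]
    · exact Nat.le_mul_of_pos_right _ (hab χ h)
  have h_i : ∑ ω ∈ R, Nat.card ω.orbit = ∑ χ ∈ T, b χ * charDegree (χ : G → ℂ) := by
    rw [hone] at hs3
    rw [← hcard, hW', ← hs2] at hs3
    omega
  have h_ii : ∑ χ ∈ T, b χ * charDegree (χ : G → ℂ) ≤ ∑ χ ∈ T, p * b χ := by
    refine Finset.sum_le_sum fun χ hχ => ?_
    rw [mul_comm]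
    exact Nat.mul_le_mul_right _ (hdg χ (Finset.ne_of_mem_erase hχ))
  have h_iii : ∑ χ ∈ T, b χ ≤ R.card := by
    rw [hN] at hRcard
    omega
  have h_iv : ∑ ω ∈ R, p ≤ ∑ ω ∈ R, Nat.card ω.orbit :=
    Finset.sum_le_sum fun ω hω => hge ω (Finset.ne_of_mem_erase hω)
  rw [Finset.sum_const, smul_eq_mul] at h_iv
  rw [← Finset.mul_sum] at h_ii
  have h_v : p * ∑ χ ∈ T, b χ ≤ p * R.card := Nat.mul_le_mul_left _ h_iii
  have h_vi : R.card * p = p * R.card := mul_comm _ _
  have hsizes : ∀ ω ∈ R, Nat.card ω.orbit = p := by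
    intro ω hω
    by_contra hne
    have hlt : p < Nat.card ω.orbit := lt_of_le_of_ne (hge ω (Finset.ne_of_mem_erase hω)) (Ne.symm hne)
    have : ∑ ω ∈ R, p < ∑ ω ∈ R, Nat.card ω.orbit :=
      Finset.sum_lt_sum (fun ω hω => hge ω (Finset.ne_of_mem_erase hω)) ⟨ω, hω, hlt⟩
    rw [Finset.sum_const, smul_eq_mul] at this
    omega
  have hdegs : ∀ χ ∈ T, b χ ≠ 0 → charDegree (χ : G → ℂ) = p := by
    intro χ hχ hbχ
    by_contra hne
    have hlt : charDegree (χ : G → ℂ) < p := lt_of_le_of_ne (hdg χ (Finset.ne_of_mem_erase hχ)) hne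
    have : ∑ χ ∈ T, b χ * charDegree (χ : G → ℂ) < ∑ χ ∈ T, p * b χ := by
      apply Finset.sum_lt_sum
      · intro ψ hψ
        rw [mul_comm]
        exact Nat.mul_le_mul_right _ (hdg ψ (Finset.ne_of_mem_erase hψ))
      · exact ⟨χ, hχ, by rw [mul_comm]; exact Nat.mul_lt_mul_of_pos_right hlt (Nat.pos_of_ne_zero hbχ)⟩
    rw [← Finset.mul_sum] at this
    omega
  -- the contradiction
  by_contra hcardP'
  have hPpow : IsPGroup p (P : Subgroup G) := P.isPGroup'
  obtain ⟨n, hn⟩ := IsPGroup.iff_card.1 hPpow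
  have hn2 : 2 ≤ n := by
    by_contra hlt
    have : n = 0 ∨ n = 1 := by omega
    rcases this with rfl | rfl
    · apply hP1
      rw [pow_zero] at hn
      exact Subgroup.eq_bot_of_card_eq _ hn
    · rw [pow_one] at hn
      exact hcardP' hn
  obtain ⟨g, hg⟩ : ∃ g, g ∉ L := by
    by_contra hcon
    push Not at hcon
    exact hLne ((Subgroup.eq_top_iff' L).2 hcon)
  obtain ⟨u₀, hu₀⟩ := hnf g hg
  let pt : Ω := QuotientGroup.mk g
  have hptne : pt ≠ QuotientGroup.mk 1 := by
    intro h0
    apply hu₀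
    change u₀ • pt = pt
    rw [h0]
    exact hfix1 u₀
  let ω₁ : Q := Quotient.mk'' pt
  have hω₁ : ω₁ ≠ ω₀ := by
    intro h0
    have h1 : (MulAction.orbitRel (P : Subgroup G) Ω) pt (QuotientGroup.mk 1) := Quotient.exact' h0
    rw [MulAction.orbitRel_apply] at h1
    obtain ⟨u, hu⟩ := h1
    apply hptne
    rw [← hu]
    exact hfix1 u
  have hs₁ : Nat.card (MulAction.orbit (P : Subgroup G) pt) = p := by
    have := hsizes ω₁ (Finset.mem_erase.2 ⟨hω₁, Finset.mem_univ _⟩)
    rwa [MulAction.orbitRel.Quotient.orbit_mk] at this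
  let D : Subgroup (P : Subgroup G) := MulAction.stabilizer (P : Subgroup G) pt
  have hDcard : p * Nat.card D = Nat.card (P : Subgroup G) := by
    have h := MulAction.card_orbit_mul_card_stabilizer_eq_card_group (P : Subgroup G) pt
    rw [← Nat.card_eq_fintype_card, ← Nat.card_eq_fintype_card, ← Nat.card_eq_fintype_card, hs₁] at h
    exact h
  have hDi : D.index = p := by
    have h1 := Subgroup.card_mul_index D
    rw [← hDcard, mul_comm] at h1
    exact Nat.eq_of_mul_eq_mul_right Nat.card_pos h1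
  have hmin : (Nat.card (P : Subgroup G)).minFac = p := by
    rw [hn]
    exact (Nat.Prime.pow_minFac hp.out (by omega))
  haveI hDn : D.Normal := Subgroup.normal_of_index_eq_minFac_card (by rw [hDi, hmin])
  have hDne : D ≠ ⊥ := by
    intro h0
    rw [h0, Subgroup.card_bot, mul_one, hn] at hDcard
    have : p ^ 1 < p ^ n := Nat.pow_lt_pow_right hp.out.one_lt (by omega)
    rw [pow_one] at this
    omega
  haveI : Group.IsNilpotent (P : Subgroup G) := hPpow.isNilpotent
  have hne := Cfsg.Agent.Lib.Core.normal_inf_center_ne_bot D hDne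
  obtain ⟨⟨z, hzD, hzc⟩, hz1⟩ := Subgroup.ne_bot_iff_exists_ne_one.1 hne
  have hzG1 : (z : G) ≠ 1 := by
    intro h0
    apply hz1
    apply Subtype.ext
    exact Subtype.ext h0
  have hzcen : (z : G) ∉ center G := by
    rw [hcen, Subgroup.mem_bot]
    exact hzG1
  have hPC : (P : Subgroup G) ≤ centralizer ({(z : G)} : Set G) := by
    intro u hu
    rw [Subgroup.mem_centralizer_singleton_iff]
    have h1 := (Subgroup.mem_center_iff.1 hzc) ⟨u, hu⟩
    exact congrArg Subtype.val h1
  have hnd : ¬ p ∣ (centralizer ({(z : G)} : Set G)).index := fun h0 =>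
    P.not_dvd_index (h0.trans (Subgroup.index_dvd_of_le hPC))
  have hvan : ∀ χ ∈ T, b χ ≠ 0 → (χ : G → ℂ) z = 0 := by
    intro χ hχ hbχ
    refine irr_vanish_of_coprime χ (hfaith χ (Finset.ne_of_mem_erase hχ)) hzcen ?_
    rw [hdegs χ hχ hbχ]
    exact (Nat.Prime.coprime_iff_not_dvd hp.out).2 hnd
  have hπz : π z = 1 := by
    rw [hexp', ← Finset.add_sum_erase Finset.univ _ (Finset.mem_univ (oneIrr G)), hb1,
      Finset.sum_eq_zero]
    · simp [oneIrr_coe]
    · intro χ hχ
      by_cases hbχ : b χ = 0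
      · rw [hbχ]
        simp
      · rw [hvan χ hχ hbχ, mul_zero]
  have hfixz := indFun_one_eq_fix L (z : G)
  have hfc : Nat.card (MulAction.fixedBy (G ⧸ L) (z : G)) = 1 := by
    have h1 : ((Nat.card (MulAction.fixedBy (G ⧸ L) (z : G)) : ℕ) : ℂ) = 1 := by
      rw [← hfixz]
      exact hπz
    exact_mod_cast h1
  have hm1 : (QuotientGroup.mk 1 : G ⧸ L) ∈ MulAction.fixedBy (G ⧸ L) (z : G) := hfix1 z
  have hm2 : pt ∈ MulAction.fixedBy (G ⧸ L) (z : G) := hzD
  have h1 := (Nat.card_eq_one_iff_unique.1 hfc).1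
  have h2 : (⟨pt, hm2⟩ : MulAction.fixedBy (G ⧸ L) (z : G)) = ⟨_, hm1⟩ := h1.elim _ _
  exact hptne (congrArg Subtype.val h2)

end Cfsg.Agent.Lib.CharExtra
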