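import Cfsg.Agent.Lib.CharExtra.PrimeDegC
import Cfsg.Agent.Lib.CharExtra.Knorr
import Cfsg.Agent.Lib.BPair.Blau3
import Cfsg.Agent.Lib.Block.Klein
import Cfsg.Agent.Lib.Block.Height
import Cfsg.Agent.Lib.Char.DefectZero
import Cfsg.Agent.Lib.Degree.Sums

/-!
# Prime character degrees: the centralizer of an element of prime order.

If `p` exactly divides `|G|`, and all non-principal irreducible characters are faithful of prime
degree at most `p`, an element `x` of order `p` is self-centralizing.
-/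

set_option autoImplicit false
set_option linter.unusedSectionVars false
set_option linter.style.haveILetI false
set_option linter.unusedSimpArgs false
set_option linter.unnecessarySimpa false
set_option linter.unusedVariables false

open scoped ComplexConjugate
open Subgroup

namespace Cfsg.Agent.Lib.CharExtra

open Cfsg (classInner IsCharacter IsIrrCharacter IrrCharacter IsClassFunction indFun
  extendByZero IsGeneralizedCharacter IsPModular MemLocalIdeal MemLocalRing AlgInt)
open Cfsg.Agent.Lib.Char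
open Cfsg.Agent.Lib.Degree (irr_sum_conj sum_irr_degree_mul irr_mul_comm)

universe u

variable {G : Type u} [Group G] {p : ℕ} {x : G}

/-- A sum over the conjugates of `y`. -/
theorem sum_conj_eq_card_mul [Fintype G] (F : G → ℂ) (y : G) [DecidablePred (IsConj y)] :
    ∑ g : G, F (g * y * g⁻¹) = (Nat.card (centralizer ({y} : Set G)) : ℂ) *
      ∑ k : G, (if IsConj y k then F k else 0) := by
  classical
  rw [← Finset.sum_fiberwise Finset.univ (fun g : G => g * y * g⁻¹) (fun g => F (g * y * g⁻¹)),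
    Finset.mul_sum]
  refine Finset.sum_congr rfl fun k _ => ?_
  by_cases hk : IsConj y k
  · rw [if_pos hk]
    obtain ⟨g₀, hg₀⟩ := isConj_iff.1 hk
    have h1 : ∀ g ∈ Finset.univ.filter (fun g : G => g * y * g⁻¹ = k), F (g * y * g⁻¹) = F k := by
      intro g hg
      rw [(Finset.mem_filter.1 hg).2]
    rw [Finset.sum_congr rfl h1, Finset.sum_const, nsmul_eq_mul]
    congr 2
    rw [← Nat.card_eq_finsetCard]
    symm
    let e : centralizer ({y} : Set G) ≃ {g : G // g ∈ Finset.univ.filter (fun g : G => g * y * g⁻¹ = k)} :=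
      { toFun := fun c => ⟨g₀ * c, by
          have hc : (c : G) * y = y * c := Subgroup.mem_centralizer_singleton_iff.1 c.2
          simp only [Finset.mem_filter, Finset.mem_univ, true_and]
          rw [← hg₀, mul_inv_rev, mul_assoc g₀, mul_assoc g₀, hc]
          group⟩
        invFun := fun g => ⟨g₀⁻¹ * g, by
          have hg : (g : G) * y * (g : G)⁻¹ = k := (Finset.mem_filter.1 g.2).2
          rw [Subgroup.mem_centralizer_singleton_iff]
          have h2 : (g : G) * y * (g : G)⁻¹ = g₀ * y * g₀⁻¹ := by rw [hg, hg₀]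
          have h3 : g₀⁻¹ * ((g : G) * y * (g : G)⁻¹) * g = y * (g₀⁻¹ * g) := by
            rw [h2]; group
          calc g₀⁻¹ * (g : G) * y = g₀⁻¹ * ((g : G) * y * (g : G)⁻¹) * g := by group
            _ = y * (g₀⁻¹ * g) := h3⟩
        left_inv := fun c => by
          apply Subtype.ext
          simp
        right_inv := fun g => by
          apply Subtype.ext
          simp }
    exact Nat.card_congr e
  · rw [if_neg hk, mul_zero]
    apply Finset.sum_eq_zero
    intro g hg
    exfalso
    apply hk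
    rw [isConj_iff]
    exact ⟨g, (Finset.mem_filter.1 hg).2⟩

/-- The normal complement in the centralizer, and a linear character with this kernel. -/
theorem exists_centralizer_char [Finite G] (hp : p.Prime) (hx : orderOf x = p)
    (hsyl : ¬ p ^ 2 ∣ Nat.card G) (hxC : x ∈ centralizer ({x} : Set G)) :
    ∃ (K : Subgroup (centralizer ({x} : Set G))) (ν : centralizer ({x} : Set G) →* ℂˣ),
      ¬ p ∣ Nat.card K ∧ K.index = p ∧ (∀ c, (ν c) ^ p = 1) ∧ ν ⟨x, hxC⟩ ≠ 1 := by
  classical
  haveI := Fact.mk hp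
  set C := centralizer ({x} : Set G) with hC
  let xC : C := ⟨x, hxC⟩
  have hordC : orderOf xC = p := by
    rw [← hx]
    exact Subgroup.orderOf_mk x hxC
  have hcardS : Nat.card (zpowers xC) = p := by rw [Nat.card_zpowers, hordC]
  have hdvdC : p ∣ Nat.card C := by
    have := Subgroup.card_subgroup_dvd_card (zpowers xC)
    rwa [hcardS] at this
  have hnd2 : ¬ p ^ 2 ∣ Nat.card C := fun h0 =>
    hsyl (h0.trans (Subgroup.card_subgroup_dvd_card C))
  have hfac : (Nat.card C).factorization p = 1 := by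
    have h1 : 0 < (Nat.card C).factorization p :=
      Nat.Prime.factorization_pos_of_dvd hp Nat.card_pos.ne' hdvdC
    have h2 : (Nat.card C).factorization p < 2 := by
      by_contra h3
      push Not at h3
      apply hnd2
      exact (pow_dvd_pow p h3).trans (Nat.ordProj_dvd _ _)
    omega
  let Q : Sylow p C := Sylow.ofCard (zpowers xC) (by rw [hcardS, hfac, pow_one])
  have hQ : (Q : Subgroup C) = zpowers xC := rfl
  have hcomm : ∀ (c : C), Commute c xC := by
    intro c
    apply Subtype.ext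
    exact Subgroup.mem_centralizer_singleton_iff.1 c.2
  have hcen : normalizer ((Q : Subgroup C) : Set C) ≤ centralizer ((Q : Subgroup C) : Set C) := by
    intro c _
    rw [Subgroup.mem_centralizer_iff]
    intro q hq
    have hq' : q ∈ zpowers xC := hq
    obtain ⟨i, rfl⟩ := Subgroup.mem_zpowers_iff.mp hq'
    exact ((hcomm c).zpow_right i).eq.symm
  obtain ⟨K, hKn, hKp, k, hKk⟩ := Cfsg.Agent.Lib.Block.exists_complement_of_burnside Q hcen
  have hmul : Nat.card K * K.index = Nat.card C := Subgroup.card_mul_index K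
  have hk1 : k = 1 := by
    rw [hKk] at hmul
    have hk2 : k < 2 := by
      by_contra h3
      push Not at h3
      apply hnd2
      rw [← hmul]
      exact Dvd.dvd.mul_left (pow_dvd_pow p h3) _
    have hk0 : k ≠ 0 := by
      rintro rfl
      rw [pow_zero, mul_one] at hmul
      apply hKp
      rw [hmul]
      exact hdvdC
    omega
  have hindex : K.index = p := by rw [hKk, hk1, pow_one]
  have hcardH : Nat.card (C ⧸ K) = p := hindex
  have hxK : xC ∉ K := by
    intro h0
    apply hKp
    have h1 := Subgroup.orderOf_dvd_natCard K h0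
    rwa [hordC] at h1
  have hxq : (xC : C ⧸ K) ≠ 1 := fun h => hxK ((QuotientGroup.eq_one_iff xC).mp h)
  haveI : IsCyclic (C ⧸ K) := isCyclic_of_prime_card hcardH
  have hcq : ∀ a b : C ⧸ K, a * b = b * a := fun a b => (IsCyclic.commutative (α := C ⧸ K)).is_comm.comm a b
  letI : CommGroup (C ⧸ K) := { (inferInstance : Group (C ⧸ K)) with mul_comm := hcq }
  haveI : NeZero (Monoid.exponent (C ⧸ K)) := ⟨Monoid.exponent_ne_zero_of_finite⟩
  obtain ⟨φ, hφ⟩ := CommGroup.exists_apply_ne_one_of_hasEnoughRootsOfUnity (C ⧸ K) ℂ hxq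
  refine ⟨K, φ.comp (QuotientGroup.mk' K), hKp, hindex, ?_, hφ⟩
  intro c
  rw [← map_pow]
  have : (c ^ p : C) = c ^ p := rfl
  simp only [MonoidHom.comp_apply, QuotientGroup.mk'_apply]
  rw [QuotientGroup.mk_pow, ← hcardH, pow_card_eq_one', map_one]

/-- The case of a prime exactly dividing the order: elements of order `p` are self-centralizing. -/
theorem prime_deg_step_b [Fintype G] (hp : p.Prime) (hx : orderOf x = p)
    (hsyl : ¬ p ^ 2 ∣ Nat.card G)
    (hfaith : ∀ ψ : IrrCharacter G, ψ ≠ ⟨fun _ => 1, isIrrCharacter_one⟩ → ∀ g,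
      (ψ : G → ℂ) g = (ψ : G → ℂ) 1 → g = 1)
    (hdg : ∀ (ψ : IrrCharacter G) (d : ℕ), ψ ≠ ⟨fun _ => 1, isIrrCharacter_one⟩ →
      (ψ : G → ℂ) 1 = d → d.Prime ∧ d ≤ p) :
    centralizer ({x} : Set G) = zpowers x := by
  classical
  haveI := Fact.mk hp
  set C := centralizer ({x} : Set G) with hC
  have hxC : x ∈ C := by
    rw [hC, Subgroup.mem_centralizer_singleton_iff]
  obtain ⟨K, ν, hKp, hKi, hνp, hνx⟩ := exists_centralizer_char hp hx hsyl hxC
  haveI : Fintype C := Fintype.ofFinite _
  haveI : Fintype K := Fintype.ofFinite _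
  have hCcard : Nat.card C = Nat.card K * p := by rw [← Subgroup.card_mul_index K, hKi]
  obtain ⟨M, hM⟩ := exists_isPModular p hp
  haveI := Cfsg.Agent.Lib.Block.isPModular_isPrime hM
  let nv : C → ℂ := fun c => ((ν c : ℂˣ) : ℂ)
  have hnv1 : nv 1 = 1 := by simp [nv]
  have hnvmul : ∀ a b, nv (a * b) = nv a * nv b := by simp [nv]
  have hnvinv : ∀ c, nv c⁻¹ = (nv c)⁻¹ := by simp [nv]
  have hnvp : ∀ c, nv c ^ p = 1 := fun c => by
    have := congrArg Units.val (hνp c)
    simpa [nv] using this
  have hconj : ∀ c, conj (nv c) = nv c⁻¹ := by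
    intro c
    have hn : ‖nv c‖ = 1 := Complex.norm_eq_one_of_pow_eq_one (hnvp c) hp.ne_zero
    rw [hnvinv, Complex.inv_eq_conj hn]
  have hνker : ∀ c : C, ¬ p ∣ orderOf (c : G) → nv c = 1 := by
    intro c hc
    have hco : Nat.gcd p (orderOf (c : G)) = 1 :=
      (Nat.Prime.coprime_iff_not_dvd hp).2 hc
    have h1 : (ν c) ^ (orderOf (c : G)) = 1 := by
      rw [← map_pow, Subgroup.orderOf_coe, pow_orderOf_eq_one, map_one]
    have h2 := (pow_gcd_eq_one (a := ν c)).2 ⟨hνp c, h1⟩
    rw [hco, pow_one] at h2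
    simp [nv, h2]
  have hνc : IsCharacter C (fun c => ((ν c : ℂˣ) : ℂ)) :=
    IsIrrCharacter.isCharacter (isIrrCharacter_of_hom ν)
  choose deg hdeg using fun χ : IrrCharacter G => IsIrrCharacter_degree_dvd χ.2
  choose A hA using fun ψ : IrrCharacter G =>
    classInner_isCharacter_nat (IsCharacter.restrict C (IsIrrCharacter.isCharacter ψ.2)) hνc
  choose B hB using fun ψ : IrrCharacter G =>
    classInner_isCharacter_nat (IsCharacter.restrict C (IsIrrCharacter.isCharacter ψ.2))
      (IsCharacter.one (G := C))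
  let cc : IrrCharacter G → ℤ := fun ψ => (A ψ : ℤ) - B ψ
  have hcc : ∀ ψ : IrrCharacter G, (cc ψ : ℂ) =
      (Nat.card C : ℂ)⁻¹ * ∑ c : C, (ψ : G → ℂ) c * (nv c⁻¹ - 1) := by
    intro ψ
    have h1 := hA ψ
    have h2 := hB ψ
    rw [classInner_def] at h1 h2
    simp only [cc]
    push_cast
    rw [← h1, ← h2, ← mul_sub, ← Finset.sum_sub_distrib]
    congr 1
    refine Finset.sum_congr rfl fun c _ => ?_
    have h3 : conj ((ν c : ℂˣ) : ℂ) = nv c⁻¹ := hconj c
    rw [h3]
    simp only [map_one]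
    ring
  have hdegA : ∀ ψ : IrrCharacter G, A ψ ≤ deg ψ ∧ B ψ ≤ deg ψ := by
    intro ψ
    have hres := IsCharacter.restrict C (IsIrrCharacter.isCharacter ψ.2)
    have hdr : Cfsg.charDegree (fun c : C => (ψ : G → ℂ) c) = deg ψ := by
      apply charDegree_natCast
      simpa using (hdeg ψ).1
    have h1 := mul_charDegree_le hres (isIrrCharacter_of_hom ν) (A ψ) (hA ψ)
    have h2 := mul_charDegree_le hres (isIrrCharacter_one (G := C)) (B ψ) (hB ψ)
    have h3 : Cfsg.charDegree (fun c : C => ((ν c : ℂˣ) : ℂ)) = 1 :=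
      charDegree_natCast (by simp)
    have h4 : Cfsg.charDegree (fun _ : C => (1 : ℂ)) = 1 := charDegree_natCast (by simp)
    rw [h3, hdr, mul_one] at h1
    rw [h4, hdr, mul_one] at h2
    exact ⟨h1, h2⟩
  have hC0 : (Nat.card C : ℂ) ≠ 0 := by exact_mod_cast Nat.card_pos.ne'
  have hsum : ∑ ψ, cc ψ * (deg ψ : ℤ) = 0 := by
    have h1 : ((∑ ψ, cc ψ * (deg ψ : ℤ) : ℤ) : ℂ) = 0 := by
      push_cast
      simp only [hcc]
      have h2 : ∀ ψ : IrrCharacter G, ((Nat.card C : ℂ)⁻¹ * ∑ c : C, (ψ : G → ℂ) c * (nv c⁻¹ - 1)) *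
          (deg ψ : ℂ) = (Nat.card C : ℂ)⁻¹ * ∑ c : C, ((ψ : G → ℂ) 1 * (ψ : G → ℂ) c) * (nv c⁻¹ - 1) := by
        intro ψ
        rw [mul_assoc, Finset.sum_mul, (hdeg ψ).1]
        congr 1
        refine Finset.sum_congr rfl fun c _ => ?_
        ring
      simp only [h2]
      rw [← Finset.mul_sum, Finset.sum_comm]
      simp only [← Finset.sum_mul]
      rw [Finset.sum_eq_zero, mul_zero]
      intro c _
      rw [sum_irr_degree_mul]
      by_cases h3 : (c : G) = 1
      · have h4 : c = 1 := Subtype.ext h3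
        rw [h4, inv_one, hnv1]
        simp
      · rw [if_neg h3, zero_mul]
    exact_mod_cast h1
  let one : IrrCharacter G := ⟨fun _ => 1, isIrrCharacter_one⟩
  have hdeg1 : deg one = 1 := by
    have h2 : (1 : ℂ) = deg one := (hdeg one).1
    exact_mod_cast h2.symm
  have hccone : cc one = -1 := by
    have h1 := hA one
    have h2 := hB one
    have hne : (fun _ : C => (1 : ℂ)) ≠ fun c => ((ν c : ℂˣ) : ℂ) := by
      intro h0
      apply hνx
      apply Units.ext
      exact (congrFun h0 ⟨x, hxC⟩).symm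
    have h3 : classInner (fun _ : C => (1 : ℂ)) (fun c => ((ν c : ℂˣ) : ℂ)) = 0 := by
      rw [classInner_irr isIrrCharacter_one (isIrrCharacter_of_hom ν), if_neg hne]
    have h4 : classInner (fun _ : C => (1 : ℂ)) (fun _ : C => (1 : ℂ)) = 1 := by
      rw [classInner_irr isIrrCharacter_one isIrrCharacter_one, if_pos rfl]
    have h5 : (A one : ℂ) = 0 := by rw [← h1]; exact h3
    have h6 : (B one : ℂ) = 1 := by rw [← h2]; exact h4
    have h7 : A one = 0 := by exact_mod_cast h5
    have h8 : B one = 1 := by exact_mod_cast h6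
    simp [cc, h7, h8]
  obtain ⟨χ, hχ, hχc⟩ : ∃ χ, χ ≠ one ∧ cc χ ≠ 0 := by
    by_contra hcon
    push Not at hcon
    rw [← Finset.add_sum_erase _ _ (Finset.mem_univ one), hccone, hdeg1,
      Finset.sum_eq_zero (fun ψ hψ => by rw [hcon ψ (Finset.ne_of_mem_erase hψ), zero_mul])] at hsum
    norm_num at hsum
  obtain ⟨hdprime, hdle⟩ := hdg χ (deg χ) hχ (hdeg χ).1
  have hpdvd : p ∣ Nat.card G := by
    rw [← hx]
    exact orderOf_dvd_natCard x
  have hfac : (Nat.card G).factorization p = 1 := by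
    have h1 : 0 < (Nat.card G).factorization p :=
      Nat.Prime.factorization_pos_of_dvd hp Nat.card_pos.ne' hpdvd
    have h2 : (Nat.card G).factorization p < 2 := by
      by_contra h3
      push Not at h3
      apply hsyl
      exact (pow_dvd_pow p h3).trans (Nat.ordProj_dvd _ _)
    omega
  have hdne : deg χ ≠ p := by
    intro heq
    apply hχc
    have h0 : (cc χ : ℂ) = 0 := by
      rw [hcc, Finset.sum_eq_zero, mul_zero]
      intro c _
      by_cases h1 : p ∣ orderOf (c : G)
      · have h2 : Cfsg.charDegree (χ : G → ℂ) = deg χ := charDegree_natCast (hdeg χ).1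
        have h3 := irr_eq_zero_of_full_ppart χ p hp
          (by rw [hfac, pow_one, h2, heq]) h1
        rw [h3, zero_mul]
      · rw [hnvinv, hνker c h1]
        simp
    exact_mod_cast h0
  have hdlt : deg χ < p := lt_of_le_of_ne hdle hdne
  have hdnd : ¬ p ∣ deg χ := Nat.not_dvd_of_pos_of_lt hdprime.pos hdlt
  have hccnd : ¬ (p : ℤ) ∣ cc χ := by
    intro h0
    apply hχc
    apply Int.eq_zero_of_abs_lt_dvd h0
    rw [abs_lt]
    have := (hdegA χ).1
    have := (hdegA χ).2
    simp only [cc]
    omega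
  have hχloc : ∀ g, MemLocalRing M ((χ : G → ℂ) g) := fun g =>
    Cfsg.Agent.Lib.Block.char_isIntegral_local g
  have hνideal : ∀ c : C, MemLocalIdeal M (nv c - 1) := by
    intro c
    refine Cfsg.Agent.Lib.BPair.memLocalIdeal_sub_one_of_pow hM 1 ?_ (by rw [pow_one]; exact hnvp c)
    apply Cfsg.Agent.Lib.Block.memLocalRing_of_isIntegral
    refine IsIntegral.of_pow hp.pos ?_
    rw [hnvp]
    exact isIntegral_one
  let W : G → ℂ := fun k => (Nat.card C : ℂ)⁻¹ * ∑ c : C, (χ : G → ℂ) (k * c) * (nv c⁻¹ - 1)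
  have hp0 : (p : ℂ) ≠ 0 := by exact_mod_cast hp.ne_zero
  have hWp : ∀ k, MemLocalIdeal M ((p : ℂ) * W k) := by
    intro k
    have h1 : (p : ℂ) * W k = (Nat.card K : ℂ)⁻¹ * ∑ c : C, (χ : G → ℂ) (k * c) * (nv c⁻¹ - 1) := by
      simp only [W]
      rw [hCcard]
      have hK0 : (Nat.card K : ℂ) ≠ 0 := by exact_mod_cast Nat.card_pos.ne'
      push_cast
      field_simp
    rw [h1]
    refine Cfsg.Agent.Lib.Block.memLocalIdeal_mul_left
      (Cfsg.Agent.Lib.Block.memLocalRing_natCast_inv hM hKp) ?_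
    refine Cfsg.Agent.Lib.Block.memLocalIdeal_sum _ _ fun c _ => ?_
    exact Cfsg.Agent.Lib.Block.memLocalIdeal_mul_left (hχloc _) (hνideal _)
  have hχcl := IsCharacter.isClassFunction (IsIrrCharacter.isCharacter χ.2)
  have hWinv : ∀ u ∈ zpowers x, ∀ k, W (u * k * u⁻¹) = W k := by
    intro u hu k
    simp only [W]
    congr 1
    refine Finset.sum_congr rfl fun c _ => ?_
    have hcu : (c : G) * u⁻¹ = u⁻¹ * c := by
      have h1 : Commute (c : G) x := Subgroup.mem_centralizer_singleton_iff.1 c.2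
      obtain ⟨i, rfl⟩ := Subgroup.mem_zpowers_iff.mp hu
      exact (h1.zpow_right i).inv_right.eq
    have h2 : u * k * u⁻¹ * (c : G) = u * (k * c) * u⁻¹ := by
      rw [mul_assoc (u * k), ← hcu]
      group
    rw [h2, hχcl]
  have hWfix : ∀ k : C, nv k = 1 → W k = cc χ := by
    intro k hk
    rw [hcc]
    simp only [W]
    congr 1
    rw [← Equiv.sum_comp (Equiv.mulLeft k) (fun c : C => (χ : G → ℂ) c * (nv c⁻¹ - 1))]
    refine Finset.sum_congr rfl fun c _ => ?_
    simp only [Equiv.coe_mulLeft, Subgroup.coe_mul, hnvinv, hnvmul, hk, one_mul]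
  have hWsum : ∀ y, ∑ g : G, W (g * y * g⁻¹) =
      (Fintype.card G : ℂ) * (χ : G → ℂ) y / (χ : G → ℂ) 1 * (cc χ : ℂ) := by
    intro y
    simp only [W]
    rw [← Finset.mul_sum, Finset.sum_comm, hcc]
    have h1 : ∀ c : C, ∑ g : G, (χ : G → ℂ) (g * y * g⁻¹ * c) * (nv c⁻¹ - 1) =
        (Fintype.card G : ℂ) * (χ : G → ℂ) y / (χ : G → ℂ) 1 * ((χ : G → ℂ) c * (nv c⁻¹ - 1)) := by
      intro c
      rw [← Finset.sum_mul]
      have h2 := irr_sum_conj χ (c : G) y
      have h3 : ∑ g : G, (χ : G → ℂ) (g * y * g⁻¹ * c) = ∑ g : G, (χ : G → ℂ) ((c : G) * (g * y * g⁻¹)) :=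
        Finset.sum_congr rfl fun g _ => irr_mul_comm χ _ _
      rw [h3, h2]
      ring
    simp only [h1]
    rw [← Finset.mul_sum]
    ring
  -- the congruences
  have hkey : ∀ y : C, ¬ p ∣ orderOf (y : G) → MemLocalIdeal M ((χ : G → ℂ) y - deg χ) := by
    intro y hy
    letI act : MulAction (zpowers x) G :=
      { smul := fun u k => (u : G) * k * (u : G)⁻¹
        one_smul := fun k => by
          show ((1 : zpowers x) : G) * k * ((1 : zpowers x) : G)⁻¹ = k
          simp
        mul_smul := fun a b k => by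
          show ((a * b : zpowers x) : G) * k * ((a * b : zpowers x) : G)⁻¹ =
            (a : G) * ((b : G) * k * (b : G)⁻¹) * (a : G)⁻¹
          simp only [Subgroup.coe_mul]
          group }
    have hsmul : ∀ (u : zpowers x) (k : G), u • k = (u : G) * k * (u : G)⁻¹ := fun _ _ => rfl
    let f : G → ℂ := fun k => if IsConj (y : G) k then W k - cc χ else 0
    have hfinv : ∀ (u : zpowers x) k, f (u • k) = f k := by
      intro u k
      simp only [f]
      have h1 : IsConj (y : G) (u • k) ↔ IsConj (y : G) k := by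
        have h2 : IsConj k (u • k) := isConj_iff.2 ⟨u, rfl⟩
        exact ⟨fun h3 => h3.trans h2.symm, fun h3 => h3.trans h2⟩
      by_cases h3 : IsConj (y : G) k
      · rw [if_pos h3, if_pos (h1.2 h3), hsmul, hWinv u u.2]
      · rw [if_neg h3, if_neg (fun h4 => h3 (h1.1 h4))]
    have hPg : IsPGroup p (zpowers x) := by
      apply IsPGroup.of_card (n := 1)
      rw [Nat.card_zpowers, hx, pow_one]
    have hf : ∀ k, MemLocalIdeal M ((Nat.card (MulAction.orbit (zpowers x) k) : ℂ) * f k) := by
      intro k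
      by_cases hk : IsConj (y : G) k
      swap
      · simp only [f, if_neg hk, mul_zero]
        exact Cfsg.Agent.Lib.Block.memLocalIdeal_zero
      obtain ⟨n, hn⟩ := IsPGroup.card_orbit hPg k
      rw [hn]
      rcases n with _ | n
      · -- fixed point
        have hone' : Nat.card (MulAction.orbit (zpowers x) k) = 1 := by simpa using hn
        have hfix : (⟨x, mem_zpowers x⟩ : zpowers x) • k = k := by
          have h1 := (Nat.card_eq_one_iff_unique.1 hone').1
          have h2 : (⟨(⟨x, mem_zpowers x⟩ : zpowers x) • k, MulAction.mem_orbit _ _⟩ :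
              MulAction.orbit (zpowers x) k) = ⟨k, MulAction.mem_orbit_self _⟩ := h1.elim _ _
          exact congrArg Subtype.val h2
        have hkC : k ∈ C := by
          rw [hC, Subgroup.mem_centralizer_singleton_iff]
          have h3 : x * k * x⁻¹ = k := hfix
          rw [mul_inv_eq_iff_eq_mul] at h3
          exact h3.symm
        have hord : orderOf ((⟨k, hkC⟩ : C) : G) = orderOf (y : G) := by
          obtain ⟨g, hg⟩ := isConj_iff.1 hk
          show orderOf k = _
          rw [← hg, ← MulAut.conj_apply]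
          exact (MulAut.conj g).orderOf_eq _
        have h5 := hνker ⟨k, hkC⟩ (by rw [hord]; exact hy)
        have h6 := hWfix ⟨k, hkC⟩ h5
        have h7 : W k = cc χ := h6
        simp only [f, if_pos hk, h7, sub_self, mul_zero]
        exact Cfsg.Agent.Lib.Block.memLocalIdeal_zero
      · have h1 : MemLocalIdeal M ((p : ℂ) * f k) := by
          simp only [f, if_pos hk]
          rw [mul_sub]
          refine Cfsg.Agent.Lib.Block.memLocalIdeal_sub (hWp k) ?_
          exact Cfsg.Agent.Lib.Block.memLocalIdeal_mul_right (Cfsg.Agent.Lib.Block.memLocalIdeal_p hM)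
            (Cfsg.Agent.Lib.Block.memLocalRing_of_isIntegral (by
              simpa using isIntegral_algebraMap (R := ℤ) (A := ℂ) (x := cc χ)))
        have h2 : ((p ^ (n + 1) : ℕ) : ℂ) * f k = ((p ^ n : ℕ) : ℂ) * ((p : ℂ) * f k) := by
          push_cast
          ring
        rw [h2]
        exact Cfsg.Agent.Lib.Block.memLocalIdeal_mul_left
          (Cfsg.Agent.Lib.Block.memLocalRing_natCast _) h1
    have hsumf := memLocalIdeal_sum_of_orbit (M := M) (Γ := zpowers x) f hfinv hf
    have hconjsum := sum_conj_eq_card_mul (fun k => W k - cc χ) (y : G)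
    have hsum2 : ∑ g : G, (W (g * y * g⁻¹) - cc χ) =
        (Fintype.card G : ℂ) * (cc χ : ℂ) * ((χ : G → ℂ) y - deg χ) / deg χ := by
      rw [Finset.sum_sub_distrib, hWsum, Finset.sum_const, Finset.card_univ, nsmul_eq_mul, (hdeg χ).1]
      have hd0 : (deg χ : ℂ) ≠ 0 := by exact_mod_cast hdprime.ne_zero
      field_simp
    set ii := (centralizer ({(y : G)} : Set G)).index with hii
    have hcy : Nat.card (centralizer ({(y : G)} : Set G)) * ii = Fintype.card G := by
      rw [hii, Subgroup.card_mul_index, Nat.card_eq_fintype_card]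
    have hcy0 : (Nat.card (centralizer ({(y : G)} : Set G)) : ℂ) ≠ 0 := by
      exact_mod_cast Nat.card_pos.ne'
    have hval : ∑ k : G, f k = (ii : ℂ) * (cc χ : ℂ) * ((χ : G → ℂ) y - deg χ) / deg χ := by
      have h1 : (Nat.card (centralizer ({(y : G)} : Set G)) : ℂ) * ∑ k : G, f k =
          (Nat.card (centralizer ({(y : G)} : Set G)) : ℂ) *
            ((ii : ℂ) * (cc χ : ℂ) * ((χ : G → ℂ) y - deg χ) / deg χ) := by
        rw [← hconjsum, hsum2, ← hcy]
        push_cast
        ring
      exact mul_left_cancel₀ hcy0 h1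
    rw [hval] at hsumf
    have hinotd : ¬ p ∣ ii := by
      intro h0
      apply hsyl
      rw [← Nat.card_eq_fintype_card] at hcy
      rw [← hcy, pow_two]
      apply mul_dvd_mul _ h0
      have hxmem : x ∈ centralizer ({(y : G)} : Set G) := by
        rw [Subgroup.mem_centralizer_singleton_iff]
        exact (Subgroup.mem_centralizer_singleton_iff.1 y.2).symm
      rw [← hx]
      exact Subgroup.orderOf_dvd_natCard _ hxmem
    -- cancel the unit
    have hd0 : (deg χ : ℂ) ≠ 0 := by exact_mod_cast hdprime.ne_zero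
    have h3 : MemLocalIdeal M (((χ : G → ℂ) y - deg χ) * (((ii : ℤ) * cc χ : ℤ) : ℂ)) := by
      have h4 := Cfsg.Agent.Lib.Block.memLocalIdeal_mul_right hsumf
        (Cfsg.Agent.Lib.Block.memLocalRing_natCast (M := M) (deg χ))
      have h5 : (ii : ℂ) * (cc χ : ℂ) * ((χ : G → ℂ) y - deg χ) / deg χ * (deg χ : ℂ) =
          ((χ : G → ℂ) y - deg χ) * (((ii : ℤ) * cc χ : ℤ) : ℂ) := by
        push_cast
        field_simp
      rwa [h5] at h4
    refine Cfsg.Agent.Lib.Block.memLocalIdeal_of_mul_unit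
      (Cfsg.Agent.Lib.Block.memLocalRing_of_isIntegral (by
        simpa using isIntegral_algebraMap (R := ℤ) (A := ℂ) (x := (ii : ℤ) * cc χ))) ?_ h3
    rw [Cfsg.Agent.Lib.Block.memLocalIdeal_intCast_iff hM]
    intro h0
    rcases (Nat.prime_iff_prime_int.1 hp).dvd_or_dvd h0 with h1 | h1
    · exact hinotd (by exact_mod_cast h1)
    · exact hccnd h1
  -- the multiplicity of the trivial character of `K`
  have hresK : IsCharacter K (fun y : K => (χ : G → ℂ) ((y : C) : G)) :=
    IsCharacter.restrict K (IsCharacter.restrict C (IsIrrCharacter.isCharacter χ.2))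
  obtain ⟨m, hm⟩ := classInner_isCharacter_nat hresK (IsCharacter.one (G := K))
  have hmle : m ≤ deg χ := by
    have h1 := mul_charDegree_le hresK (isIrrCharacter_one (G := K)) m hm
    have h4 : Cfsg.charDegree (fun _ : K => (1 : ℂ)) = 1 := charDegree_natCast (by simp)
    have hdr : Cfsg.charDegree (fun y : K => (χ : G → ℂ) ((y : C) : G)) = deg χ := by
      apply charDegree_natCast
      simpa using (hdeg χ).1
    rw [h4, hdr, mul_one] at h1
    exact h1
  have hK0 : (Nat.card K : ℂ) ≠ 0 := by exact_mod_cast Nat.card_pos.ne'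
  have hmval : (m : ℂ) = (Nat.card K : ℂ)⁻¹ * ∑ y : K, (χ : G → ℂ) ((y : C) : G) := by
    rw [← hm, classInner_def]
    simp
  have hmd : MemLocalIdeal M (((m : ℤ) - deg χ : ℤ) : ℂ) := by
    have h1 : (((m : ℤ) - deg χ : ℤ) : ℂ) = (Nat.card K : ℂ)⁻¹ *
        ∑ y : K, ((χ : G → ℂ) ((y : C) : G) - deg χ) := by
      push_cast
      rw [Finset.sum_sub_distrib, Finset.sum_const, Finset.card_univ, nsmul_eq_mul, hmval, mul_sub,
        ← Nat.card_eq_fintype_card, ← mul_assoc, inv_mul_cancel₀ hK0, one_mul]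
    rw [h1]
    refine Cfsg.Agent.Lib.Block.memLocalIdeal_mul_left
      (Cfsg.Agent.Lib.Block.memLocalRing_natCast_inv hM hKp) ?_
    refine Cfsg.Agent.Lib.Block.memLocalIdeal_sum _ _ fun y _ => ?_
    apply hkey
    intro h0
    apply hKp
    refine h0.trans ?_
    rw [Subgroup.orderOf_coe, Subgroup.orderOf_coe]
    exact orderOf_dvd_natCard y
  have hmeq : m = deg χ := by
    have h1 := (Cfsg.Agent.Lib.Block.memLocalIdeal_intCast_iff hM _).1 hmd
    have h2 : (m : ℤ) - deg χ = 0 := by
      apply Int.eq_zero_of_abs_lt_dvd h1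
      rw [abs_lt]
      omega
    omega
  -- hence `K` lies in the kernel
  have hKtriv : ∀ y : K, (χ : G → ℂ) ((y : C) : G) = deg χ := by
    have h1 : ∑ y : K, (χ : G → ℂ) ((y : C) : G) = ∑ y : K, (deg χ : ℂ) := by
      rw [Finset.sum_const, Finset.card_univ, nsmul_eq_mul, ← Nat.card_eq_fintype_card, ← hmeq, hmval,
        ← mul_assoc, mul_inv_cancel₀ hK0, one_mul]
    have hre : ∀ y : K, ((χ : G → ℂ) ((y : C) : G)).re ≤ (deg χ : ℝ) := by
      intro y
      have h2 := norm_le_charDegree (IsIrrCharacter.isCharacter χ.2) ((y : C) : G)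
      have h3 : Cfsg.charDegree (χ : G → ℂ) = deg χ := charDegree_natCast (hdeg χ).1
      rw [h3] at h2
      exact (Complex.re_le_norm _).trans h2
    have h2 : ∑ y : K, ((χ : G → ℂ) ((y : C) : G)).re = ∑ y : K, (deg χ : ℝ) := by
      have := congrArg Complex.re h1
      simpa using this
    have h3 := (Finset.sum_eq_sum_iff_of_le (fun y _ => hre y)).1 h2
    intro y
    have h4 := h3 y (Finset.mem_univ y)
    have h5 := norm_le_charDegree (IsIrrCharacter.isCharacter χ.2) ((y : C) : G)
    have h6 : Cfsg.charDegree (χ : G → ℂ) = deg χ := charDegree_natCast (hdeg χ).1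
    rw [h6] at h5
    apply Complex.ext
    · simpa using h4
    · have h7 : ‖(χ : G → ℂ) ((y : C) : G)‖ ^ 2 ≤ (deg χ : ℝ) ^ 2 :=
        pow_le_pow_left₀ (norm_nonneg _) h5 2
      rw [Complex.sq_norm, Complex.normSq_apply, h4] at h7
      have h8 : ((χ : G → ℂ) ((y : C) : G)).im = 0 := by nlinarith
      simpa using h8
  have hKbot : ∀ y : K, y = 1 := by
    intro y
    have h1 := hfaith χ hχ ((y : C) : G) (by rw [hKtriv y, (hdeg χ).1])
    apply Subtype.ext
    apply Subtype.ext
    exact h1
  have hK1 : Nat.card K = 1 := Nat.card_eq_one_iff_unique.2 ⟨⟨fun a b => by rw [hKbot a, hKbot b]⟩, ⟨1⟩⟩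
  have hCp : Nat.card C = p := by rw [hCcard, hK1, one_mul]
  have hle : zpowers x ≤ C := by
    rw [Subgroup.zpowers_le]
    exact hxC
  exact (Subgroup.eq_of_le_of_card_ge hle (by rw [hCp, Nat.card_zpowers, hx])).symm

end Cfsg.Agent.Lib.CharExtra
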