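import Cfsg.Agent.Lib.SmallSimple.BrauerLemma
import Cfsg.Agent.Lib.Degree.GaloisChar

/-!
# Prime character degrees: the case of a self-centralizing subgroup of prime order.

Let `C(x) = ⟨x⟩` have prime order `p`, with `⟨x⟩` not self-normalizing, and suppose that all
non-principal irreducible characters are faithful of prime degree at most `p`. Brauer's vectors
`c_a(ψ) = ⟨ψ|_P, a⟩ - ⟨ψ|_P, 1⟩` lead to a contradiction, via a character of degree `e` lying
over one class of linear characters of `⟨x⟩` and its Galois conjugates.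
-/

set_option autoImplicit false
set_option linter.unusedSectionVars false
set_option linter.style.haveILetI false
set_option linter.unusedSimpArgs false
set_option linter.unnecessarySimpa false
set_option linter.unusedVariables false

open scoped ComplexConjugate
open Subgroup

namespace Cfsg.Agent.Lib.CharExtra

open Cfsg (classInner IsCharacter IsIrrCharacter IrrCharacter IsClassFunction indFun
  extendByZero IsGeneralizedCharacter)
open Cfsg.Agent.Lib.Char
open Cfsg.Agent.Lib.SelfCentral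
open Cfsg.Agent.Lib.SmallSimple.Star
open Cfsg.Agent.Lib.SmallSimple.BL
open Cfsg.Agent.Lib.Degree (galois_isIrr classInner_galois linearHom)

universe u

variable {G : Type u} [Group G] {p : ℕ} {x : G}

section Twist

variable [Fintype G]

/-- Two non-trivial characters of `⟨x⟩` differ by a power. -/
theorem exists_pow_twist (h : Setup p x) (a b : Nt x) :
    ∃ k : ℕ, k.Coprime p ∧ ∀ u : zpowers x,
      (b.1 : zpowers x → ℂ) (u ^ k) = (a.1 : zpowers x → ℂ) u := by
  classical
  haveI := Fact.mk h.hp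
  let xp : zpowers x := ⟨x, mem_zpowers x⟩
  let φb := linearHom b.1 (deg_one b.1)
  let φa := linearHom a.1 (deg_one a.1)
  have hxp : xp ^ p = 1 := by
    apply Subtype.ext
    simp only [SubmonoidClass.coe_pow, OneMemClass.coe_one, xp]
    rw [← h.hx, pow_orderOf_eq_one]
  have hxp1 : xp ≠ 1 := fun h0 => h.x_ne_one (congrArg Subtype.val h0)
  have hb1 : φb xp ^ p = 1 := by rw [← map_pow, hxp, map_one]
  have ha1 : φa xp ^ p = 1 := by rw [← map_pow, hxp, map_one]
  have hbne : φb xp ≠ 1 := by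
    intro h0
    apply hxp1
    apply irr_inj h b.1 (ne_tr_of_ne b.1 b.2)
    have h2 : (b.1 : zpowers x → ℂ) 1 = 1 := deg_one b.1
    rw [h2]
    exact h0
  have hane : φa xp ≠ 1 := by
    intro h0
    apply hxp1
    apply irr_inj h a.1 (ne_tr_of_ne a.1 a.2)
    have h2 : (a.1 : zpowers x → ℂ) 1 = 1 := deg_one a.1
    rw [h2]
    exact h0
  have hord : orderOf (φb xp) = p := orderOf_eq_prime hb1 hbne
  have hprim : IsPrimitiveRoot (φb xp) p := by
    rw [← hord]
    exact IsPrimitiveRoot.orderOf _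
  haveI : NeZero p := ⟨h.hp.ne_zero⟩
  obtain ⟨k, hkp, hk⟩ := hprim.eq_pow_of_pow_eq_one ha1
  have hk0 : k ≠ 0 := by
    rintro rfl
    rw [pow_zero] at hk
    exact hane hk.symm
  refine ⟨k, ?_, ?_⟩
  · exact ((Nat.Prime.coprime_iff_not_dvd h.hp).2
      (Nat.not_dvd_of_pos_of_lt (Nat.pos_of_ne_zero hk0) hkp)).symm
  · intro u
    obtain ⟨i, hi⟩ := (mem_powers_iff_mem_zpowers).2 u.2
    have hu : u = xp ^ i := by
      apply Subtype.ext
      simp only [SubmonoidClass.coe_pow, xp]
      exact hi.symm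
    have e1 : (b.1 : zpowers x → ℂ) (u ^ k) = φb (u ^ k) := rfl
    have e2 : (a.1 : zpowers x → ℂ) u = φa u := rfl
    rw [e1, e2, hu, ← pow_mul, map_pow, map_pow, mul_comm, pow_mul, hk]

/-- An inverse exponent modulo `p`, coprime to the order of the group. -/
theorem exists_inv_exponent (h : Setup p x) {k : ℕ} (hk : k.Coprime p) :
    ∃ k' : ℕ, k'.Coprime (Nat.card G) ∧ ∀ u : zpowers x, (u ^ k') ^ k = u := by
  classical
  haveI := Fact.mk h.hp
  obtain ⟨S, hS⟩ := h.exists_sylow
  have hnd : ¬ p ∣ (S : Subgroup G).index := S.not_dvd_index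
  rw [hS] at hnd
  set n := (zpowers x).index with hn
  have hcard : Nat.card G = p * n := by
    rw [← Subgroup.card_mul_index (zpowers x), h.card_zpowers]
  obtain ⟨k₁, -, hk₁⟩ := Nat.exists_mul_mod_eq_one_of_coprime hk h.hp.one_lt
  have hco : p.Coprime n := (Nat.Prime.coprime_iff_not_dvd h.hp).2 hnd
  obtain ⟨k', h1, h2⟩ := Nat.chineseRemainder hco k₁ 1
  have hk₁c : k₁.Coprime p := by
    have h3 : Nat.gcd k₁ p ∣ (k * k₁) % p :=
      (Nat.dvd_mod_iff (Nat.gcd_dvd_right k₁ p)).2 (Dvd.dvd.mul_left (Nat.gcd_dvd_left k₁ p) k)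
    rw [hk₁] at h3
    exact Nat.dvd_one.mp h3
  refine ⟨k', ?_, ?_⟩
  · rw [hcard]
    apply Nat.Coprime.mul_right
    · have : Nat.gcd k' p = Nat.gcd k₁ p := h1.gcd_eq
      rw [Nat.Coprime, this]
      exact hk₁c
    · have : Nat.gcd k' n = Nat.gcd 1 n := h2.gcd_eq
      rw [Nat.Coprime, this]
      simp
  · intro u
    have hu : u ^ p = 1 := by
      apply Subtype.ext
      obtain ⟨i, hi⟩ := (mem_powers_iff_mem_zpowers).2 u.2
      simp only [SubmonoidClass.coe_pow, OneMemClass.coe_one]
      rw [← hi, ← pow_mul, mul_comm, pow_mul, ← h.hx, pow_orderOf_eq_one, one_pow]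
    have hm : (k' * k) % p = 1 := by
      have h3 : k' * k ≡ k₁ * k [MOD p] := Nat.ModEq.mul_right k h1
      rw [Nat.ModEq] at h3
      rw [h3, mul_comm]
      exact hk₁
    rw [← pow_mul, ← Nat.div_add_mod (k' * k) p, hm, pow_add, pow_mul, hu, one_pow, one_mul,
      pow_one]

end Twist

section Vec

variable [Fintype G]

/-- The vector attached to a non-trivial character of `⟨x⟩`. -/
noncomputable def vecC (m : IrrCharacter G → IrrCharacter (zpowers x) → ℕ) (a : Nt x) (χ : IrrCharacter G) : ℤ :=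
  (m χ a.1 : ℤ) - m χ triv

open Classical in
/-- Brauer's vector data. -/
theorem vec_data [Fintype (zpowers x)] (h : Setup p x) (e : ℕ)
    (hN : Nat.card (normalizer ((zpowers x : Subgroup G) : Set G)) = e * p) :
    ∃ (deg : IrrCharacter G → ℕ) (m : IrrCharacter G → IrrCharacter (zpowers x) → ℕ),
      (∀ χ : IrrCharacter G, (χ : G → ℂ) 1 = deg χ ∧ deg χ ≠ 0 ∧ deg χ ∣ Nat.card G) ∧
      (∀ (χ : IrrCharacter G) (l : IrrCharacter (zpowers x)),
        classInner (l : zpowers x → ℂ) (fun u : zpowers x => (χ : G → ℂ) u) = (m χ l : ℂ)) ∧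
      (∀ a b : Nt x, ip (vecC m a) (vecC m b) = (e : ℤ) + if Rel a.1 b.1 then 1 else 0) ∧
      (∀ a : Nt x, ip (vecC m a) (fun χ : IrrCharacter G => (deg χ : ℤ)) = 0) ∧
      (∀ a : Nt x, vecC m a ⟨fun _ => 1, isIrrCharacter_one⟩ = -1) ∧
      (∀ a : Nt x, (Finset.univ.filter fun b : Nt x => Rel a.1 b.1).card = e) ∧
      ((Finset.univ : Finset (Nt x)).card = p - 1) := by
  classical
  haveI : Fintype (normalizer ((zpowers x : Subgroup G) : Set G)) := Fintype.ofFinite _
  have hp := h.hp
  have hp0 : (p : ℂ) ≠ 0 := by exact_mod_cast hp.ne_zero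
  choose deg hdeg using fun χ : IrrCharacter G => IsIrrCharacter_degree_dvd χ.2
  choose m hm using fun (χ : IrrCharacter G) (l : IrrCharacter (zpowers x)) =>
    classInner_isCharacter_nat (IsIrrCharacter.isCharacter l.2)
      (IsCharacter.restrict (zpowers x) (IsIrrCharacter.isCharacter χ.2))
  let c : Nt x → IrrCharacter G → ℤ := vecC m
  let F : Nt x → G → ℂ := fun a => indFun (zpowers x) ((a.1 : zpowers x → ℂ) - tr)
  let d : IrrCharacter G → ℤ := fun χ => (deg χ : ℤ)
  have hF : ∀ (a : Nt x) (χ : IrrCharacter G), classInner (F a) (χ : G → ℂ) = (c a χ : ℂ) := by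
    intro a χ
    simp only [F]
    rw [frobenius_reciprocity (zpowers x) _ _ (IsCharacter.isClassFunction
      (IsIrrCharacter.isCharacter χ.2)), classInner_sub_left, hm]
    have := hm χ triv
    have h2 : classInner (tr : zpowers x → ℂ) (fun u : zpowers x => (χ : G → ℂ) u) = (m χ triv : ℂ) :=
      this
    rw [h2]
    simp [c, vecC]
  have hFcl : ∀ a, IsClassFunction G (F a) := fun a => indFun_isClassFunction _ _
  have hgram : ∀ a b : Nt x, ip (c a) (c b) = (e : ℤ) + if Rel a.1 b.1 then 1 else 0 := by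
    intro a b
    have h1 := classInner_eq_sum (F a) (F b) (hFcl a) (hFcl b)
    simp only [hF] at h1
    have h2 := gram h a b
    rw [hN] at h2
    have h3 : ((e * p : ℕ) : ℂ) * (p : ℂ)⁻¹ = e := by
      push_cast
      field_simp
    rw [h3] at h2
    change classInner (F a) (F b) = _ at h2
    rw [h2] at h1
    have h4 : ((ip (c a) (c b) : ℤ) : ℂ) = ((e : ℤ) + if Rel a.1 b.1 then 1 else 0 : ℤ) := by
      push_cast
      rw [h1]
      simp only [ip]
      push_cast
      refine Finset.sum_congr rfl fun χ _ => ?_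
      simp
    exact_mod_cast h4
  have hF1 : ∀ a, F a 1 = 0 := by
    intro a
    have h1 := indFun_on h ((a.1 : zpowers x → ℂ) - tr) (by simp [deg_one]) 1
    simp only [map_one, Pi.sub_apply, deg_one, sub_self, Finset.sum_const_zero, mul_zero] at h1
    exact h1
  have hdd : ∀ a, ip (c a) d = 0 := by
    intro a
    have h1 := congrFun (classFunction_eq_sum (F a) (hFcl a)) 1
    rw [hF1 a, Finset.sum_apply] at h1
    simp only [Pi.smul_apply, smul_eq_mul, hF, (fun χ : IrrCharacter G => (hdeg χ).1)] at h1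
    have h2 : ((ip (c a) d : ℤ) : ℂ) = 0 := by
      simp only [ip, d]
      push_cast
      exact h1.symm
    exact_mod_cast h2
  have hclass : ∀ a : Nt x, Nat.card {b : Nt x // Rel a.1 b.1} = e := by
    intro a
    have h1 := card_orbit h a
    rw [hN, h.card_zpowers] at h1
    exact (Nat.eq_of_mul_eq_mul_right hp.pos h1).symm
  have hcls : ∀ a : Nt x, (Finset.univ.filter fun b : Nt x => Rel a.1 b.1).card = e := by
    intro a
    rw [← hclass a, Nat.card_eq_fintype_card, Fintype.card_subtype]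
  have hnt : Nat.card (Nt x) + 1 = p := card_nt h
  have hntf : (Finset.univ : Finset (Nt x)).card = p - 1 := by
    rw [Finset.card_univ, ← Nat.card_eq_fintype_card]
    omega
  let one : IrrCharacter G := ⟨fun _ => 1, isIrrCharacter_one⟩
  have hone : ∀ a, c a one = -1 := by
    intro a
    have h1 := hm one a.1
    have h2 := hm one triv
    have h3 : classInner (a.1 : zpowers x → ℂ) (fun _ : zpowers x => (1 : ℂ)) = 0 := by
      rw [classInner_irr a.1.2 isIrrCharacter_one, if_neg (ne_tr_of_ne a.1 a.2)]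
    have h4 : classInner (tr : zpowers x → ℂ) (fun _ : zpowers x => (1 : ℂ)) = 1 := by
      rw [classInner_irr isIrrCharacter_one isIrrCharacter_one, if_pos rfl]
    have h5 : (m one a.1 : ℂ) = 0 := by rw [← h1]; exact h3
    have h6 : (m one triv : ℂ) = 1 := by rw [← h2]; exact h4
    have h7 : m one a.1 = 0 := by exact_mod_cast h5
    have h8 : m one triv = 1 := by exact_mod_cast h6
    simp [c, vecC, h7, h8]
  exact ⟨deg, m, hdeg, hm, hgram, hdd, hone, hcls, hntf⟩

end Vec

section Main

variable [Fintype G]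

/-- The case of a self-centralizing subgroup of prime order. -/
theorem prime_deg_step_c (h : Setup p x)
    (hfaith : ∀ ψ : IrrCharacter G, ψ ≠ ⟨fun _ => 1, isIrrCharacter_one⟩ → ∀ g,
      (ψ : G → ℂ) g = (ψ : G → ℂ) 1 → g = 1)
    (hdg : ∀ (ψ : IrrCharacter G) (d : ℕ), ψ ≠ ⟨fun _ => 1, isIrrCharacter_one⟩ →
      (ψ : G → ℂ) 1 = d → d.Prime ∧ d ≤ p)
    (hNn : ¬ normalizer (zpowers x : Set G) ≤ zpowers x) : False := by
  classical
  haveI : Fintype (zpowers x) := Fintype.ofFinite _
  have hp := h.hp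
  haveI := Fact.mk hp
  obtain ⟨e, hNe, hepos⟩ := h.exists_card_normalizer
  have hN : Nat.card (normalizer ((zpowers x : Subgroup G) : Set G)) = e * p := by
    rw [hNe, mul_comm]
  have he2 : 2 ≤ e := by
    by_contra hlt
    have he1 : e = 1 := by omega
    apply hNn
    rw [he1, mul_one] at hNe
    have hle : zpowers x ≤ normalizer (zpowers x : Set G) := Subgroup.le_normalizer
    have := Subgroup.eq_of_le_of_card_ge hle (by rw [hNe, h.card_zpowers])
    rw [← this]
  obtain ⟨deg, m, hdeg, hm, hgram, hdd, hone, hcls, hntf⟩ := vec_data h e hN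
  let one : IrrCharacter G := ⟨fun _ => 1, isIrrCharacter_one⟩
  have hdeg1 : deg one = 1 := by
    have h2 : (1 : ℂ) = deg one := (hdeg one).1
    exact_mod_cast h2.symm
  have hprime : ∀ ψ, ψ ≠ one → (deg ψ).Prime ∧ deg ψ ≤ p := fun ψ hψ =>
    hdg ψ (deg ψ) hψ (hdeg ψ).1
  set c : Nt x → IrrCharacter G → ℤ := vecC m with hc
  have hcv : ∀ a ψ, c a ψ = (m ψ a.1 : ℤ) - m ψ triv := fun _ _ => rfl
  have hnorm : ∀ a, ip (c a) (c a) = e + 1 := fun a => by
    rw [hgram, if_pos (rel_equiv.refl a.1)]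
  have hsame : ∀ a b : Nt x, Rel a.1 b.1 → c a = c b := by
    intro a b hab
    have : ip (c a - c b) (c a - c b) = 0 := by
      rw [ip_sub_left, ip_sub_right, ip_sub_right, hnorm, hnorm, ip_comm (c b) (c a), hgram a b,
        if_pos hab]
      ring
    exact sub_eq_zero.mp (eq_zero_of_ip_self _ this)
  have hmsame : ∀ (ψ : IrrCharacter G) (a b : Nt x), Rel a.1 b.1 → m ψ a.1 = m ψ b.1 := by
    intro ψ a b hab
    have h1 := congrFun (hsame a b hab) ψ
    rw [hcv, hcv] at h1
    omega
  -- restriction to `⟨x⟩`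
  have hval : ∀ (ψ : IrrCharacter G) (u : zpowers x), (ψ : G → ℂ) u =
      ∑ l : IrrCharacter (zpowers x), (m ψ l : ℂ) * (l : zpowers x → ℂ) u := by
    intro i u
    have h1 := congrFun (classFunction_eq_sum (fun u : zpowers x => (i : G → ℂ) u)
      (IsCharacter.isClassFunction (IsCharacter.restrict (zpowers x)
        (IsIrrCharacter.isCharacter i.2)))) u
    rw [Finset.sum_apply] at h1
    simp only [Pi.smul_apply, smul_eq_mul] at h1
    have h2 : ∀ l : IrrCharacter (zpowers x),
        classInner (fun u : zpowers x => (i : G → ℂ) u) (l : zpowers x → ℂ) = (m i l : ℂ) := by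
      intro l
      have h3 := hm i l
      rw [← conj_classInner]
      rw [h3, Complex.conj_natCast]
    simp only [h2] at h1
    exact h1
  have hdform : ∀ ψ, deg ψ = m ψ triv + ∑ a : Nt x, m ψ a.1 := by
    intro i
    have h1 := hval i 1
    simp only [deg_one, mul_one, coe_one] at h1
    rw [(hdeg i).1] at h1
    have h3 : deg i = ∑ l : IrrCharacter (zpowers x), m i l := by exact_mod_cast h1
    rw [Fintype.sum_eq_add_sum_subtype_ne (fun l => m i l) triv] at h3
    exact h3
  have hSform : ∀ ψ, ∑ a : Nt x, c a ψ = (deg ψ : ℤ) - p * m ψ triv := by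
    intro i
    have h4 : ∑ a : Nt x, c a i = (∑ a : Nt x, (m i a.1 : ℤ)) - (p - 1 : ℕ) * m i triv := by
      simp only [hcv]
      rw [Finset.sum_sub_distrib, Finset.sum_const, hntf, nsmul_eq_mul]
    rw [h4, hdform i]
    have hp1 : ((p - 1 : ℕ) : ℤ) = (p : ℤ) - 1 := by
      have := hp.pos
      omega
    rw [hp1]
    push_cast
    ring
  -- divisibility by `e`
  have hedvd : ∀ ψ, e ∣ ∑ a : Nt x, m ψ a.1 := by
    intro ψ
    let R : Setoid (Nt x) := ⟨fun a b => Rel a.1 b.1, fun a => rel_equiv.refl a.1,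
      fun h => rel_equiv.symm h, fun h k => rel_equiv.trans h k⟩
    rw [Finset.sum_partition R]
    refine Finset.dvd_sum fun q hq => ?_
    obtain ⟨a₀, -, rfl⟩ := Finset.mem_image.1 hq
    have h1 : ∀ y ∈ Finset.univ.filter (fun y : Nt x => (Quotient.mk R y) = Quotient.mk R a₀),
        m ψ y.1 = m ψ a₀.1 := by
      intro y hy
      rw [Finset.mem_filter] at hy
      exact hmsame ψ y a₀ (Quotient.exact hy.2)
    rw [Finset.sum_congr rfl h1, Finset.sum_const, smul_eq_mul]
    have h2 : (Finset.univ.filter (fun y : Nt x => (Quotient.mk R y) = Quotient.mk R a₀)).card = e := by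
      rw [← hcls a₀]
      congr 1
      ext b
      simp only [Finset.mem_filter, Finset.mem_univ, true_and]
      constructor
      · intro h0
        exact rel_equiv.symm (Quotient.exact h0)
      · intro h0
        exact Quotient.sound (rel_equiv.symm h0)
    rw [h2]
    exact Dvd.intro _ rfl
  have hp2 := hp.two_le
  -- a character with positive sum
  obtain ⟨χ₀, hχ₀, hpos⟩ : ∃ χ₀, χ₀ ≠ one ∧ 0 < ∑ a : Nt x, c a χ₀ := by
    by_contra hcon
    push Not at hcon
    have h1 : ∑ a : Nt x, ip (c a) (fun χ : IrrCharacter G => (deg χ : ℤ)) = 0 :=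
      Finset.sum_eq_zero fun a _ => hdd a
    simp only [ip] at h1
    rw [Finset.sum_comm] at h1
    rw [← Finset.add_sum_erase _ _ (Finset.mem_univ one)] at h1
    have h2 : ∑ a : Nt x, c a one * (deg one : ℤ) = -((p : ℤ) - 1) := by
      have hone' : ∀ a, c a one = -1 := hone
      simp only [hdeg1, hone']
      rw [Finset.sum_const, hntf, nsmul_eq_mul]
      have hp1 : ((p - 1 : ℕ) : ℤ) = (p : ℤ) - 1 := by omega
      rw [hp1]
      push_cast
      ring
    have h3 : ∑ ψ ∈ Finset.univ.erase one, ∑ a : Nt x, c a ψ * (deg ψ : ℤ) ≤ 0 := by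
      refine Finset.sum_nonpos fun ψ hψ => ?_
      rw [← Finset.sum_mul]
      exact mul_nonpos_of_nonpos_of_nonneg (hcon ψ (Finset.ne_of_mem_erase hψ)) (by positivity)
    omega
  have hm0 : m χ₀ triv = 0 := by
    by_contra hne
    have h1 : 1 ≤ m χ₀ triv := Nat.one_le_iff_ne_zero.2 hne
    rw [hSform] at hpos
    have h2 := (hprime χ₀ hχ₀).2
    have h3 : (deg χ₀ : ℤ) ≤ p := by exact_mod_cast h2
    have h4 : (1 : ℤ) ≤ m χ₀ triv := by exact_mod_cast h1
    nlinarith
  have hdsum : deg χ₀ = ∑ a : Nt x, m χ₀ a.1 := by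
    have := hdform χ₀
    rw [hm0, zero_add] at this
    exact this
  have hdege : deg χ₀ = e := by
    have h1 : e ∣ deg χ₀ := by rw [hdsum]; exact hedvd χ₀
    rcases (Nat.dvd_prime (hprime χ₀ hχ₀).1).1 h1 with h2 | h2
    · omega
    · exact h2.symm
  obtain ⟨a₀, ha₀⟩ : ∃ a₀ : Nt x, m χ₀ a₀.1 ≠ 0 := by
    by_contra hcon
    push Not at hcon
    rw [Finset.sum_eq_zero (fun a _ => hcon a)] at hdsum
    omega
  have hsplit : deg χ₀ = e * m χ₀ a₀.1 +
      ∑ a ∈ Finset.univ.filter (fun b : Nt x => ¬ Rel a₀.1 b.1), m χ₀ a.1 := by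
    rw [hdsum, ← Finset.sum_filter_add_sum_filter_not Finset.univ (fun b : Nt x => Rel a₀.1 b.1)]
    congr 1
    have h1 : ∀ y ∈ Finset.univ.filter (fun b : Nt x => Rel a₀.1 b.1), m χ₀ y.1 = m χ₀ a₀.1 := by
      intro y hy
      rw [Finset.mem_filter] at hy
      exact (hmsame χ₀ a₀ y hy.2).symm
    rw [Finset.sum_congr rfl h1, Finset.sum_const, smul_eq_mul, hcls]
  have hma₀ : m χ₀ a₀.1 = 1 := by
    have h1 : 1 ≤ m χ₀ a₀.1 := Nat.one_le_iff_ne_zero.2 ha₀
    by_contra hne
    have h2 : 2 ≤ m χ₀ a₀.1 := by omega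
    have h3 : e * 2 ≤ e * m χ₀ a₀.1 := Nat.mul_le_mul_left _ h2
    omega
  have hmrest : ∀ a : Nt x, ¬ Rel a₀.1 a.1 → m χ₀ a.1 = 0 := by
    intro a ha
    rw [hma₀, mul_one, hdege] at hsplit
    have h1 : ∑ a ∈ Finset.univ.filter (fun b : Nt x => ¬ Rel a₀.1 b.1), m χ₀ a.1 = 0 := by omega
    exact (Finset.sum_eq_zero_iff.1 h1) a (by simp [ha])
  -- the Galois conjugates
  have hX : ∀ b : Nt x, ∃ X : IrrCharacter G, c b X = 1 ∧ ∀ a : Nt x, ¬ Rel a.1 b.1 → c a X = 0 := by
    intro b
    obtain ⟨k, hkc, hk⟩ := exists_pow_twist h a₀ b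
    obtain ⟨k', hk'c, hk'⟩ := exists_inv_exponent h hkc
    have hk'P : k'.Coprime (Nat.card (zpowers x)) :=
      Nat.Coprime.coprime_dvd_right (Subgroup.card_subgroup_dvd_card _) hk'c
    have hkP : k.Coprime (Nat.card (zpowers x)) := by rw [h.card_zpowers]; exact hkc
    let tw : IrrCharacter (zpowers x) → IrrCharacter (zpowers x) := fun l =>
      ⟨fun u => (l : zpowers x → ℂ) (u ^ k), galois_isIrr l.2 hkP⟩
    let X : IrrCharacter G := ⟨fun g => (χ₀ : G → ℂ) (g ^ k'), galois_isIrr χ₀.2 hk'c⟩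
    have hmX : ∀ l, m X l = m χ₀ (tw l) := by
      intro l
      have h1 := classInner_galois (G := zpowers x) ((tw l : IrrCharacter (zpowers x)) : zpowers x → ℂ)
        (fun u : zpowers x => (χ₀ : G → ℂ) u) hk'P
      rw [hm χ₀ (tw l)] at h1
      have h2 : (fun g : zpowers x => ((tw l : IrrCharacter (zpowers x)) : zpowers x → ℂ) (g ^ k')) =
          (l : zpowers x → ℂ) := by
        funext u
        show (l : zpowers x → ℂ) ((u ^ k') ^ k) = _
        rw [hk']
      rw [h2] at h1
      have h3 : classInner (l : zpowers x → ℂ) (fun u : zpowers x => (X : G → ℂ) u) = (m χ₀ (tw l) : ℂ) :=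
        h1
      rw [hm X l] at h3
      exact_mod_cast h3
    have htriv : tw triv = triv := Subtype.ext (funext fun u => rfl)
    have htwb : tw b.1 = a₀.1 := Subtype.ext (funext fun u => hk u)
    have hXtriv : m X triv = 0 := by rw [hmX, htriv, hm0]
    refine ⟨X, ?_, ?_⟩
    · rw [hcv, hXtriv, hmX, htwb, hma₀]
      norm_num
    · intro a hab
      rw [hcv, hXtriv, hmX]
      have hne : tw a.1 ≠ triv := by
        intro h0
        apply a.2
        apply Subtype.ext
        funext v
        have h1 := congrFun (congrArg (fun t : IrrCharacter (zpowers x) => (t : zpowers x → ℂ)) h0) (v ^ k')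
        have h2 : (a.1 : zpowers x → ℂ) ((v ^ k') ^ k) = 1 := h1
        rw [hk'] at h2
        exact h2
      have hnr : ¬ Rel a₀.1 (tw a.1) := by
        rintro ⟨g, hg⟩
        apply hab
        apply rel_equiv.symm
        refine ⟨g, ?_⟩
        funext v
        have h1 := congrFun hg (v ^ k')
        have h2 : (a.1 : zpowers x → ℂ) ((cj g (v ^ k')) ^ k) = (a₀.1 : zpowers x → ℂ) (v ^ k') := h1
        have h3 : (cj g (v ^ k')) ^ k = cj g ((v ^ k') ^ k) := (map_pow (cj g) _ _).symm
        rw [h3, hk', ← hk (v ^ k'), hk'] at h2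
        exact h2
      have := hmrest ⟨tw a.1, hne⟩ hnr
      simp only at this
      rw [this]
      norm_num
  choose Xb hXb1 hXb0 using hX
  -- a character with a negative coefficient
  obtain ⟨a₁⟩ : Nonempty (Nt x) := by
    rw [← Finset.univ_nonempty_iff, ← Finset.card_pos, hntf]
    omega
  obtain ⟨ψ, hψ, hneg⟩ : ∃ ψ, ψ ≠ one ∧ c a₁ ψ < 0 := by
    by_contra hcon
    push Not at hcon
    have h1 := hdd a₁
    simp only [ip] at h1
    rw [← Finset.add_sum_erase _ _ (Finset.mem_univ one)] at h1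
    have h2 : c a₁ one * (deg one : ℤ) = -1 := by
      rw [hdeg1, hone]
      norm_num
    have h3 : ∀ ψ ∈ Finset.univ.erase one, 0 ≤ c a₁ ψ * (deg ψ : ℤ) := fun ψ hψ =>
      mul_nonneg (hcon ψ (Finset.ne_of_mem_erase hψ)) (by positivity)
    have h4 : ∑ ψ ∈ Finset.univ.erase one, c a₁ ψ * (deg ψ : ℤ) = 1 := by
      omega
    have hex : ∃ ψ ∈ Finset.univ.erase one, c a₁ ψ * (deg ψ : ℤ) ≠ 0 := by
      by_contra hc2
      push Not at hc2
      rw [Finset.sum_eq_zero hc2] at h4
      omega
    obtain ⟨ψ, hψ, hne⟩ := hex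
    have h6 := Finset.single_le_sum h3 hψ
    rw [h4] at h6
    have h7 : 0 < c a₁ ψ := by
      have h8 := hcon ψ (Finset.ne_of_mem_erase hψ)
      rcases h8.lt_or_eq with h9 | h9
      · exact h9
      · rw [← h9] at hne
        simp at hne
    have h10 : 2 ≤ (deg ψ : ℤ) := by
      have := (hprime ψ (Finset.ne_of_mem_erase hψ)).1.two_le
      exact_mod_cast this
    nlinarith
  have hconst : ∀ a : Nt x, c a ψ = c a₁ ψ := by
    intro a
    by_cases hr : Rel a.1 a₁.1
    · rw [hsame a a₁ hr]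
    · have hr' : ¬ Rel a₁.1 a.1 := fun h0 => hr (rel_equiv.symm h0)
      set v := c a₁ - c a with hv
      have hvv : ip v v = 2 := by
        rw [hv, ip_sub_left, ip_sub_right, ip_sub_right, hnorm, hnorm, ip_comm (c a) (c a₁), hgram a₁ a,
          if_neg hr']
        ring
      let X := Xb a₁
      let Y := Xb a
      have hvX : v X = 1 := by
        simp only [hv, Pi.sub_apply, X]
        rw [hXb1 a₁, hXb0 a₁ a hr]
        norm_num
      have hvY : v Y = -1 := by
        simp only [hv, Pi.sub_apply, Y]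
        rw [hXb1 a, hXb0 a a₁ hr']
        norm_num
      have hXY : X ≠ Y := by
        intro h0
        rw [h0, hvY] at hvX
        norm_num at hvX
      have hψX : ψ ≠ X := by
        intro h0
        have h1 : c a₁ X = 1 := hXb1 a₁
        rw [← h0, ] at h1
        omega
      have hψY : ψ ≠ Y := by
        intro h0
        have h1 : c a₁ Y = 0 := hXb0 a a₁ hr'
        rw [← h0] at h1
        omega
      have h1 : ∑ j ∈ ({X, Y, ψ} : Finset (IrrCharacter G)), v j * v j ≤ ip v v :=
        Finset.sum_le_sum_of_subset_of_nonneg (Finset.subset_univ _) (fun _ _ _ => mul_self_nonneg _)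
      rw [Finset.sum_insert (by simp [hXY, hψX.symm]), Finset.sum_insert (by simp [hψY.symm]),
        Finset.sum_singleton, hvv, hvX, hvY] at h1
      have h2 : v ψ = 0 := by
        by_contra hne
        have := mul_self_pos.mpr hne
        omega
      have h3 : c a₁ ψ - c a ψ = 0 := h2
      omega
  -- conclusion
  have hmconst : ∀ a : Nt x, m ψ a.1 = m ψ a₁.1 := by
    intro a
    have h1 := hconst a
    rw [hcv, hcv] at h1
    omega
  have hd2 := hdform ψ
  rw [Finset.sum_congr rfl (fun a _ => hmconst a), Finset.sum_const, smul_eq_mul, hntf] at hd2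
  have hle := (hprime ψ hψ).2
  have hlt : m ψ a₁.1 < m ψ triv := by
    have h1 := hneg
    rw [hcv] at h1
    omega
  have hn0 : m ψ a₁.1 = 0 := by
    by_contra hne
    have h1 : 1 ≤ m ψ a₁.1 := Nat.one_le_iff_ne_zero.2 hne
    obtain ⟨q, hq⟩ : ∃ q, p = q + 1 := ⟨p - 1, by omega⟩
    have h2 : p - 1 = q := by omega
    rw [h2] at hd2
    have h3 : q * 1 ≤ q * m ψ a₁.1 := Nat.mul_le_mul_left _ h1
    nlinarith
  have hall : ∀ a : Nt x, m ψ a.1 = 0 := fun a => by rw [hmconst, hn0]
  have hvalx : ∀ u : zpowers x, (ψ : G → ℂ) u = (m ψ triv : ℂ) := by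
    intro u
    rw [hval ψ u, Fintype.sum_eq_add_sum_subtype_ne _ triv,
      Finset.sum_eq_zero (fun a _ => by rw [hall a]; simp)]
    show (m ψ triv : ℂ) * (1 : ℂ) + 0 = _
    ring
  have hx1 := hvalx ⟨x, mem_zpowers x⟩
  have hx2 := hvalx 1
  simp only [coe_one] at hx2
  exact h.x_ne_one (hfaith ψ hψ x (by rw [hx1, hx2]))

end Main

end Cfsg.Agent.Lib.CharExtra
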