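import Cfsg.Agent.Lib.CharExtra.PrimeDegA
import Cfsg.Agent.Lib.SmallSimple.BrauerB
import Cfsg.Agent.Lib.Block.Cover
import Cfsg.Agent.S0887

/-!
# A finite group all of whose non-linear irreducible characters have prime degree is solvable.
-/

set_option autoImplicit false
set_option linter.unusedSectionVars false
set_option linter.style.haveILetI false
set_option linter.unusedSimpArgs false
set_option linter.unnecessarySimpa false
set_option linter.unusedVariables false

open scoped ComplexConjugate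
open Subgroup

namespace Cfsg.Agent.Lib.CharExtra

open Cfsg (classInner IsCharacter IsIrrCharacter IrrCharacter IsClassFunction charDegree)
open Cfsg.Agent.Lib.Char
open Cfsg.Agent.Lib.SelfCentral
open Cfsg.Agent.Lib.Block (oneIrr oneIrr_coe)

universe u

variable {G : Type u} [Group G] {p : ℕ} {x : G}

/-- All non-linear irreducible characters have prime degree. -/
def PrimeDeg (G : Type u) [Group G] : Prop :=
  ∀ χ : IrrCharacter G, charDegree (χ : G → ℂ) ≠ 1 → (charDegree (χ : G → ℂ)).Prime

theorem primeDeg_quot [Finite G] (N : Subgroup G) [N.Normal] (h : PrimeDeg G) : PrimeDeg (G ⧸ N) := by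
  intro θ hθ
  let χ : IrrCharacter G := ⟨(θ : G ⧸ N → ℂ) ∘ QuotientGroup.mk' N,
    isIrr_comp_surjective (QuotientGroup.mk' N) (QuotientGroup.mk'_surjective N) θ.2⟩
  have h1 : charDegree (χ : G → ℂ) = charDegree (θ : G ⧸ N → ℂ) := by
    simp [charDegree, χ]
  rw [← h1] at hθ ⊢
  exact h χ hθ

theorem primeDeg_sub [Fintype G] (N : Subgroup G) [hN : N.Normal] (h : PrimeDeg G) : PrimeDeg N := by
  classical
  intro θ hθ
  haveI : Fintype N := Fintype.ofFinite _
  obtain ⟨χ, hχi, hχ⟩ := exists_irr_over N θ.2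
  have h1 := (Cfsg.Agent.S0887.result N χ hχi (θ : N → ℂ) θ.2 hχ (charDegree χ)
    (charDegree (θ : N → ℂ)) (map_one_eq_charDegree (IsIrrCharacter.isCharacter hχi))
    (map_one_eq_charDegree (IsIrrCharacter.isCharacter θ.2))).1
  have h2 : charDegree χ ≠ 1 := by
    intro h0
    rw [h0] at h1
    exact hθ (Nat.dvd_one.1 h1)
  have h3 := h ⟨χ, hχi⟩ h2
  rcases (Nat.dvd_prime h3).1 h1 with h4 | h4
  · exact absurd h4 hθ
  · rw [h4]
    exact h3

theorem primeDeg_simple_false [Fintype G] [IsSimpleGroup G] (hnc : ¬ IsMulCommutative G)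
    (h : PrimeDeg G) : False := by
  classical
  have hn1 : 1 < Nat.card G := Finite.one_lt_card
  have hne : (Nat.card G).primeFactors.Nonempty := Nat.nonempty_primeFactors.2 hn1
  set p := (Nat.card G).primeFactors.max' hne with hpdef
  have hpm : p ∈ (Nat.card G).primeFactors := Finset.max'_mem _ _
  have hp : p.Prime := Nat.prime_of_mem_primeFactors hpm
  have hpd : p ∣ Nat.card G := Nat.dvd_of_mem_primeFactors hpm
  haveI : Fact p.Prime := ⟨hp⟩
  have hmax : ∀ q : ℕ, q.Prime → q ∣ Nat.card G → q ≤ p := fun q hq hd =>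
    Finset.le_max' _ _ (Nat.mem_primeFactors.2 ⟨hq, hd, Nat.card_pos.ne'⟩)
  have hfaith : ∀ ψ : IrrCharacter G, ψ ≠ oneIrr G → ∀ g,
      (ψ : G → ℂ) g = (ψ : G → ℂ) 1 → g = 1 := by
    intro ψ hψ g hg
    by_contra hg1
    exact Cfsg.Agent.Lib.SmallSimple.BB.ne_of_involution ψ hψ hg1 hg
  have hne1 : ∀ ψ : IrrCharacter G, ψ ≠ oneIrr G → charDegree (ψ : G → ℂ) ≠ 1 := by
    intro ψ hψ h0
    apply Cfsg.Agent.Lib.SmallSimple.BL.degree_ne_one hnc ψ hψ
    rw [map_one_eq_charDegree (IsIrrCharacter.isCharacter ψ.2), h0]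
    simp
  have hprime : ∀ ψ : IrrCharacter G, ψ ≠ oneIrr G → (charDegree (ψ : G → ℂ)).Prime :=
    fun ψ hψ => h ψ (hne1 ψ hψ)
  have hle : ∀ ψ : IrrCharacter G, ψ ≠ oneIrr G → charDegree (ψ : G → ℂ) ≤ p := fun ψ hψ =>
    hmax _ (hprime ψ hψ) (charDegree_dvd_card ψ.2)
  obtain ⟨P⟩ : Nonempty (Sylow p G) := inferInstance
  have hP1 : (P : Subgroup G) ≠ ⊥ := by
    intro h0
    have := P.not_dvd_index
    rw [h0, Subgroup.index_bot] at this
    exact this hpd
  have hPc : Nat.card (P : Subgroup G) = p := prime_deg_step_a hnc P hP1 hfaith hle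
  have hsyl : ¬ p ^ 2 ∣ Nat.card G := by
    intro h0
    have h1 := P.card_eq_multiplicity
    rw [hPc] at h1
    have h2 : 2 ≤ (Nat.card G).factorization p :=
      (Nat.Prime.pow_dvd_iff_le_factorization hp Nat.card_pos.ne').1 h0
    have h3 : p ^ 2 ≤ p ^ (Nat.card G).factorization p := Nat.pow_le_pow_right hp.pos h2
    rw [← h1] at h3
    nlinarith [hp.two_le]
  obtain ⟨x, hx⟩ := exists_prime_orderOf_dvd_card' p hpd
  have hdg : ∀ (ψ : IrrCharacter G) (d : ℕ), ψ ≠ oneIrr G → (ψ : G → ℂ) 1 = d → d.Prime ∧ d ≤ p := by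
    intro ψ d hψ hd
    have h1 : charDegree (ψ : G → ℂ) = d := charDegree_natCast hd
    rw [← h1]
    exact ⟨hprime ψ hψ, hle ψ hψ⟩
  have hC := prime_deg_step_b hp hx hsyl hfaith hdg
  have hS : Setup p x := ⟨hp, hx, hC⟩
  refine prime_deg_step_c hS hfaith hdg ?_
  intro hle'
  have h1 := (hS.commutator_of_normalizer_le hle').1
  have htop : commutator G = ⊤ := by
    rcases IsSimpleGroup.eq_bot_or_eq_top_of_normal (commutator G) inferInstance with h0 | h0
    · exfalso
      apply hnc
      refine ⟨⟨fun a b => ?_⟩⟩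
      have h2 : a * b * a⁻¹ * b⁻¹ ∈ commutator G := by
        rw [_root_.commutator_def]
        exact Subgroup.commutator_mem_commutator (Subgroup.mem_top a) (Subgroup.mem_top b)
      rw [h0, Subgroup.mem_bot, mul_inv_eq_one, mul_inv_eq_iff_eq_mul] at h2
      exact h2
    · exact h0
  rw [htop, Subgroup.index_top] at h1
  exact hp.one_lt.ne h1

theorem primeDeg_solvable : ∀ (n : ℕ) (G : Type u) [Group G] [Finite G], Nat.card G = n →
    PrimeDeg G → Group.IsSolvable G := by
  intro n
  induction n using Nat.strong_induction_on with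
  | _ n ih =>
    intro G _ _ hn hPD
    classical
    haveI : Fintype G := Fintype.ofFinite G
    by_cases h1 : Subsingleton G
    · infer_instance
    haveI : Nontrivial G := not_subsingleton_iff_nontrivial.1 h1
    by_cases hex : ∃ N : Subgroup G, N.Normal ∧ N ≠ ⊥ ∧ N ≠ ⊤
    · obtain ⟨N, hN, hb, ht⟩ := hex
      haveI := hN
      have hmul := Subgroup.card_mul_index N
      have hN1 : 1 < Nat.card N := (Subgroup.one_lt_card_iff_ne_bot N).2 hb
      have hI1 : 1 < N.index := by
        have h2 : N.index ≠ 1 := fun h0 => ht (Subgroup.index_eq_one.1 h0)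
        have h3 : N.index ≠ 0 := Subgroup.FiniteIndex.index_ne_zero
        omega
      have hcardN : Nat.card N < n := by
        rw [← hn, ← hmul]
        nlinarith
      have hcardQ : Nat.card (G ⧸ N) < n := by
        rw [← hn, ← hmul]
        show N.index < _
        nlinarith
      have sN := ih _ hcardN N rfl (primeDeg_sub N hPD)
      have sQ := ih _ hcardQ (G ⧸ N) rfl (primeDeg_quot N hPD)
      refine solvable_of_ker_le_range N.subtype (QuotientGroup.mk' N) ?_
      rw [QuotientGroup.ker_mk', Subgroup.range_subtype]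
    · haveI : IsSimpleGroup G :=
        { eq_bot_or_eq_top_of_normal := fun N hN => by
            by_contra hcon
            push Not at hcon
            exact hex ⟨N, hN, hcon.1, hcon.2⟩ }
      by_cases hc : IsMulCommutative G
      · letI : CommGroup G := { (inferInstance : Group G) with mul_comm := hc.is_comm.comm }
        infer_instance
      · exact (primeDeg_simple_false hc hPD).elim

end Cfsg.Agent.Lib.CharExtra
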