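import Mathlib
import Cfsg.Agent.Lib.Char.Complete
import Cfsg.Agent.Lib.Char.Induced
import Cfsg.Agent.Lib.Char.Basic
import Cfsg.Agent.Lib.Degree.GaloisChar
import Cfsg.Agent.Lib.Transfer.MaxClass3
import Cfsg.Agent.Lib.Transfer.TwoMaxCyc
import Cfsg.Agent.Lib.Block.Section
import Cfsg.Agent.Lib.PGroup.Basic

/-!
# Sylow `2`-subgroups of commutator index four and fields of character values
-/

set_option autoImplicit false
set_option linter.unusedSectionVars false
set_option linter.unusedSimpArgs false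
set_option linter.unusedVariables false
set_option linter.style.haveILetI false
set_option linter.unnecessarySimpa false

namespace Cfsg.Agent.Lib.CharExtra.SylowFour

open Cfsg (classInner IsCharacter IsIrrCharacter IrrCharacter IsClassFunction indFun extendByZero)
open Cfsg.Agent.Lib.Char
open Cfsg.Agent.Lib.Degree (extendByZero_eq_of_mem extendByZero_eq_of_notMem isCharacter_of_units_hom)
open Subgroup
open scoped commutatorElement

universe u

theorem pow_add_pow_mem (K : IntermediateField ℚ ℂ) {α β : ℂ} (h1 : α + β ∈ K) (h2 : α * β ∈ K) (j : ℕ) :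
    α ^ j + β ^ j ∈ K ∧ α ^ (j + 1) + β ^ (j + 1) ∈ K := by
  induction j with
  | zero =>
    refine ⟨?_, by simpa using h1⟩
    have : (2 : ℂ) ∈ K := by
      have := K.natCast_mem 2
      simpa using this
    simpa [one_add_one_eq_two] using this
  | succ j ih =>
    refine ⟨ih.2, ?_⟩
    have : α ^ (j + 1 + 1) + β ^ (j + 1 + 1) = (α + β) * (α ^ (j + 1) + β ^ (j + 1)) - (α * β) * (α ^ j + β ^ j) := by
      ring
    rw [this]
    exact K.sub_mem (K.mul_mem h1 ih.2) (K.mul_mem h2 ih.1)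

section Values

variable {G : Type u} [Group G] [Finite G]

theorem char_value_mem {χ : G → ℂ} (hχ : IsCharacter G χ) {g y : G} {r : ℤ}
    (hy : y * g * y⁻¹ = g ^ r) {ζ : ℂ} {m : ℕ} [NeZero m] (hζ : IsPrimitiveRoot ζ m) (hgm : g ^ m = 1)
    (K : IntermediateField ℚ ℂ) (h1 : ζ + ζ ^ r ∈ K) (h2 : ζ * ζ ^ r ∈ K) : χ g ∈ K := by
  obtain ⟨d, ρ, rfl⟩ := hχ
  obtain ⟨ε, hε, h⟩ := character_eq_sum_roots ρ g (isOfFinOrder_of_finite g)
  have hcl : ρ.character (g ^ r) = ρ.character g := by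
    rw [← hy]
    exact IsCharacter.conj_apply ⟨d, ρ, rfl⟩ g y
  have e1 := h 1
  have e2 := h r
  rw [zpow_one] at e1
  have htwo : (2 : ℂ) * ρ.character g = ∑ i, (ε i + ε i ^ r) := by
    rw [Finset.sum_add_distrib, ← e2, hcl, two_mul]
    congr 1
    rw [e1]
    simp
  have hmem : (2 : ℂ) * ρ.character g ∈ K := by
    rw [htwo]
    refine K.sum_mem fun i _ => ?_
    have hεm : ε i ^ m = 1 := by
      obtain ⟨c, hc⟩ := orderOf_dvd_of_pow_eq_one hgm
      rw [hc, pow_mul, hε, one_pow]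
    obtain ⟨j, -, hj⟩ := hζ.eq_pow_of_pow_eq_one hεm
    have h3 := (pow_add_pow_mem K h1 h2 j).1
    have h4 : ε i ^ r = (ζ ^ r) ^ j := by
      rw [← hj, ← zpow_natCast, ← zpow_natCast, ← zpow_mul, ← zpow_mul, mul_comm]
    rw [h4, ← hj]
    exact h3
  have h20 : (2 : ℂ) ≠ 0 := two_ne_zero
  have h2K : (2 : ℂ) ∈ K := by
    have := K.natCast_mem 2
    simpa using this
  have : ρ.character g = (2 : ℂ)⁻¹ * ((2 : ℂ) * ρ.character g) := by
    field_simp
  rw [this]
  exact K.mul_mem (K.inv_mem h2K) hmem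

theorem char_value_mem_of_pow {χ : G → ℂ} (hχ : IsCharacter G χ) {g : G}
    {ζ : ℂ} {m : ℕ} [NeZero m] (hζ : IsPrimitiveRoot ζ m) (hgm : g ^ m = 1)
    (K : IntermediateField ℚ ℂ) (h1 : ζ ∈ K) : χ g ∈ K := by
  obtain ⟨d, ρ, rfl⟩ := hχ
  obtain ⟨ε, hε, h⟩ := character_eq_sum_roots ρ g (isOfFinOrder_of_finite g)
  have e1 := h 1
  rw [zpow_one] at e1
  rw [e1]
  refine K.sum_mem fun i _ => ?_
  have hεm : ε i ^ m = 1 := by
    obtain ⟨c, hc⟩ := orderOf_dvd_of_pow_eq_one hgm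
    rw [hc, pow_mul, hε, one_pow]
  obtain ⟨j, -, hj⟩ := hζ.eq_pow_of_pow_eq_one hεm
  rw [zpow_one, ← hj]
  exact K.pow_mem h1 j

end Values

/-- Degrees: a primitive `2 ^ (l + 3)`-th root of unity does not lie in the field generated by its
square. -/
theorem not_mem_adjoin_sq {ζ : ℂ} {l : ℕ} (hζ : IsPrimitiveRoot ζ (2 ^ (l + 3))) :
    ζ ∉ IntermediateField.adjoin ℚ ({ζ ^ 2} : Set ℂ) := by
  intro hmem
  set K := IntermediateField.adjoin ℚ ({ζ ^ 2} : Set ℂ) with hK
  have hpos : 0 < 2 ^ (l + 3) := by positivity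
  have hζ2 : IsPrimitiveRoot (ζ ^ 2) (2 ^ (l + 2)) := hζ.pow hpos (by ring)
  have hpos2 : 0 < 2 ^ (l + 2) := by positivity
  have hint2 : IsIntegral ℚ (ζ ^ 2) := hζ2.isIntegral hpos2 |>.tower_top
  have hint : IsIntegral ℚ ζ := (hζ.isIntegral hpos).tower_top
  have h1 : Module.finrank ℚ K = (2 ^ (l + 2)).totient := by
    rw [hK, IntermediateField.adjoin.finrank hint2, ← Polynomial.cyclotomic_eq_minpoly_rat hζ2 hpos2,
      Polynomial.natDegree_cyclotomic]
  have h2 : (minpoly ℚ ζ).natDegree = (2 ^ (l + 3)).totient := by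
    rw [← Polynomial.cyclotomic_eq_minpoly_rat hζ hpos, Polynomial.natDegree_cyclotomic]
  haveI : FiniteDimensional ℚ K := by
    rw [hK]
    exact IntermediateField.adjoin.finiteDimensional hint2
  have h3 : (minpoly ℚ (⟨ζ, hmem⟩ : K)).natDegree ≤ Module.finrank ℚ K := minpoly.natDegree_le _
  have h3' : minpoly ℚ (⟨ζ, hmem⟩ : K) = minpoly ℚ ζ := IntermediateField.minpoly_eq _
  rw [h3'] at h3
  have h4 : (minpoly ℚ ζ).natDegree ≤ Module.finrank ℚ K := h3
  rw [h1, h2, Nat.totient_prime_pow_succ Nat.prime_two, Nat.totient_prime_pow_succ Nat.prime_two] at h4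
  have h5 : 2 ^ (l + 1) > 0 := by positivity
  have h6 : 2 ^ (l + 2) = 2 * 2 ^ (l + 1) := by ring
  omega

theorem t_not_mem {ζ : ℂ} {l : ℕ} (hζ : IsPrimitiveRoot ζ (2 ^ (l + 3))) {c : ℂ} (hc : c = 1 ∨ c = -1) :
    ζ + c * ζ⁻¹ ∉ IntermediateField.adjoin ℚ ({ζ ^ 2} : Set ℂ) := by
  intro hmem
  apply not_mem_adjoin_sq hζ
  set K := IntermediateField.adjoin ℚ ({ζ ^ 2} : Set ℂ) with hK
  have hs : ζ ^ 2 ∈ K := IntermediateField.subset_adjoin _ _ rfl
  have hζ0 : ζ ≠ 0 := hζ.ne_zero (by positivity)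
  have hcK : c ∈ K := by
    rcases hc with rfl | rfl
    · exact K.one_mem
    · exact K.neg_mem K.one_mem
  have hne : ζ ^ 2 + c ≠ 0 := by
    intro h0
    have h4 : ζ ^ 4 = 1 := by
      have h5 : ζ ^ 2 = -c := eq_neg_of_add_eq_zero_left h0
      have h6 : ζ ^ 4 = (ζ ^ 2) ^ 2 := by ring
      rw [h6, h5]
      rcases hc with rfl | rfl <;> norm_num
    have h7 := hζ.pow_ne_one_of_pos_of_lt (l := 4) (by norm_num) (by
      have : 2 ^ (l + 3) = 8 * 2 ^ l := by ring
      have h8 : 2 ^ l > 0 := by positivity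
      omega)
    exact h7 h4
  have e : ζ = ζ ^ 2 * ((ζ ^ 2 + c)⁻¹ * (ζ + c * ζ⁻¹)) := by
    field_simp
  rw [e]
  exact K.mul_mem hs (K.mul_mem (K.inv_mem (K.add_mem hs hcK)) hmem)

section Norm

variable {G : Type u} [Group G] [Finite G]

theorem conj_mem_zpowers {g x : G} (h : x * g * x⁻¹ ∈ zpowers g) :
    x ∈ normalizer ((zpowers g : Subgroup G) : Set G) := by
  refine Cfsg.Agent.Lib.Transfer.mem_normalizer_of_forall_conj fun a ha => ?_
  obtain ⟨i, rfl⟩ := ha
  have : x * (fun i : ℤ => g ^ i) i * x⁻¹ = (x * g * x⁻¹) ^ i := by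
    simp [conj_zpow]
  rw [this]
  exact (zpowers g).zpow_mem h i

/-- The image of the normalizer of a cyclic `2`-subgroup in its automorphism group is a `2`-group. -/
theorem card_range_dvd {g : G} {c : ℕ} (hc : orderOf g = 2 ^ c) :
    ∃ e : ℕ, Nat.card (zpowers g).normalizerMonoidHom.range = 2 ^ e := by
  have h1 : Nat.card (zpowers g).normalizerMonoidHom.range ∣ Nat.card (MulAut (zpowers g)) :=
    Subgroup.card_subgroup_dvd_card _
  rw [IsCyclic.card_mulAut, Nat.card_zpowers, hc] at h1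
  have h2 : (2 ^ c).totient ∣ 2 ^ c := by
    rcases c with _ | c
    · simp
    · rw [Nat.totient_prime_pow_succ Nat.prime_two]
      simp [pow_succ]
  obtain ⟨e, -, he⟩ := (Nat.dvd_prime_pow Nat.prime_two).1 (h1.trans h2)
  exact ⟨e, he⟩

theorem two_dvd_index {g y : G} {c : ℕ} (hc : orderOf g = 2 ^ c) (hy : y * g * y⁻¹ ∈ zpowers g)
    (hne : y * g * y⁻¹ ≠ g) : 2 ∣ (centralizer ({g} : Set G)).index := by
  obtain ⟨e, he⟩ := card_range_dvd hc
  have hyN := conj_mem_zpowers hy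
  have hC : centralizer ({g} : Set G) ≤ normalizer ((zpowers g : Subgroup G) : Set G) := by
    rw [← Cfsg.Agent.Lib.Block.centralizer_zpowers_eq]
    exact Subgroup.centralizer_le_normalizer _
  have h1 := Subgroup.relIndex_mul_index hC
  have h2 : (centralizer ({g} : Set G)).relIndex (normalizer ((zpowers g : Subgroup G) : Set G)) =
      Nat.card (zpowers g).normalizerMonoidHom.range := by
    rw [← Subgroup.index_ker, Subgroup.normalizerMonoidHom_ker, Cfsg.Agent.Lib.Block.centralizer_zpowers_eq]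
    rfl
  rw [h2, he] at h1
  rcases e with _ | e
  · exfalso
    have h3 : Nat.card (zpowers g).normalizerMonoidHom.range = 1 := by simpa using he
    have h4 := Finite.card_le_one_iff_subsingleton.1 (by omega : Nat.card (zpowers g).normalizerMonoidHom.range ≤ 1)
    have h5 : (zpowers g).normalizerMonoidHom ⟨y, hyN⟩ = 1 := by
      have := h4.elim ⟨_, MonoidHom.mem_range.2 ⟨⟨y, hyN⟩, rfl⟩⟩ 1
      exact congrArg Subtype.val this
    have h6 := DFunLike.congr_fun h5 ⟨g, mem_zpowers g⟩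
    apply hne
    have := congrArg Subtype.val h6
    simpa using this
  · rw [← h1]
    exact Dvd.dvd.mul_right (dvd_pow_self 2 (by omega)) _

theorem exists_same_action (P : Sylow 2 G) {g : G} {c : ℕ} (hc : orderOf g = 2 ^ c)
    (hPN : (P : Subgroup G) ≤ normalizer ((zpowers g : Subgroup G) : Set G)) {x : G}
    (hx : x ∈ normalizer ((zpowers g : Subgroup G) : Set G)) :
    ∃ p ∈ (P : Subgroup G), x * g * x⁻¹ = p * g * p⁻¹ := by
  obtain ⟨e, he⟩ := card_range_dvd hc
  let φ := (zpowers g).normalizerMonoidHom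
  let N := normalizer ((zpowers g : Subgroup G) : Set G)
  have he' : Nat.card φ.range = 2 ^ e := he
  let P' : Subgroup N := (P : Subgroup G).subgroupOf N
  have hs : Function.Surjective φ.rangeRestrict := φ.rangeRestrict_surjective
  have h1 : (P'.map φ.rangeRestrict).index ∣ P'.index := Subgroup.index_map_dvd _ hs
  have h2 : P'.index * N.index = (P : Subgroup G).index := Subgroup.relIndex_mul_index hPN
  have h3 : ¬ 2 ∣ (P : Subgroup G).index := P.not_dvd_index
  have h4 : (P'.map φ.rangeRestrict).index ∣ Nat.card φ.range := by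
    exact Subgroup.index_dvd_card _
  rw [he'] at h4
  have h5 : (P'.map φ.rangeRestrict).index = 1 := by
    obtain ⟨f, -, hf⟩ := (Nat.dvd_prime_pow Nat.prime_two).1 h4
    rcases f with _ | f
    · simpa using hf
    · exfalso
      apply h3
      rw [← h2]
      have h20 : 2 ∣ (P'.map φ.rangeRestrict).index := by
        rw [hf]
        exact dvd_pow_self 2 (by omega)
      exact Dvd.dvd.mul_right (h20.trans h1) _
  have h6 := Subgroup.index_eq_one.1 h5
  have h7 : φ.rangeRestrict ⟨x, hx⟩ ∈ P'.map φ.rangeRestrict := by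
    rw [h6]
    trivial
  obtain ⟨p, hp, hpe⟩ := h7
  refine ⟨p, hp, ?_⟩
  have h8 : (zpowers g).normalizerMonoidHom p = (zpowers g).normalizerMonoidHom ⟨x, hx⟩ :=
    congrArg Subtype.val hpe
  have h9 := DFunLike.congr_fun h8 ⟨g, mem_zpowers g⟩
  have h10 := congrArg Subtype.val h9
  simpa using h10.symm

theorem conj_dichotomy (P : Sylow 2 G) {g w : G} {c : ℕ} (hc : orderOf g = 2 ^ c)
    (hPN : (P : Subgroup G) ≤ normalizer ((zpowers g : Subgroup G) : Set G))
    (hp : ∀ p ∈ (P : Subgroup G), p * g * p⁻¹ = g ∨ p * g * p⁻¹ = w) {x : G}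
    (hx : x⁻¹ * g * x ∈ zpowers g) : x⁻¹ * g * x = g ∨ x⁻¹ * g * x = w := by
  have hx' : x⁻¹ * g * x⁻¹⁻¹ ∈ zpowers g := by simpa using hx
  obtain ⟨p, hpP, hpe⟩ := exists_same_action P hc hPN (conj_mem_zpowers hx')
  have : x⁻¹ * g * x = p * g * p⁻¹ := by simpa using hpe
  rw [this]
  exact hp p hpP

end Norm

section Ind

variable {G : Type u} [Group G] [Fintype G]

open Classical in
theorem sum_ite_conj (g : G) (z : ℂ) :
    (∑ x : G, if x⁻¹ * g * x = g then z else 0) = (Nat.card (centralizer ({g} : Set G)) : ℂ) * z := by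
  classical
  rw [Finset.sum_ite, Finset.sum_const_zero, add_zero, Finset.sum_const, nsmul_eq_mul]
  congr 1
  rw [Nat.card_eq_fintype_card, Fintype.card_subtype]
  congr 2
  ext x
  simp only [Finset.mem_filter, Finset.mem_univ, true_and, mem_centralizer_singleton_iff]
  constructor
  · intro h
    have : g * x = x * g := by
      calc g * x = x * (x⁻¹ * g * x) := by group
        _ = x * g := by rw [h]
    exact this.symm
  · intro h
    rw [mul_assoc, ← h]
    group

theorem indFun_eval (A : Subgroup G) (θ : A → ℂ) {g y w : G} (hg : g ∈ A) (hw : w ∈ A)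
    (hwy : w = y * g * y⁻¹) (hne : w ≠ g)
    (hd : ∀ x : G, x⁻¹ * g * x ∈ A → x⁻¹ * g * x = g ∨ x⁻¹ * g * x = w) :
    indFun A θ g = (Nat.card A : ℂ)⁻¹ * ((Nat.card (centralizer ({g} : Set G)) : ℂ) * (θ ⟨g, hg⟩ + θ ⟨w, hw⟩)) := by
  classical
  unfold indFun
  congr 1
  have h1 : ∀ x : G, extendByZero A θ (x⁻¹ * g * x) =
      (if x⁻¹ * g * x = g then θ ⟨g, hg⟩ else 0) + (if x⁻¹ * g * x = w then θ ⟨w, hw⟩ else 0) := by
    intro x
    by_cases hx : x⁻¹ * g * x ∈ A
    · rw [extendByZero_eq_of_mem A θ hx]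
      rcases hd x hx with h | h
      · have h2 : x⁻¹ * g * x ≠ w := by rw [h]; exact hne.symm
        rw [if_pos h, if_neg h2, add_zero]
        congr 1
        exact Subtype.ext h
      · have h2 : x⁻¹ * g * x ≠ g := by rw [h]; exact hne
        rw [if_neg h2, if_pos h, zero_add]
        congr 1
        exact Subtype.ext h
    · rw [extendByZero_eq_of_notMem A θ hx]
      have h2 : x⁻¹ * g * x ≠ g := fun h => hx (by rw [h]; exact hg)
      have h3 : x⁻¹ * g * x ≠ w := fun h => hx (by rw [h]; exact hw)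
      rw [if_neg h2, if_neg h3, add_zero]
  rw [Finset.sum_congr rfl fun x _ => h1 x, Finset.sum_add_distrib, sum_ite_conj, mul_add]
  congr 1
  rw [← sum_ite_conj g (θ ⟨w, hw⟩)]
  refine Eq.trans ?_ (Equiv.sum_comp (Equiv.mulRight y) (fun x : G => if x⁻¹ * g * x = g then θ ⟨w, hw⟩ else 0))
  refine Finset.sum_congr rfl fun x _ => ?_
  have : (x * y)⁻¹ * g * (x * y) = g ↔ x⁻¹ * g * x = w := by
    rw [hwy]
    constructor
    · intro h
      calc x⁻¹ * g * x = y * ((x * y)⁻¹ * g * (x * y)) * y⁻¹ := by group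
        _ = y * g * y⁻¹ := by rw [h]
    · intro h
      calc (x * y)⁻¹ * g * (x * y) = y⁻¹ * (x⁻¹ * g * x) * y := by group
        _ = g := by rw [h]; group
  simp only [Equiv.coe_mulRight, this]

theorem indFun_mem (A : Subgroup G) (θ : A →* ℂˣ) (g : G) :
    indFun A (fun e => ((θ e : ℂˣ) : ℂ)) g ∈
      IntermediateField.adjoin ℚ {z : ℂ | ∃ χ : IrrCharacter G, (χ : G → ℂ) g = z} := by
  classical
  set E := IntermediateField.adjoin ℚ {z : ℂ | ∃ χ : IrrCharacter G, (χ : G → ℂ) g = z} with hE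
  haveI : Fintype A := Fintype.ofFinite A
  have hf : IsCharacter G (indFun A (fun e => ((θ e : ℂˣ) : ℂ))) :=
    indFun_isCharacter A (isCharacter_of_units_hom θ)
  have h1 := classFunction_eq_sum _ (IsCharacter.isClassFunction hf)
  have h2 := congrFun h1 g
  rw [h2, Finset.sum_apply]
  refine E.sum_mem fun χ _ => ?_
  obtain ⟨n, hn⟩ := classInner_isCharacter_nat hf (IsIrrCharacter.isCharacter χ.2)
  simp only [Pi.smul_apply, smul_eq_mul]
  rw [hn]
  refine E.mul_mem (E.natCast_mem n) ?_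
  exact IntermediateField.subset_adjoin _ _ ⟨χ, rfl⟩

end Ind

section Arith

theorem pow_half_eq_neg_one {ζ : ℂ} {l : ℕ} (hζ : IsPrimitiveRoot ζ (2 ^ (l + 1))) : ζ ^ (2 ^ l) = -1 := by
  have h1 : (ζ ^ 2 ^ l) ^ 2 = 1 := by
    rw [← pow_mul, ← pow_succ]
    exact hζ.pow_eq_one
  have h2 : ζ ^ 2 ^ l ≠ 1 := hζ.pow_ne_one_of_pos_of_lt (by positivity)
    (Nat.pow_lt_pow_right (by norm_num) (by omega))
  have h3 : (ζ ^ 2 ^ l - 1) * (ζ ^ 2 ^ l + 1) = 0 := by
    have : (ζ ^ 2 ^ l - 1) * (ζ ^ 2 ^ l + 1) = (ζ ^ 2 ^ l) ^ 2 - 1 := by ring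
    rw [this, h1, sub_self]
  rcases mul_eq_zero.1 h3 with h4 | h4
  · exact absurd (sub_eq_zero.1 h4) h2
  · exact eq_neg_of_add_eq_zero_left h4

theorem zpow_eq_of_dvd {ζ : ℂ} {m : ℕ} (hζ : IsPrimitiveRoot ζ m) {r s : ℤ} (h : (m : ℤ) ∣ r - s) :
    ζ ^ r = ζ ^ s := by
  have h1 : ζ ^ (r - s) = 1 := (hζ.zpow_eq_one_iff_dvd _).2 h
  have hm : ζ ≠ 0 ∨ m = 0 := by
    by_cases hm : m = 0
    · exact Or.inr hm
    · exact Or.inl (hζ.ne_zero hm)
  rcases hm with hm | hm
  · have : r = (r - s) + s := by ring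
    rw [this, zpow_add₀ hm, h1, one_mul]
  · subst hm
    have : r - s = 0 := by simpa using h
    have : r = s := by omega
    rw [this]

end Arith

section GroupFacts

variable {X : Type u} [Group X] [Finite X]

theorem index_four_of_dvd {n : ℕ} (hX : Nat.card X = 2 ^ n) (hnc : ¬ IsMulCommutative X)
    (h : (commutator X).index ∣ 4) : (commutator X).index = 4 := by
  haveI : Fact (Nat.Prime 2) := ⟨Nat.prime_two⟩
  have hXp : IsPGroup 2 X := IsPGroup.of_card hX
  have hcases : (commutator X).index = 1 ∨ (commutator X).index = 2 ∨ (commutator X).index = 4 := by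
    have h4 : (commutator X).index ≤ 4 := Nat.le_of_dvd (by norm_num) h
    interval_cases hh : (commutator X).index <;> simp_all <;> omega
  rcases hcases with h1 | h1 | h1
  · exfalso
    apply hnc
    refine Cfsg.Agent.Lib.Transfer.isMulCommutative_of_cyclic_abelianization hXp (x := 1) ?_
    rw [Subgroup.index_eq_one.1 h1]
    simp
  · exfalso
    apply hnc
    have hco : IsCoatom (commutator X) :=
      Cfsg.Agent.Lib.PGroup.isCoatom_of_index_prime (by rw [h1]; exact Nat.prime_two)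
    obtain ⟨x, hx⟩ : ∃ x : X, x ∉ commutator X := by
      by_contra hall
      push Not at hall
      have : commutator X = ⊤ := by
        ext x
        simp [hall x]
      rw [this] at hco
      exact hco.1 rfl
    refine Cfsg.Agent.Lib.Transfer.isMulCommutative_of_cyclic_abelianization hXp (x := x) ?_
    have := hco.2 (commutator X ⊔ zpowers x) (by
      refine lt_of_le_of_ne le_sup_left fun he => hx ?_
      rw [he]
      exact Subgroup.mem_sup_right (mem_zpowers x))
    rw [sup_comm]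
    exact this
  · exact h1

theorem index_four_of_conj {l : ℕ} (hX : Nat.card X = 2 ^ (l + 4)) {a b : X} (ha : orderOf a = 2 ^ (l + 3))
    (hnc : ¬ IsMulCommutative X) {r O : ℤ} (hr : b * a * b⁻¹ = a ^ r) (hO : r - 1 = 2 * (2 * O + 1)) :
    (commutator X).index = 4 := by
  refine index_four_of_dvd hX hnc ?_
  have hcomm : a ^ (2 * (2 * O + 1)) ∈ commutator X := by
    have h1 : ⁅b, a⁆ ∈ commutator X := Subgroup.commutator_mem_commutator (Subgroup.mem_top b) (Subgroup.mem_top a)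
    have h2 : ⁅b, a⁆ = a ^ (2 * (2 * O + 1)) := by
      rw [← hO, commutatorElement_def, hr, zpow_sub, zpow_one]
    rwa [h2] at h1
  obtain ⟨u, v, huv⟩ := Cfsg.Agent.Lib.Transfer.isCoprime_two_pow_of_odd (l + 2) O
  have h2 : a ^ (2 : ℤ) = (a ^ (2 * (2 * O + 1))) ^ v := by
    have h3 : a ^ ((2 : ℤ) ^ (l + 3)) = 1 := by
      have : a ^ (2 ^ (l + 3)) = 1 := by rw [← ha]; exact pow_orderOf_eq_one a
      exact_mod_cast this
    have h4 : (2 : ℤ) = 2 ^ (l + 3) * u + 2 * (2 * O + 1) * v := by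
      have : (2 : ℤ) ^ (l + 3) = 2 * 2 ^ (l + 2) := by ring
      rw [this]
      linear_combination (-2 : ℤ) * huv
    calc a ^ (2 : ℤ) = a ^ ((2 : ℤ) ^ (l + 3) * u + 2 * (2 * O + 1) * v) := by rw [← h4]
      _ = (a ^ (2 * (2 * O + 1))) ^ v := by
        rw [zpow_add, zpow_mul, h3, one_zpow, one_mul, zpow_mul]
  have h5 : a ^ 2 ∈ commutator X := by
    have : a ^ 2 = (a ^ (2 * (2 * O + 1))) ^ v := by
      rw [← h2]
      norm_cast
    rw [this]
    exact Subgroup.zpow_mem _ hcomm _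
  have h6 : zpowers (a ^ 2) ≤ commutator X := Subgroup.zpowers_le.2 h5
  have h7 : (commutator X).index ∣ (zpowers (a ^ 2)).index := Subgroup.index_dvd_of_le h6
  have h8 : (zpowers (a ^ 2)).index = 4 := by
    have h9 := Subgroup.card_mul_index (zpowers (a ^ 2))
    rw [Nat.card_zpowers, hX, orderOf_pow' a (by norm_num), ha] at h9
    have h10 : Nat.gcd (2 ^ (l + 3)) 2 = 2 := Nat.gcd_eq_right (dvd_pow_self 2 (by omega))
    rw [h10] at h9
    have h11 : 2 ^ (l + 3) / 2 = 2 ^ (l + 2) := by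
      rw [pow_succ 2 (l + 2)]
      simp
    rw [h11] at h9
    have h12 : 2 ^ (l + 4) = 2 ^ (l + 2) * 4 := by ring
    rw [h12] at h9
    exact Nat.eq_of_mul_eq_mul_left (by positivity) h9
  rwa [h8] at h7

theorem not_comm_of {a b : X} (h : b * a ≠ a * b) : ¬ IsMulCommutative X := by
  intro hc
  exact h (hc.is_comm.comm b a)

end GroupFacts

section Main

variable {G : Type u} [Group G] [Finite G]

/-- The forward direction. -/
theorem forward (P : Sylow 2 G) (n : ℕ) (hn : 3 ≤ n) (hP : Nat.card P = 2 ^ n) (ζ : ℂ)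
    (hζ : IsPrimitiveRoot ζ (2 ^ (n - 1))) (hidx : (commutator ↥(P : Subgroup G)).index = 4) :
    ∃ g : G, g ∈ (P : Subgroup G) ∧ 2 ∣ (centralizer ({g} : Set G)).index ∧
      (IntermediateField.adjoin ℚ {z : ℂ | ∃ χ : IrrCharacter G, (χ : G → ℂ) g = z} =
          IntermediateField.adjoin ℚ ({ζ + ζ⁻¹} : Set ℂ) ∨
        IntermediateField.adjoin ℚ {z : ℂ | ∃ χ : IrrCharacter G, (χ : G → ℂ) g = z} =
          IntermediateField.adjoin ℚ ({ζ - ζ⁻¹} : Set ℂ)) := by
  classical
  cases nonempty_fintype G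
  obtain ⟨a, b, ha, hi, hb, -, ⟨r, O, hr, hO⟩, hconj⟩ :=
    Cfsg.Agent.Lib.Transfer.index_four_data (X := ↥(P : Subgroup G)) n hn hP hidx
  set g : G := (a : G) with hg
  set y : G := (b : G) with hy
  have hgP : g ∈ (P : Subgroup G) := a.2
  have hord : orderOf g = 2 ^ (n - 1) := by
    rw [hg, Subgroup.orderOf_coe]
    exact ha
  have hgm : g ^ (2 ^ (n - 1)) = 1 := by
    rw [← hord]
    exact pow_orderOf_eq_one g
  have hyg : y * g * y⁻¹ = g ^ r := by
    have := congrArg Subtype.val hr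
    simpa using this
  haveI hnorm : (zpowers a).Normal := Subgroup.normal_of_index_eq_two hi
  obtain ⟨k, hk⟩ : ∃ k, n - 1 = k + 2 := ⟨n - 3, by omega⟩
  have hne : y * g * y⁻¹ ≠ g := by
    rw [hyg]
    intro h
    have h1 : g ^ r = g ^ (1 : ℤ) := by rw [h, zpow_one]
    have h2 := Cfsg.Agent.Lib.Transfer.dvd_of_zpow_eq hord h1
    rw [hO, hk] at h2
    obtain ⟨c, hc⟩ := h2
    have h3 : (2 : ℤ) ^ (k + 2) * c = 4 * (2 ^ k * c) := by ring
    rw [h3] at hc
    omega
  have hconjP : ∀ p : ↥(P : Subgroup G), ∃ i : ℤ, p * a * p⁻¹ = a ^ i := by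
    intro p
    have := hnorm.conj_mem a (mem_zpowers a) p
    obtain ⟨i, hi⟩ := this
    exact ⟨i, hi.symm⟩
  have hPN : (P : Subgroup G) ≤ normalizer ((zpowers g : Subgroup G) : Set G) := by
    intro p hp
    refine conj_mem_zpowers ?_
    obtain ⟨i, hi⟩ := hconjP ⟨p, hp⟩
    have h1 := congrArg Subtype.val hi
    refine ⟨i, ?_⟩
    simp only [Subgroup.coe_mul, InvMemClass.coe_inv, SubgroupClass.coe_zpow] at h1
    exact h1.symm
  have hp : ∀ p ∈ (P : Subgroup G), p * g * p⁻¹ = g ∨ p * g * p⁻¹ = y * g * y⁻¹ := by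
    intro p hpP
    set p' : ↥(P : Subgroup G) := ⟨p, hpP⟩ with hp'
    by_cases hm : p' ∈ zpowers a
    · left
      obtain ⟨i, hi⟩ := hm
      have h1 : p' * a * p'⁻¹ = a := by
        simp only [← hi]
        have : (fun i : ℤ => a ^ i) i * a = a * (fun i : ℤ => a ^ i) i := by
          simp only
          exact ((Commute.refl a).zpow_left i).eq
        rw [this]
        group
      have := congrArg Subtype.val h1
      simpa [hp'] using this
    · right
      have h1 : p' * b⁻¹ ∈ zpowers a := by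
        rw [Subgroup.mul_mem_iff_of_index_two hi]
        simp [hm, hb]
      obtain ⟨i, hi'⟩ := h1
      have h2 : p' = a ^ i * b := by
        have : (fun i : ℤ => a ^ i) i = p' * b⁻¹ := hi'
        simp only at this
        rw [this]
        group
      have h3 : p' * a * p'⁻¹ = b * a * b⁻¹ := by
        rw [h2, hr]
        have : a ^ i * b * a * (a ^ i * b)⁻¹ = a ^ i * (b * a * b⁻¹) * (a ^ i)⁻¹ := by group
        rw [this, hr]
        have h4 : a ^ i * a ^ r = a ^ r * a ^ i := ((Commute.refl a).zpow_zpow i r).eq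
        rw [h4]
        group
      have := congrArg Subtype.val h3
      simpa [hp'] using this
  have hd : ∀ x : G, x⁻¹ * g * x ∈ zpowers g → x⁻¹ * g * x = g ∨ x⁻¹ * g * x = y * g * y⁻¹ :=
    fun x hx => conj_dichotomy P hord hPN hp hx
  -- the linear character
  have hgen : ∀ x : zpowers g, x ∈ zpowers (⟨g, mem_zpowers g⟩ : zpowers g) := by
    rintro ⟨x, i, rfl⟩
    exact ⟨i, Subtype.ext (by simp)⟩
  have hpos : 0 < 2 ^ (n - 1) := by positivity
  let u : ℂˣ := (hζ.isUnit hpos.ne').unit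
  have hu : ((u : ℂˣ) : ℂ) = ζ := rfl
  have huo : orderOf u = 2 ^ (n - 1) := by
    rw [← orderOf_units, hu]
    exact hζ.eq_orderOf.symm
  have hgo : orderOf (⟨g, mem_zpowers g⟩ : zpowers g) = 2 ^ (n - 1) := by
    rw [Subgroup.orderOf_mk, hord]
  let θ : zpowers g →* ℂˣ := monoidHomOfForallMemZpowers hgen (by rw [huo, hgo])
  have hθg : θ ⟨g, mem_zpowers g⟩ = u := monoidHomOfForallMemZpowers_apply_gen hgen _
  have hwA : y * g * y⁻¹ ∈ zpowers g := by
    rw [hyg]
    exact ⟨r, rfl⟩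
  have hθw : ((θ ⟨y * g * y⁻¹, hwA⟩ : ℂˣ) : ℂ) = ζ ^ r := by
    have h1 : (⟨y * g * y⁻¹, hwA⟩ : zpowers g) = (⟨g, mem_zpowers g⟩ : zpowers g) ^ r :=
      Subtype.ext (by simpa using hyg)
    rw [h1, map_zpow, hθg, Units.val_zpow_eq_zpow_val, hu]
  have hev := indFun_eval (zpowers g) (fun e => ((θ e : ℂˣ) : ℂ)) (mem_zpowers g) hwA rfl hne hd
  simp only [hθw, hθg, hu] at hev
  have hmemE := indFun_mem (zpowers g) θ g
  rw [hev] at hmemE
  set E := IntermediateField.adjoin ℚ {z : ℂ | ∃ χ : IrrCharacter G, (χ : G → ℂ) g = z} with hE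
  have htE : ζ + ζ ^ r ∈ E := by
    have hA0 : (Nat.card (zpowers g) : ℂ) ≠ 0 := by
      exact_mod_cast Nat.card_pos.ne'
    have hC0 : (Nat.card (centralizer ({g} : Set G)) : ℂ) ≠ 0 := by
      exact_mod_cast Nat.card_pos.ne'
    have h1 : ζ + ζ ^ r = (Nat.card (centralizer ({g} : Set G)) : ℂ)⁻¹ * (Nat.card (zpowers g) : ℂ) *
        ((Nat.card (zpowers g) : ℂ)⁻¹ * ((Nat.card (centralizer ({g} : Set G)) : ℂ) * (ζ + ζ ^ r))) := by
      field_simp
    rw [h1]
    refine E.mul_mem (E.mul_mem (E.inv_mem (E.natCast_mem _)) (E.natCast_mem _)) hmemE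
  have hchar : ∀ K : IntermediateField ℚ ℂ, ζ + ζ ^ r ∈ K → ζ * ζ ^ r ∈ K → E ≤ K := by
    intro K h1 h2
    rw [hE, IntermediateField.adjoin_le_iff]
    rintro z ⟨χ, rfl⟩
    exact char_value_mem (IsIrrCharacter.isCharacter χ.2) hyg hζ hgm K h1 h2
  have hζ0 : ζ ≠ 0 := hζ.ne_zero hpos.ne'
  refine ⟨g, hgP, two_dvd_index hord hwA hne, ?_⟩
  have hcop : ∀ s : ℤ, g ^ r = g ^ s → ζ ^ r = ζ ^ s := by
    intro s hs
    refine zpow_eq_of_dvd hζ ?_
    have := Cfsg.Agent.Lib.Transfer.dvd_of_zpow_eq hord hs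
    exact_mod_cast this
  rcases hconj with h | h
  · left
    have h1 : g ^ r = g ^ (-1 : ℤ) := by
      rw [← hyg, zpow_neg_one]
      have := congrArg Subtype.val h
      simpa using this
    have h2 : ζ ^ r = ζ⁻¹ := by
      rw [hcop _ h1, zpow_neg_one]
    rw [h2] at htE hchar
    refine le_antisymm (hchar _ (IntermediateField.subset_adjoin _ _ rfl) ?_) ?_
    · rw [mul_inv_cancel₀ hζ0]
      exact IntermediateField.one_mem _
    · rw [IntermediateField.adjoin_le_iff]
      rintro z rfl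
      exact htE
  · right
    have hs : g ^ r = g ^ ((2 ^ (n - 2) : ℤ) - 1) := by
      rw [← hyg, zpow_sub, zpow_one]
      have := congrArg Subtype.val h
      have e : g ^ ((2 : ℤ) ^ (n - 2)) = g ^ (2 ^ (n - 2)) := by
        exact_mod_cast zpow_natCast g (2 ^ (n - 2))
      rw [e]
      simpa using this
    have h3 : ζ ^ (2 ^ (n - 2)) = -1 := by
      have e1 : n - 2 = k + 1 := by omega
      have e2 : n - 1 = k + 1 + 1 := by omega
      rw [e2] at hζ
      rw [e1]
      exact pow_half_eq_neg_one hζ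
    have h2 : ζ ^ r = -ζ⁻¹ := by
      rw [hcop _ hs, zpow_sub₀ hζ0, zpow_one]
      have : ζ ^ ((2 : ℤ) ^ (n - 2)) = -1 := by exact_mod_cast h3
      rw [this]
      field_simp
    rw [h2, ← sub_eq_add_neg] at htE
    rw [h2] at hchar
    refine le_antisymm (hchar _ ?_ ?_) ?_
    · rw [← sub_eq_add_neg]
      exact IntermediateField.subset_adjoin _ _ rfl
    · rw [mul_neg, mul_inv_cancel₀ hζ0]
      exact neg_mem (IntermediateField.one_mem _)
    · rw [IntermediateField.adjoin_le_iff]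
      rintro z rfl
      exact htE

/-- The backward direction. -/
theorem backward (P : Sylow 2 G) (n : ℕ) (hn : 3 ≤ n) (hP : Nat.card P = 2 ^ n) (ζ : ℂ)
    (hζ : IsPrimitiveRoot ζ (2 ^ (n - 1))) {g : G} (hgP : g ∈ (P : Subgroup G))
    (h2 : 2 ∣ (centralizer ({g} : Set G)).index) {t c : ℂ} (hc : c = 1 ∨ c = -1) (ht : t = ζ + c * ζ⁻¹)
    (htE : t ∈ IntermediateField.adjoin ℚ {z : ℂ | ∃ χ : IrrCharacter G, (χ : G → ℂ) g = z}) :
    (commutator ↥(P : Subgroup G)).index = 4 := by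
  classical
  set E := IntermediateField.adjoin ℚ {z : ℂ | ∃ χ : IrrCharacter G, (χ : G → ℂ) g = z} with hE
  obtain ⟨y, hyP, hyg⟩ : ∃ y ∈ (P : Subgroup G), y * g ≠ g * y := by
    by_contra hall
    push Not at hall
    have h1 : (P : Subgroup G) ≤ centralizer ({g} : Set G) := by
      intro p hp
      rw [mem_centralizer_singleton_iff]
      exact hall p hp
    have h3 := Subgroup.index_dvd_of_le h1
    exact P.not_dvd_index (h2.trans h3)
  let a : ↥(P : Subgroup G) := ⟨g, hgP⟩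
  let b : ↥(P : Subgroup G) := ⟨y, hyP⟩
  have hab : b * a ≠ a * b := by
    intro h
    exact hyg (congrArg Subtype.val h)
  have hnc : ¬ IsMulCommutative ↥(P : Subgroup G) := not_comm_of hab
  have hXp : IsPGroup 2 ↥(P : Subgroup G) := IsPGroup.of_card hP
  by_cases hn3 : n = 3
  · subst hn3
    refine index_four_of_dvd hP hnc ?_
    have h1 := Subgroup.card_mul_index (commutator ↥(P : Subgroup G))
    rw [hP] at h1
    have h3 : (commutator ↥(P : Subgroup G)).index ∣ 2 ^ 3 := ⟨_, by rw [← h1, mul_comm]⟩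
    obtain ⟨f, hf, hf'⟩ := (Nat.dvd_prime_pow Nat.prime_two).1 h3
    rw [hf']
    have hf3 : f ≠ 3 := by
      rintro rfl
      rw [hf'] at h1
      have h4 : Nat.card (commutator ↥(P : Subgroup G)) = 1 := by omega
      have h5 : commutator ↥(P : Subgroup G) = ⊥ := Subgroup.card_eq_one.1 h4
      apply hnc
      refine ⟨⟨fun x z => ?_⟩⟩
      have h6 : ⁅x, z⁆ ∈ commutator ↥(P : Subgroup G) :=
        Subgroup.commutator_mem_commutator (Subgroup.mem_top x) (Subgroup.mem_top z)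
      rw [h5, Subgroup.mem_bot] at h6
      exact commutatorElement_eq_one_iff_mul_comm.1 h6
    have hf2 : f ≤ 2 := by omega
    exact pow_dvd_pow 2 hf2
  obtain ⟨l, rfl⟩ : ∃ l, n = l + 4 := ⟨n - 4, by omega⟩
  have e1 : l + 4 - 1 = l + 3 := by omega
  rw [e1] at hζ
  set K := IntermediateField.adjoin ℚ ({ζ ^ 2} : Set ℂ) with hK
  have htK : t ∉ K := by
    rw [ht]
    exact t_not_mem hζ hc
  have hEK : ¬ E ≤ K := fun h => htK (h htE)
  have hsK : ζ ^ 2 ∈ K := IntermediateField.subset_adjoin _ _ rfl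
  have hpos : 0 < 2 ^ (l + 3) := by positivity
  have hζ2 : IsPrimitiveRoot (ζ ^ 2) (2 ^ (l + 2)) := hζ.pow hpos (by ring)
  -- the order of `g`
  have hnot : g ^ (2 ^ (l + 2)) ≠ 1 := by
    intro h1
    apply hEK
    rw [hE, IntermediateField.adjoin_le_iff]
    rintro z ⟨χ, rfl⟩
    exact char_value_mem_of_pow (IsIrrCharacter.isCharacter χ.2) hζ2 h1 K hsK
  have hao : orderOf a ∣ 2 ^ (l + 4) := by
    rw [← hP]
    exact orderOf_dvd_natCard a
  obtain ⟨f, hf, hf'⟩ := (Nat.dvd_prime_pow Nat.prime_two).1 hao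
  have hag : orderOf g = 2 ^ f := by
    rw [← hf']
    exact (Subgroup.orderOf_mk g hgP).symm
  have hf2 : l + 3 ≤ f := by
    by_contra hlt
    apply hnot
    have h1 : orderOf g ∣ 2 ^ (l + 2) := by
      rw [hag]
      exact pow_dvd_pow 2 (by omega)
    exact orderOf_dvd_iff_pow_eq_one.1 h1
  have hf3 : f ≠ l + 4 := by
    rintro rfl
    have h1 : zpowers a = ⊤ := by
      apply Subgroup.eq_top_of_card_eq
      rw [Nat.card_zpowers, hf', hP]
    have hb : b ∈ zpowers a := by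
      rw [h1]
      trivial
    obtain ⟨i, hi⟩ := hb
    apply hab
    rw [← hi]
    exact ((Commute.refl a).zpow_left i).eq
  have hf4 : f = l + 3 := by omega
  subst hf4
  have hi : (zpowers a).index = 2 := by
    have h1 := Subgroup.card_mul_index (zpowers a)
    rw [Nat.card_zpowers, hf', hP] at h1
    have h3 : 2 ^ (l + 4) = 2 ^ (l + 3) * 2 := by ring
    rw [h3] at h1
    exact Nat.eq_of_mul_eq_mul_left (by positivity) h1
  haveI hnorm : (zpowers a).Normal := Subgroup.normal_of_index_eq_two hi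
  obtain ⟨r, hr⟩ := hnorm.conj_mem a (mem_zpowers a) b
  replace hr : b * a * b⁻¹ = a ^ r := hr.symm
  have hyr : y * g * y⁻¹ = g ^ r := by
    have := congrArg Subtype.val hr
    simpa [a, b] using this
  -- `r ^ 2 ≡ 1`
  have hsq : (2 : ℤ) ^ (l + 3) ∣ r ^ 2 - 1 := by
    obtain ⟨s, hs⟩ := Subgroup.mul_self_mem_of_index_two hi b
    have h1 : (b * b) * a * (b * b)⁻¹ = a := by
      have hs' : a ^ s = b * b := hs
      rw [← hs']
      have : a ^ s * a = a * a ^ s := ((Commute.refl a).zpow_left s).eq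
      rw [this]
      group
    have h3 : (b * b) * a * (b * b)⁻¹ = a ^ (r ^ 2) := by
      have h4 : (b * b) * a * (b * b)⁻¹ = b * (b * a * b⁻¹) * b⁻¹ := by group
      rw [h4, hr, ← conj_zpow, hr, ← zpow_mul]
      congr 1
      ring
    have h4 : a ^ (r ^ 2) = a ^ (1 : ℤ) := by
      rw [← h3, h1, zpow_one]
    exact Cfsg.Agent.Lib.Transfer.dvd_of_zpow_eq hf' h4
  obtain ⟨w, hw⟩ := Cfsg.Agent.Lib.Transfer.int_sq_cases (l + 3) (by omega) r hsq
  have e2 : l + 3 - 1 = l + 2 := by omega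
  rw [e2] at hw
  have h2l : (2 : ℤ) ^ (l + 3) = 2 * 2 ^ (l + 2) := by ring
  have h2l' : (2 : ℤ) ^ (l + 2) = 2 * 2 ^ (l + 1) := by ring
  have h2l'' : (2 : ℤ) ^ (l + 1) = 2 * 2 ^ l := by ring
  rcases hw with rfl | rfl | rfl | rfl
  · exfalso
    apply hab
    have h1 : a ^ ((1 : ℤ) + 2 ^ (l + 3) * w) = a := by
      have h3 : a ^ ((2 : ℤ) ^ (l + 3)) = 1 := by
        have : a ^ (2 ^ (l + 3)) = 1 := by rw [← hf']; exact pow_orderOf_eq_one a
        exact_mod_cast this
      rw [zpow_add, zpow_one, zpow_mul, h3, one_zpow, mul_one]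
    rw [h1] at hr
    calc b * a = (b * a * b⁻¹) * b := by group
      _ = a * b := by rw [hr]
  · refine index_four_of_conj hP hf' hnc hr (O := -1 + 2 ^ (l + 1) * w) ?_
    rw [h2l, h2l']
    ring
  · exfalso
    apply hEK
    rw [hE, IntermediateField.adjoin_le_iff]
    rintro z ⟨χ, rfl⟩
    have hζ0 : ζ ≠ 0 := hζ.ne_zero hpos.ne'
    have h3 : ζ ^ (2 ^ (l + 2)) = -1 := pow_half_eq_neg_one hζ
    have h4 : ζ ^ ((1 : ℤ) + 2 ^ (l + 2) + 2 ^ (l + 3) * w) = -ζ := by
      have h5 : ζ ^ ((2 : ℤ) ^ (l + 3)) = 1 := by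
        have : ζ ^ (2 ^ (l + 3)) = 1 := hζ.pow_eq_one
        exact_mod_cast this
      have h6 : ζ ^ ((2 : ℤ) ^ (l + 2)) = -1 := by exact_mod_cast h3
      rw [zpow_add₀ hζ0, zpow_add₀ hζ0, zpow_one, zpow_mul, h5, one_zpow, mul_one, h6]
      ring
    refine char_value_mem (IsIrrCharacter.isCharacter χ.2) hyr hζ ?_ K ?_ ?_
    · rw [← hag]
      exact pow_orderOf_eq_one g
    · rw [h4]
      simp
    · rw [h4]
      have : ζ * -ζ = -(ζ ^ 2) := by ring
      rw [this]
      exact neg_mem hsK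
  · refine index_four_of_conj hP hf' hnc hr (O := -1 + 2 ^ l + 2 ^ (l + 1) * w) ?_
    rw [h2l, h2l', h2l'']
    ring

end Main

end Cfsg.Agent.Lib.CharExtra.SylowFour
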